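import Cfsg.Agent.G2Deg97.Group
import Cfsg.Agent.Chevalley.Bruhat

/-!
The twelve Bruhat cells of `G₂(q)`, covered by products of root subgroups, reflections and the Borel
subgroup.
-/

set_option autoImplicit false

namespace CfsgLib.G2Deg97

open Cfsg.Lie CfsgLib.Chevalley

variable {F : Type*} [Field F]

/-- A fundamental reflection on root indices. -/
def refl2 (i : Fin 2) (r : Fin 12) : Fin 12 := ⟨chevG2.reflectRoot i r % 12, Nat.mod_lt _ (by norm_num)⟩

theorem refl2_val : ∀ (i : Fin 2) (r : Fin 12), (refl2 i r : ℕ) = chevG2.reflectRoot i r := by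
  decide +kernel

/-- A word in the reflections acting on root indices. -/
def wp (L : List (Fin 2)) (r : Fin 12) : Fin 12 := L.foldr refl2 r

/-- The twelve reduced words. -/
def words : List (List (Fin 2)) :=
  [[], [0], [1], [0, 1], [1, 0], [0, 1, 0], [1, 0, 1], [0, 1, 0, 1], [1, 0, 1, 0], [0, 1, 0, 1, 0],
    [1, 0, 1, 0, 1], [0, 1, 0, 1, 0, 1]]

theorem wperm_val (L : List (Fin chevG2.rank)) (r : Fin chevG2.nroots) :
    (sysG2.wperm L r : ℕ) = (wp L r : ℕ) := by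
  induction L with
  | nil => rfl
  | cons i L ih =>
    rw [Sys.wperm_cons, Equiv.Perm.mul_apply, Sys.srefl_val, ih]
    exact (refl2_val i (wp L r)).symm

theorem words_closed : ∀ i : Fin 2, ∀ L ∈ words, ∃ L' ∈ words, ∀ r, refl2 i (wp L r) = wp L' r := by
  decide +kernel

theorem exists_word (L : List (Fin 2)) : ∃ L' ∈ words, ∀ r, wp L r = wp L' r := by
  induction L with
  | nil => exact ⟨[], List.mem_cons_self, fun r => rfl⟩
  | cons i L ih =>
    obtain ⟨L', hL', e⟩ := ih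
    obtain ⟨L'', hL'', e'⟩ := words_closed i L' hL'
    exact ⟨L'', hL'', fun r => by rw [← e' r, ← e r]; rfl⟩

theorem Tor_eq_tor (c : ℕ → Fˣ) :
    tor chevG2 F c = ((Tor (c 0 ^ 2 * (c 1)⁻¹) (c 1 ^ 2 * (c 0 ^ 3)⁻¹) : ↥(GG F)) : GL chevG2.Idx F) := by
  refine Units.ext ?_
  show _ = (tor chevG2 F _ : Matrix chevG2.Idx chevG2.Idx F)
  rw [Sys.tor_val sysG2, Sys.tor_val sysG2]
  refine dg_congr fun s _ => ?_
  congr 1
  rw [torusVal, torusVal, show chevG2.rank = 2 from rfl]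
  simp only [Finset.prod_range_succ, Finset.prod_range_zero, if_pos, one_ne_zero, if_false]
  congr 2 <;> congr 1 <;>
  · refine Units.ext ?_
    push_cast
    field_simp

/-- The Borel subgroup inside the group. -/
noncomputable def BB (F : Type*) [Field F] : Subgroup ↥(GG F) :=
  (chevG2.borelSubgroup F).subgroupOf (GG F)

theorem X_mem_BB {r : Fin 12} (hr : 6 ≤ (r : ℕ)) (t : F) : X r t ∈ BB F :=
  Subgroup.mem_subgroupOf.2 (sysG2.xG_mem_borel F hr r.isLt t)

theorem Tor_mem_BB (A B : Fˣ) : Tor A B ∈ BB F :=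
  Subgroup.mem_subgroupOf.2 (Subgroup.mem_sup_right (by rw [sysG2.diagonal_eq]; exact ⟨_, rfl⟩))

theorem BB_le {H : Subgroup ↥(GG F)} (hX : ∀ r : Fin 12, 6 ≤ (r : ℕ) → ∀ t, X r t ∈ H)
    (hT : ∀ A B, Tor A B ∈ H) : BB F ≤ H := by
  intro b hb
  obtain ⟨u, hu, c, e⟩ := (sysG2.mem_borel F).1 (Subgroup.mem_subgroupOf.1 hb)
  have hU : chevG2.posUnipotent F ≤ H.map (GG F).subtype := by
    rw [sysG2.posUnipotent_eq F, Subgroup.closure_le]
    rintro g ⟨r, ⟨h6, hlt⟩, t, rfl⟩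
    exact ⟨X ⟨r, hlt⟩ t, hX ⟨r, hlt⟩ h6 t, rfl⟩
  obtain ⟨u', hu', eu⟩ := hU hu
  have : b = u' * Tor (c 0 ^ 2 * (c 1)⁻¹) (c 1 ^ 2 * (c 0 ^ 3)⁻¹) := by
    refine Subtype.ext ?_
    rw [e, Subgroup.coe_mul, ← Tor_eq_tor]
    exact congrArg (· * _) eu.symm
  rw [this]
  exact H.mul_mem hu' (hT _ _)

/-- The index of a fundamental root. -/
def sidx (i : Fin 2) : Fin 12 := ![7, 6] i

theorem sidx_val : ∀ i : Fin 2, chevG2.simple i = (sidx i : ℕ) := by decide +kernel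

/-- A product of reflections. -/
noncomputable def nW (L : List (Fin 2)) : ↥(GG F) := (L.map nn).prod

theorem wN_val (L : List (Fin chevG2.rank)) :
    ((sysG2.wN F L : ↥(chevG2.monomialSubgroup F)) : GL chevG2.Idx F) = ((nW L : ↥(GG F)) : GL chevG2.Idx F) := by
  induction L with
  | nil => rfl
  | cons i L ih =>
    rw [Sys.wN_cons, Subgroup.coe_mul, ih]
    show _ = ((nW (i :: L) : ↥(GG F)) : GL chevG2.Idx F)
    rfl

theorem exists_decomp (g : ↥(GG F)) :
    ∃ L ∈ words, ∃ a ∈ BB F, ∃ c ∈ BB F, g = a * nW L * c := by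
  obtain ⟨a, ha, n, hn, c, hc, e⟩ := sysG2.exists_bruhat F g.2
  obtain ⟨L, h, hh, eL⟩ := sysG2.exists_wN F ⟨n, hn⟩
  obtain ⟨L', hL', ew⟩ := exists_word L
  have hp : sysG2.perm F (sysG2.wN F L') = sysG2.perm F (sysG2.wN F L) := by
    refine (sysG2.perm_wN F L').trans (Eq.trans ?_ (sysG2.perm_wN F L).symm)
    refine Equiv.ext fun r => Fin.ext ?_
    exact (wperm_val L' r).trans ((congrArg Fin.val (ew r).symm).trans (wperm_val L r).symm)
  have hd : ((((sysG2.wN F L')⁻¹ * sysG2.wN F L) * h : ↥(chevG2.monomialSubgroup F)) : GL chevG2.Idx F) ∈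
      chevG2.borelSubgroup F :=
    Subgroup.mem_sup_right (Subgroup.mem_subgroupOf.1 ((hSub chevG2 F).mul_mem
      ((sysG2.perm_eq_iff F).1 hp) hh))
  have hdc := (chevG2.borelSubgroup F).mul_mem hd hc
  refine ⟨L', hL', ⟨a, sysG2.borel_le_group F ha⟩, Subgroup.mem_subgroupOf.2 ha,
    ⟨_, sysG2.borel_le_group F hdc⟩, Subgroup.mem_subgroupOf.2 hdc, Subtype.ext ?_⟩
  have en : n = ((sysG2.wN F L : ↥(chevG2.monomialSubgroup F)) : GL chevG2.Idx F) *
      ((h : ↥(chevG2.monomialSubgroup F)) : GL chevG2.Idx F) := congrArg Subtype.val eL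
  have ew' := wN_val (F := F) L'
  simp only [Subgroup.coe_mul, Subgroup.coe_inv]
  rw [e, en, ← ew']
  group

theorem word_conj_nn : ∀ (L : List (Fin 2)) (r : Fin 12),
    ∃ c : F, ∀ t, nW L * X r t = X (wp L r) (c * t) * nW L
  | [], r => ⟨1, fun t => by simp [wp, nW]⟩
  | i :: L, r => by
    obtain ⟨c, hc⟩ := word_conj_nn L r
    obtain ⟨d, -, -, hd⟩ := nn_conj (F := F) i (wp L r) (refl2 i (wp L r)) (refl2_val i (wp L r)).symm
    refine ⟨d * c, fun t => ?_⟩
    rw [show nW (i :: L) = nn (F := F) i * nW L from rfl, mul_assoc, hc, ← mul_assoc, hd, mul_assoc d,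
      mul_assoc]
    rfl

theorem BB_nn (i : Fin 2) {b : ↥(GG F)} (hb : b ∈ BB F) :
    ∃ t : F, ∃ b' ∈ BB F, b * nn i = X (sidx i) t * nn i * b' := by
  obtain ⟨u, hu, t, h, hh, e⟩ :=
    sysG2.borel_eq_others_mul F i.isLt (inv_mem (Subgroup.mem_subgroupOf.1 hb))
  rw [sysG2.diagonal_eq] at hh
  obtain ⟨c, rfl⟩ := hh
  set A := c 0 ^ 2 * (c 1)⁻¹
  set B := c 1 ^ 2 * (c 0 ^ 3)⁻¹
  set s : F := ((A⁻¹ ^ ea (sidx i) * B⁻¹ ^ eb (sidx i) : Fˣ) : F) * -t with hs
  set N := sysG2.nG F (chevG2.simple i) 1 with hN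
  set T : GL chevG2.Idx F := tor chevG2 F c
  have hT : T⁻¹ = ((Tor A⁻¹ B⁻¹ : ↥(GG F)) : GL chevG2.Idx F) := by
    refine inv_eq_of_mul_eq_one_right ?_
    rw [show T = _ from Tor_eq_tor c, ← Subgroup.coe_mul, Tor_mul, mul_inv_cancel, mul_inv_cancel]
    exact (congrArg _ (funext fun j => by split_ifs <;> simp)).trans (map_one _)
  have h1 : N⁻¹ * T⁻¹ * N ∈ chevG2.borelSubgroup F := Subgroup.mem_sup_right (by
    have := (Subgroup.mem_normalizer_iff.mp
      (sysG2.monomial_le_normalizer F (inv_mem (sysG2.nG_mem_monomial F i.isLt))) T⁻¹).mp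
      (inv_mem (by rw [sysG2.diagonal_eq]; exact ⟨c, rfl⟩))
    simpa [hN] using this)
  have h2 : N⁻¹ * u⁻¹ * N ∈ chevG2.borelSubgroup F := by
    refine sysG2.others_le_borel F i ?_
    have := sysG2.nG_conj_others F i.isLt (-1) (inv_mem hu)
    rwa [sysG2.nG_neg_one, inv_inv] at this
  have h3 := (chevG2.borelSubgroup F).mul_mem h1 h2
  refine ⟨s, ⟨_, sysG2.borel_le_group F h3⟩, Subgroup.mem_subgroupOf.2 h3, Subtype.ext ?_⟩
  have e' : ((b : ↥(GG F)) : GL chevG2.Idx F) = T⁻¹ * sysG2.xG F (sidx i) (-t) * u⁻¹ := by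
    rw [← inv_inv ((b : ↥(GG F)) : GL chevG2.Idx F), e, ← sidx_val i, ← sysG2.xG_inv]
    group
  have e'' : T⁻¹ * sysG2.xG F (sidx i) (-t) = sysG2.xG F (sidx i) s * T⁻¹ := by
    rw [hT, ← X_val, ← X_val, ← Subgroup.coe_mul, ← Subgroup.coe_mul, Tor_conj, hs]
  simp only [Subgroup.coe_mul, X_val]
  rw [e', e'']
  show _ = _ * N * _
  show _ * N = _
  group

variable [Fintype F]

/-- A cover of a Bruhat cell. -/
noncomputable def cellF [DecidableEq ↥(GG F)] [Fintype ↥(GG F)] [DecidablePred (· ∈ BB F)] :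
    List (Fin 2) → Finset ↥(GG F)
  | [] => Finset.univ.filter (· ∈ BB F)
  | i :: L => ((Finset.univ : Finset F) ×ˢ cellF L).image fun p => X (sidx i) p.1 * nn i * p.2

variable [DecidableEq ↥(GG F)] [Fintype ↥(GG F)] [DecidablePred (· ∈ BB F)]

theorem card_cellF : ∀ L : List (Fin 2),
    (cellF (F := F) L).card ≤ Fintype.card F ^ L.length * Nat.card (BB F)
  | [] => by simp [cellF, Nat.card_eq_fintype_card, Fintype.card_subtype]
  | i :: L => by
    rw [cellF, List.length_cons, pow_succ, mul_comm (_ ^ _), mul_assoc]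
    refine Finset.card_image_le.trans ?_
    rw [Finset.card_product, Finset.card_univ]
    exact Nat.mul_le_mul_left _ (card_cellF L)

theorem BB_mul_cellF : ∀ (L : List (Fin 2)) {b g : ↥(GG F)}, b ∈ BB F → g ∈ cellF L → b * g ∈ cellF L
  | [], b, g, hb, hg => by
    simp only [cellF, Finset.mem_filter, Finset.mem_univ, true_and] at hg ⊢
    exact mul_mem hb hg
  | i :: L, b, g, hb, hg => by
    simp only [cellF, Finset.mem_image, Finset.mem_product, Finset.mem_univ, true_and] at hg ⊢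
    obtain ⟨⟨t, g'⟩, hg', rfl⟩ := hg
    have hr : 6 ≤ ((sidx i : Fin 12) : ℕ) := by revert i; decide
    obtain ⟨s, b', hb', e⟩ := BB_nn i (mul_mem hb (X_mem_BB hr t))
    exact ⟨(s, b' * g'), BB_mul_cellF L hb' hg', by
      simp only; rw [← mul_assoc, ← mul_assoc, ← mul_assoc, ← e]⟩

theorem nW_mul_mem_cellF : ∀ (L : List (Fin 2)) {c : ↥(GG F)}, c ∈ BB F → nW L * c ∈ cellF L
  | [], c, hc => by simpa [cellF, nW] using hc
  | i :: L, c, hc => by
    simp only [cellF, Finset.mem_image, Finset.mem_product, Finset.mem_univ, true_and]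
    exact ⟨(0, nW L * c), nW_mul_mem_cellF L hc, by
      simp [X_zero, nW, mul_assoc]⟩

end CfsgLib.G2Deg97
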