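import Cfsg.Agent.G2Deg97.Rep

/-!
The dimension in terms of the weights on the highest root subgroup and on the radical.
-/

set_option autoImplicit false

namespace CfsgLib.G2Deg97

open Cfsg.Lie CfsgLib.Chevalley CfsgLib.WeightProj65
open SelfDual (pair)

variable {F : Type*} [Field F] {V : Type*} [AddCommGroup V] [Module ℂ V]
  (ρ : Representation ℂ ↥(GG F) V)

theorem rho_left_inv {g g' : ↥(GG F)} (h : g' * g = 1) : ρ g' * ρ g = 1 := by
  rw [← map_mul, h, map_one]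

theorem X_cancel (r : Fin 12) (t : F) : X r (-t) * X r t = 1 := by
  rw [X_add, neg_add_cancel, X_zero]

theorem Tor_cancel (A B : Fˣ) : Tor A⁻¹ B⁻¹ * Tor A B = 1 := by
  rw [Tor_mul, inv_mul_cancel, inv_mul_cancel]
  exact Subtype.ext ((congrArg _ (funext fun j => by split_ifs <;> simp)).trans (map_one _))

theorem Tor_op (A B : Fˣ) (r : Fin 12) {c : F} (hc : ((A ^ ea r * B ^ eb r : Fˣ) : F) = c) (t : F) :
    op ρ r (c * t) * ρ (Tor A B) = ρ (Tor A B) * op ρ r t := by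
  rw [op_apply, op_apply, ← map_mul, ← map_mul, Tor_conj, hc]

variable [Fintype F] [FiniteDimensional ℂ V] (ψ : AddChar F ℂ)

/-- The multiplicity of the weight `(0, 1)` of `(x₁₀, x₁₁)`. -/
noncomputable def eB : ℕ := mu ψ (actB ρ) ((0 : F), (1 : F))

theorem mu_actB_shift (β ζ t : F) : mu ψ (actB ρ) (β + t * ζ, ζ) = mu ψ (actB ρ) (β, ζ) := by
  let L : F × F → F × F := fun x => (x.1, x.2 + t * x.1)
  refine (mu_move (actB ρ) (actB ρ) (T := ρ (X 6 t)) (T' := ρ (X 6 (-t)))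
    (rho_left_inv ρ (X_cancel 6 t)) L ?_ ?_ ?_).symm
  · exact fun y => ⟨(y.1, y.2 - t * y.1), by simp [L]⟩
  · rintro ⟨b, z⟩
    have e : X 10 b * X 6 t = X 6 t * X 10 b * X 11 (-(t * b)) := by
      rw [X_swap_one 6 10 11 (C := 1) (i := 1) (j := 1) (by decide +kernel) t b]
      congr 2
      push_cast
      ring
    have c : X 11 (z + t * b) * X 6 t = X 6 t * X 11 (z + t * b) := X_comm 6 11 (by decide +kernel) _ _
    have c10 : ∀ a a' : F, X 11 a * X 10 a' = X 10 a' * X 11 a := fun a a' =>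
      X_comm 10 11 (by decide +kernel) a' a
    simp only [actB, prodAct_apply, op_apply, L, ← map_mul]
    congr 1
    rw [mul_assoc (X 10 b), c, ← mul_assoc, e, mul_assoc (X 6 t * X 10 b), X_add,
      show -(t * b) + (z + t * b) = z by ring, mul_assoc]
  · rintro ⟨b, z⟩
    simp only [L, pair_prod, pair_field]
    ring

theorem mu_actB_of_ne {β ζ : F} (hζ : ζ ≠ 0) : mu ψ (actB ρ) (β, ζ) = eB ρ ψ := by
  have h1 := mu_actB_shift ρ ψ β ζ (-(β / ζ))
  rw [neg_mul, div_mul_cancel₀ _ hζ, add_neg_cancel] at h1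
  rw [← h1]
  have hA := mu_move (ψ := ψ) (actB ρ) (actB ρ) (T := ρ (Tor (Units.mk0 ζ hζ) (Units.mk0 ζ hζ)⁻¹))
    (T' := ρ (Tor (Units.mk0 ζ hζ)⁻¹ (Units.mk0 ζ hζ)⁻¹⁻¹)) (rho_left_inv ρ (Tor_cancel _ _))
    (fun x => (ζ ^ 2 * x.1, ζ * x.2)) (fun y => ⟨((ζ ^ 2)⁻¹ * y.1, ζ⁻¹ * y.2),
      Prod.ext (by simp [hζ]) (by simp [hζ])⟩) (a := ((0 : F), ζ)) (b := ((0 : F), 1)) ?_ ?_
  · exact hA.symm
  · rintro ⟨b, z⟩
    simp only [actB, prodAct_apply]
    rw [mul_assoc, Tor_op ρ _ _ 11 ?_, ← mul_assoc, Tor_op ρ _ _ 10 ?_, mul_assoc]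
    · simp [ea, eb, zpow_ofNat]; field_simp
    · simp [ea, eb, zpow_ofNat]; field_simp
  · rintro ⟨b, z⟩
    simp only [pair_prod, pair_field]
    ring

theorem mu_op11 (hψ : ψ ≠ 1) {ζ : F} (hζ : ζ ≠ 0) :
    mu ψ (op ρ 11) ζ = Fintype.card F * eB ρ ψ := by
  have h := mu_marginal hψ (actB ρ) ζ
  rw [show (actB ρ).compAddMonoidHom (AddMonoidHom.inr F F) = op ρ 11 from
    DFunLike.ext _ _ fun y => by simp [actB, prodAct_apply]] at h
  rw [h, Finset.sum_congr rfl fun β _ => mu_actB_of_ne ρ ψ hζ, Finset.sum_const, Finset.card_univ,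
    smul_eq_mul]

omit [Fintype F] in
theorem mu_op10 {β : F} (hβ : β ≠ 0) : ∃ ζ, ζ ≠ 0 ∧ mu ψ (op ρ 10) β = mu ψ (op ρ 11) ζ := by
  obtain ⟨c, hc, -, e⟩ := nn_conj (F := F) 1 10 11 (by decide +kernel)
  refine ⟨β / c, div_ne_zero hβ hc, (mu_move (op ρ 10) (op ρ 11) (T := ρ (nn 1)) (T' := ρ (nn 1)⁻¹)
    (rho_left_inv ρ (inv_mul_cancel _)) (fun x => c * x)
    (fun y => ⟨c⁻¹ * y, mul_inv_cancel_left₀ hc y⟩) ?_ ?_).symm⟩
  · intro t
    rw [op_apply, op_apply, ← map_mul, ← map_mul, e t]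
  · intro t
    simp only [pair_field]
    field_simp

theorem mu_actB_zero (hψ : ψ ≠ 1) {β : F} (hβ : β ≠ 0) :
    mu ψ (actB ρ) (β, (0 : F)) = eB ρ ψ := by
  classical
  let e : F × F →+ F × F := ⟨⟨fun x => (x.2, x.1), rfl⟩, fun _ _ => rfl⟩
  have hre : ∀ ζ, mu ψ ((actB ρ).compAddMonoidHom e) (ζ, β) = mu ψ (actB ρ) (β, ζ) := fun ζ =>
    mu_reindex _ e (fun y => ⟨(y.2, y.1), rfl⟩) fun y => by
      simp only [e, pair_prod]; exact add_comm _ _
  have h := mu_marginal hψ ((actB ρ).compAddMonoidHom e) β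
  rw [show ((actB ρ).compAddMonoidHom e).compAddMonoidHom (AddMonoidHom.inr F F) = op ρ 10 from
    DFunLike.ext _ _ fun y => by simp [actB, prodAct_apply, e]] at h
  obtain ⟨ζ, hζ, hD⟩ := mu_op10 ρ ψ hβ
  rw [hD, mu_op11 ρ ψ hψ hζ, ← Finset.add_sum_erase _ _ (Finset.mem_univ (0 : F)), hre,
    Finset.sum_congr rfl fun ζ hζ => (hre ζ).trans (mu_actB_of_ne ρ ψ (Finset.ne_of_mem_erase hζ)),
    Finset.sum_const, Finset.card_erase_of_mem (Finset.mem_univ _), Finset.card_univ, smul_eq_mul] at h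
  have h1 := Fintype.card_pos (α := F)
  obtain ⟨j, hj⟩ := Nat.exists_eq_add_of_le h1
  rw [hj, Nat.succ_eq_add_one, zero_add, Nat.add_sub_cancel_left, add_mul, one_mul] at h
  omega

theorem mem_fix_one {r : Fin 12} {v : V} : v ∈ fixSp ρ [r] ↔ ∀ t : F, ρ (X r t) v = v := by
  simp [mem_fixSp]

theorem mu_op11_zero (hψ : ψ ≠ 1) : mu ψ (op ρ 11) (0 : F) = Module.finrank ℂ (fixSp ρ [11]) := by
  rw [mu, show wt (op ρ 11) (chr ψ (0 : F)) = fixSp ρ [11] from Submodule.ext fun v => by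
    rw [mem_wt, mem_fix_one]
    refine forall_congr' fun t => ?_
    rw [pair_zero_left, AddChar.map_zero_eq_one, one_smul, op_apply]]

theorem sum_mc (hψ : ψ ≠ 1) :
    ∑ f : F × F × F × F, mc ρ ψ f = Module.finrank ℂ (fixSp ρ [11]) := by
  rw [← sum_mu hψ (act0 ρ)]
  refine Fintype.sum_equiv ⟨fun f => (f.1, -f.2.2.2, f.2.1, f.2.2.1),
    fun x => (x.1, x.2.2.1, x.2.2.2, -x.2.1), fun f => by simp, fun x => by simp⟩ _ _ fun f => rfl

theorem finrank_eq (hψ : ψ ≠ 1) : Module.finrank ℂ V =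
    Module.finrank ℂ (fixSp ρ [11]) + (Fintype.card F - 1) * (Fintype.card F * eB ρ ψ) := by
  classical
  rw [← sum_mu hψ (op ρ 11), ← Finset.add_sum_erase _ _ (Finset.mem_univ (0 : F)),
    mu_op11_zero ρ ψ hψ, Finset.sum_congr rfl fun ζ hζ => mu_op11 ρ ψ hψ (Finset.ne_of_mem_erase hζ),
    Finset.sum_const, Finset.card_erase_of_mem (Finset.mem_univ _), Finset.card_univ, smul_eq_mul]

/-- The weights with given leading coefficient. -/
theorem sum_lead (hψ : ψ ≠ 1) {f₃ : F} (h3 : f₃ ≠ 0) :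
    ∑ f₀ : F, ∑ f₁ : F, ∑ f₂ : F, mc ρ ψ (f₀, f₁, f₂, f₃) = eB ρ ψ := by
  classical
  let e : (F × F × F) × F →+ F × F × F × F :=
    ⟨⟨fun x => (x.1.1, x.2, x.1.2.1, x.1.2.2), rfl⟩, fun _ _ => rfl⟩
  have hre : ∀ p : F × F × F, mu ψ ((act0 ρ).compAddMonoidHom e) (p, -f₃) =
      mc ρ ψ (p.1, p.2.1, p.2.2, f₃) := fun p =>
    mu_reindex _ e (fun y => ⟨((y.1, y.2.2.1, y.2.2.2), y.2.1), rfl⟩) fun y => by
      simp only [e, pair_prod, AddMonoidHom.coe_mk, ZeroHom.coe_mk]; abel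
  have h := mu_marginal hψ ((act0 ρ).compAddMonoidHom e) (-f₃)
  rw [Finset.sum_congr rfl fun p _ => hre p, Fintype.sum_prod_type] at h
  simp only [Fintype.sum_prod_type] at h
  rw [← h, ← mu_actB_zero ρ ψ hψ (neg_ne_zero.2 h3)]
  have key : wt (actB ρ) (chr ψ ((-f₃, 0) : F × F)) =
      (wt (((act0 ρ).compAddMonoidHom e).compAddMonoidHom (AddMonoidHom.inr (F × F × F) F))
        (chr ψ (-f₃))).map (fixSp ρ [11]).subtype := by
    ext v
    simp only [Submodule.mem_map, Submodule.coe_subtype, mem_wt, Subtype.exists]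
    have hv10 : ∀ (w : fixSp ρ [11]) (b : F), ((((act0 ρ).compAddMonoidHom e).compAddMonoidHom
        (AddMonoidHom.inr (F × F × F) F)) b w : V) = ρ (X 10 b) w := fun w b => by
      rw [show ((act0 ρ).compAddMonoidHom e).compAddMonoidHom (AddMonoidHom.inr (F × F × F) F) b =
        act0 ρ ((0 : F), b, (0 : F), (0 : F)) from rfl, act0_apply]
      simp [X_zero]
    constructor
    · intro hv
      have h11 : v ∈ fixSp ρ [11] := (mem_fix_one ρ).2 fun t => by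
        have := hv (0, t)
        simpa [actB, prodAct_apply, op_apply, X_zero, pair_prod, pair_field] using this
      refine ⟨v, h11, fun b => Subtype.ext ?_, rfl⟩
      rw [hv10 ⟨v, h11⟩]
      have := hv (b, 0)
      simpa [actB, prodAct_apply, op_apply, X_zero, pair_prod, pair_field] using this
    · rintro ⟨w, hw, hwt, rfl⟩ ⟨b, z⟩
      have h11 : ρ (X 11 z) w = w := (mem_fix_one ρ).1 hw z
      have h10 := congrArg Subtype.val (hwt b)
      rw [hv10 ⟨w, hw⟩] at h10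
      simp only [actB, prodAct_apply, op_apply, Module.End.mul_apply, h11, h10, pair_prod, pair_field]
      simp
  rw [mu, mu, key, Submodule.finrank_map_subtype_eq]

/-- The sum over the cubics of degree less than three. -/
noncomputable def sLow : ℕ := ∑ f₀ : F, ∑ f₁ : F, ∑ f₂ : F, mc ρ ψ (f₀, f₁, f₂, 0)

theorem finrank_fix (hψ : ψ ≠ 1) : Module.finrank ℂ (fixSp ρ [11]) =
    sLow ρ ψ + (Fintype.card F - 1) * eB ρ ψ := by
  classical
  have h : ∑ f : F × F × F × F, mc ρ ψ f =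
      ∑ f₃ : F, ∑ f₀ : F, ∑ f₁ : F, ∑ f₂ : F, mc ρ ψ (f₀, f₁, f₂, f₃) := by
    simp only [Fintype.sum_prod_type]
    conv_rhs => rw [Finset.sum_comm]
    refine Finset.sum_congr rfl fun a _ => ?_
    conv_rhs => rw [Finset.sum_comm]
    refine Finset.sum_congr rfl fun b _ => ?_
    exact Finset.sum_comm
  rw [← sum_mc ρ ψ hψ, h, ← Finset.add_sum_erase _ _ (Finset.mem_univ (0 : F)),
    Finset.sum_congr rfl fun f₃ hf => sum_lead ρ ψ hψ (Finset.ne_of_mem_erase hf),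
    Finset.sum_const, Finset.card_erase_of_mem (Finset.mem_univ _), Finset.card_univ, smul_eq_mul]
  rfl

theorem sum_root (t : F) [DecidableEq F] :
    ∑ f : F × F × F × F, (if (shiftCub t f).1 = 0 then mc ρ ψ f else 0) = sLow ρ ψ := by
  classical
  have h1 : ∑ f : F × F × F × F, (if (shiftCub t f).1 = 0 then mc ρ ψ f else 0) =
      ∑ f : F × F × F × F, (if f.1 = 0 then mc ρ ψ f else 0) := by
    refine Fintype.sum_equiv ⟨shiftCub t, shiftCub (-t), fun f => ?_, fun f => ?_⟩ _ _ fun f => ?_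
    · refine Prod.ext ?_ (Prod.ext ?_ (Prod.ext ?_ ?_)) <;> simp only [shiftCub] <;> ring
    · refine Prod.ext ?_ (Prod.ext ?_ (Prod.ext ?_ ?_)) <;> simp only [shiftCub] <;> ring
    · simp only [Equiv.coe_fn_mk, mc_shift]
  obtain ⟨c₀, c₁, c₂, c₃, h0, h1', h2, h3, hc⟩ := mc_rev ρ ψ
  have h2' : ∑ f : F × F × F × F, (if f.1 = 0 then mc ρ ψ f else 0) =
      ∑ f : F × F × F × F, (if f.2.2.2 = 0 then mc ρ ψ f else 0) := by
    refine (Fintype.sum_equiv ⟨fun f => (c₀ * f.2.2.2, c₁ * f.2.2.1, c₂ * f.2.1, c₃ * f.1),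
      fun g => (c₃⁻¹ * g.2.2.2, c₂⁻¹ * g.2.2.1, c₁⁻¹ * g.2.1, c₀⁻¹ * g.1), fun f => by simp [*],
      fun f => by simp [*]⟩ _ _ fun f => ?_).symm
    simp only [Equiv.coe_fn_mk, hc, mul_eq_zero, h0, false_or]
  rw [h1, h2', sLow]
  simp only [Fintype.sum_prod_type]
  refine Finset.sum_congr rfl fun a _ => Finset.sum_congr rfl fun b _ => Finset.sum_congr rfl fun c _ => ?_
  exact Fintype.sum_ite_eq' (0 : F) fun d => mc ρ ψ (a, b, c, d)

theorem eB_pos (hψ : ψ ≠ 1) (hfaith : ρ (X 11 1) ≠ 1) : 1 ≤ eB ρ ψ := by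
  obtain ⟨φ, hφ1, hφ⟩ := exists_wt (op ρ 11) (c := (1 : F)) hfaith
  obtain ⟨ζ, rfl⟩ := (chr_bijective (M := F) hψ).2 φ
  have hζ : ζ ≠ 0 := by
    rintro rfl
    exact hφ1 chr_zero
  have h : mu ψ (op ρ 11) ζ ≠ 0 := mt (mu_eq_zero_iff _ _).1 hφ
  rw [mu_op11 ρ ψ hψ hζ] at h
  exact Nat.one_le_iff_ne_zero.2 fun h0 => h (by rw [h0, mul_zero])

theorem card_dvd_eB (hψ : ψ ≠ 1) (h3 : (3 : F) ≠ 0) : Fintype.card F ∣ eB ρ ψ := by
  classical
  have hsh : ∀ w t : F, mu ψ (actP ρ) (w + 3 * t, (0 : F), (1 : F)) =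
      mu ψ (actP ρ) (w, (0 : F), (1 : F)) := by
    intro w t
    let L : F × F × F → F × F × F := fun x => (x.1, x.2.1, x.2.2 + 3 * t * x.1)
    refine (mu_move (actP ρ) (actP ρ) (T := ρ (X 8 t)) (T' := ρ (X 8 (-t)))
      (rho_left_inv ρ (X_cancel 8 t)) L
      (fun y => ⟨(y.1, y.2.1, y.2.2 - 3 * t * y.1), by simp [L]⟩) ?_ ?_).symm
    · rintro ⟨a, b, z⟩
      have e : X 9 a * X 8 t = X 8 t * X 9 a * X 11 (-(3 * t * a)) := by
        rw [X_swap_one 8 9 11 (C := 3) (i := 1) (j := 1) (by decide +kernel) t a]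
        congr 2
        push_cast
        ring
      have c10 : X 10 b * X 8 t = X 8 t * X 10 b := X_comm 8 10 (by decide +kernel) _ _
      have c11 : ∀ u, X 11 u * X 8 t = X 8 t * X 11 u := fun u =>
        X_comm 8 11 (by decide +kernel) _ _
      have d : ∀ u v : F, X 11 u * X 10 v = X 10 v * X 11 u := fun u v =>
        X_comm 10 11 (by decide +kernel) v u
      simp only [actP, actB, prodAct_apply, op_apply, L, ← map_mul]
      congr 1
      rw [mul_assoc, mul_assoc (X 10 b), c11, ← mul_assoc (X 10 b), c10, mul_assoc (X 8 t),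
        ← mul_assoc (X 9 a), e, mul_assoc (X 8 t * X 9 a), ← mul_assoc (X 11 _) (X 10 b), d,
        mul_assoc (X 10 b), X_add, show -(3 * t * a) + (z + 3 * t * a) = z by ring, mul_assoc]
    · rintro ⟨a, b, z⟩
      simp only [L, pair_prod, pair_field]
      ring
  have h := mu_marginal hψ (actP ρ) ((0 : F), (1 : F))
  rw [show (actP ρ).compAddMonoidHom (AddMonoidHom.inr F (F × F)) = actB ρ from
    DFunLike.ext _ _ fun y => by simp [actP, prodAct_apply]] at h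
  refine ⟨mu ψ (actP ρ) ((0 : F), (0 : F), (1 : F)), h.trans ?_⟩
  rw [Finset.sum_congr rfl fun w _ => ?_, Finset.sum_const, Finset.card_univ, smul_eq_mul]
  have := hsh 0 (w / 3)
  rwa [zero_add, mul_div_cancel₀ _ h3] at this

end CfsgLib.G2Deg97
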