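import Cfsg.Agent.G2Deg97.Counts

/-!
Orbit counting for the weights given by cubics when `3` is invertible.
-/

set_option autoImplicit false

namespace CfsgLib.G2Deg97

open Cfsg.Lie CfsgLib.Chevalley CfsgLib.WeightProj65

theorem orbit_le {ι M : Type*} [DecidableEq M] (μ : M → ℕ) (I : Finset ι) (g : ι → M) (n : ℕ)
    (hfib : ∀ a, (I.filter fun i => g i = a).card ≤ n) (h1 : ∀ i ∈ I, 1 ≤ μ (g i)) (P : Finset M)
    (hP : ∀ i ∈ I, g i ∈ P) : I.card ≤ n * ∑ a ∈ P, μ a := by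
  refine (Finset.card_le_mul_card_image I n fun a _ => hfib a).trans (Nat.mul_le_mul_left n ?_)
  rw [Finset.card_eq_sum_ones]
  refine (Finset.sum_le_sum fun a ha => ?_).trans (Finset.sum_le_sum_of_subset fun a ha => ?_)
  · obtain ⟨i, hi, rfl⟩ := Finset.mem_image.1 ha
    exact h1 i hi
  · obtain ⟨i, hi, rfl⟩ := Finset.mem_image.1 ha
    exact hP i hi

theorem card_cube_le {F : Type*} [Field F] [Fintype F] [DecidableEq F] (c : F) :
    (Finset.univ.filter fun A : F => A ^ 3 = c).card ≤ 3 := by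
  classical
  refine (Finset.card_le_card fun A hA => ?_).trans
    ((Multiset.toFinset_card_le _).trans (Polynomial.card_nthRoots 3 c))
  rw [Multiset.mem_toFinset, Polynomial.mem_nthRoots (by norm_num)]
  exact (Finset.mem_filter.1 hA).2

theorem card_quad_le {F : Type*} [Field F] [Fintype F] [DecidableEq F] {a : F} (ha : a ≠ 0) (b c : F) :
    (Finset.univ.filter fun t : F => a * t ^ 2 + b * t = c).card ≤ 2 := by
  classical
  rcases (Finset.univ.filter fun t : F => a * t ^ 2 + b * t = c).eq_empty_or_nonempty with h | ⟨t₀, ht₀⟩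
  · simp [h]
  refine le_trans (Finset.card_le_card (t := {t₀, -b / a - t₀}) fun t ht => ?_) Finset.card_le_two
  have e₀ := (Finset.mem_filter.1 ht₀).2
  have e := (Finset.mem_filter.1 ht).2
  have h : (t - t₀) * (a * (t + t₀) + b) = 0 := by linear_combination e - e₀
  rcases mul_eq_zero.1 h with h | h
  · simp [sub_eq_zero.1 h]
  · refine Finset.mem_insert_of_mem (Finset.mem_singleton.2 ?_)
    field_simp
    linear_combination h

variable {F : Type*} [Field F] [Fintype F] {V : Type*} [AddCommGroup V] [Module ℂ V]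
  [FiniteDimensional ℂ V] (ρ : Representation ℂ ↥(GG F) V) (ψ : AddChar F ℂ)

theorem mc_orbit (t : F) (A B : Fˣ) (f : F × F × F × F) :
    mc ρ ψ (shiftCub t (scaleCub (A : F) (B : F) f)) = mc ρ ψ f := by rw [mc_shift, mc_scale]

theorem rootless_bound (h3 : (3 : F) ≠ 0) (hψ : ψ ≠ 1) {f : F × F × F × F} (hm : mc ρ ψ f ≠ 0)
    (hf : f.2.2.2 ≠ 0) (hroot : ∀ t, (shiftCub t f).1 ≠ 0) :
    Fintype.card F * (Fintype.card F - 1) ^ 2 ≤ 3 * Module.finrank ℂ (fixSp ρ [11]) := by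
  classical
  obtain ⟨g, hg, hg0, hg2, hg3⟩ : ∃ g : F × F × F × F, mc ρ ψ g ≠ 0 ∧ g.1 ≠ 0 ∧ g.2.2.1 = 0 ∧
      g.2.2.2 ≠ 0 := by
    refine ⟨shiftCub (-(f.2.2.1 / (3 * f.2.2.2))) f, by rwa [mc_shift], hroot _, ?_, hf⟩
    simp only [shiftCub]
    field_simp
    ring
  have h := orbit_le (mc ρ ψ) (Finset.univ : Finset (F × Fˣ × Fˣ))
    (fun i => shiftCub i.1 (scaleCub (i.2.1 : F) (i.2.2 : F) g)) 3 (fun a => ?_)
    (fun i _ => by rw [mc_orbit]; exact Nat.one_le_iff_ne_zero.2 hg) Finset.univ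
    (fun i _ => Finset.mem_univ _)
  · rw [sum_mc ρ ψ hψ, Finset.card_univ, Fintype.card_prod, Fintype.card_prod, Fintype.card_units] at h
    rwa [sq]
  set S := Finset.univ.filter fun i : F × Fˣ × Fˣ =>
    shiftCub i.1 (scaleCub (i.2.1 : F) (i.2.2 : F) g) = a
  rcases S.eq_empty_or_nonempty with h0 | ⟨i₀, hi₀⟩
  · simp [h0]
  have key : ∀ i ∈ S, i.1 = i₀.1 ∧ i.2.2 = i₀.2.2 ∧ (i.2.1 : F) ^ 3 = (i₀.2.1 : F) ^ 3 := by
    intro i hi
    have e := ((Finset.mem_filter.1 hi).2).trans ((Finset.mem_filter.1 hi₀).2).symm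
    obtain ⟨e0, -, e2, e3⟩ : _ ∧ _ ∧ _ ∧ _ := by
      simpa only [shiftCub, scaleCub, Prod.mk.injEq] using e
    rw [hg2] at e2
    simp only [mul_zero, zero_add] at e2
    have hne : (i₀.2.1 : F) ^ 3 * i₀.2.2 * g.2.2.2 ≠ 0 :=
      mul_ne_zero (mul_ne_zero (pow_ne_zero _ i₀.2.1.ne_zero) i₀.2.2.ne_zero) hg3
    rw [e3] at e2
    have et : i.1 = i₀.1 := mul_left_cancel₀ (mul_ne_zero h3 hne) e2
    have eu := congrArg (fun p => (shiftCub (-i₀.1) p).1) e
    simp only [et] at eu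
    have hinv : ∀ p : F × F × F × F, (shiftCub (-i₀.1) (shiftCub i₀.1 p)).1 = p.1 := fun p => by
      simp only [shiftCub]; ring
    rw [hinv, hinv] at eu
    have eB : i.2.2 = i₀.2.2 := Units.ext (mul_right_cancel₀ hg0 eu)
    rw [eB] at e3
    exact ⟨et, eB, mul_right_cancel₀ i₀.2.2.ne_zero (mul_right_cancel₀ hg3 e3)⟩
  refine le_trans (Finset.card_le_card_of_injOn (fun i => (i.2.1 : F)) (fun i hi => ?_) ?_)
    (card_cube_le ((i₀.2.1 : F) ^ 3))
  · exact Finset.mem_filter.2 ⟨Finset.mem_univ _, (key i hi).2.2⟩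
  · intro i hi j hj hij
    exact Prod.ext ((key i hi).1.trans (key j hj).1.symm)
      (Prod.ext (Units.ext hij) ((key i hi).2.1.trans (key j hj).2.1.symm))

theorem low_bound {f : F × F × F × F} (hm : mc ρ ψ f ≠ 0) (h3 : f.2.2.2 = 0)
    (hf : f.2.1 ≠ 0 ∨ f.2.2.1 ≠ 0) :
    Fintype.card F * (Fintype.card F - 1) ≤ 2 * sLow ρ ψ := by
  classical
  have hP : ∑ a ∈ Finset.univ.filter (fun a : F × F × F × F => a.2.2.2 = 0), mc ρ ψ a = sLow ρ ψ := by
    rw [Finset.sum_filter, sLow]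
    simp only [Fintype.sum_prod_type]
    exact Finset.sum_congr rfl fun a _ => Finset.sum_congr rfl fun b _ => Finset.sum_congr rfl fun c _ =>
      Fintype.sum_ite_eq' (0 : F) fun d => mc ρ ψ (a, b, c, d)
  have h := orbit_le (mc ρ ψ) (Finset.univ : Finset (F × Fˣ))
    (fun i => shiftCub i.1 (scaleCub ((1 : Fˣ) : F) (i.2 : F) f)) 2 (fun a => ?_)
    (fun i _ => by rw [mc_orbit]; exact Nat.one_le_iff_ne_zero.2 hm)
    (Finset.univ.filter fun a : F × F × F × F => a.2.2.2 = 0)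
    (fun i _ => Finset.mem_filter.2 ⟨Finset.mem_univ _, by simp [shiftCub, scaleCub, h3]⟩)
  · rwa [hP, Finset.card_univ, Fintype.card_prod, Fintype.card_units] at h
  set S := Finset.univ.filter fun i : F × Fˣ =>
    shiftCub i.1 (scaleCub ((1 : Fˣ) : F) (i.2 : F) f) = a
  rcases S.eq_empty_or_nonempty with h0 | ⟨i₀, hi₀⟩
  · simp [h0]
  have key : ∀ i ∈ S, i.2 = i₀.2 ∧
      f.2.2.1 * i.1 ^ 2 + f.2.1 * i.1 = f.2.2.1 * i₀.1 ^ 2 + f.2.1 * i₀.1 := by
    intro i hi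
    have e := ((Finset.mem_filter.1 hi).2).trans ((Finset.mem_filter.1 hi₀).2).symm
    obtain ⟨e0, e1, e2, -⟩ : _ ∧ _ ∧ _ ∧ _ := by
      simpa only [shiftCub, scaleCub, Prod.mk.injEq] using e
    simp only [h3, Units.val_one, one_pow, one_mul, mul_one, mul_zero, zero_mul, add_zero] at e0 e1 e2
    have eB : (i.2 : F) = i₀.2 := by
      by_cases h2 : f.2.2.1 = 0
      · simp only [h2, mul_zero, zero_mul, add_zero] at e1
        exact mul_right_cancel₀ (hf.resolve_right (not_not.2 h2)) e1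
      · exact mul_right_cancel₀ h2 e2
    refine ⟨Units.ext eB, mul_left_cancel₀ i₀.2.ne_zero ?_⟩
    rw [eB] at e0
    linear_combination e0
  refine le_trans (Finset.card_le_card_of_injOn (t := Finset.univ.filter fun t : F =>
    f.2.2.1 * t ^ 2 + f.2.1 * t = f.2.2.1 * i₀.1 ^ 2 + f.2.1 * i₀.1) (fun i => i.1) (fun i hi =>
    Finset.mem_filter.2 ⟨Finset.mem_univ _, (key i hi).2⟩)
    (fun i hi j hj hij => Prod.ext hij ((key i hi).1.trans (key j hj).1.symm))) ?_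
  by_cases h2 : f.2.2.1 = 0
  · refine le_trans (Finset.card_le_card (t := {i₀.1}) fun t ht => ?_) (by simp)
    have e := (Finset.mem_filter.1 ht).2
    simp only [h2, zero_mul, zero_add] at e
    exact Finset.mem_singleton.2 (mul_left_cancel₀ (hf.resolve_right (not_not.2 h2)) e)
  · exact card_quad_le h2 _ _

theorem root_cover (hψ : ψ ≠ 1)
    (hroot : ∀ f : F × F × F × F, mc ρ ψ f ≠ 0 → f.2.2.2 = 0 ∨ ∃ t, (shiftCub t f).1 = 0) :
    Module.finrank ℂ (fixSp ρ [11]) + Fintype.card F * mc ρ ψ (0, 0, 0, 0) ≤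
      (Fintype.card F + 1) * sLow ρ ψ := by
  classical
  have hlow : ∑ f : F × F × F × F, (if f.2.2.2 = 0 then mc ρ ψ f else 0) = sLow ρ ψ := by
    rw [sLow]
    simp only [Fintype.sum_prod_type]
    exact Finset.sum_congr rfl fun a _ => Finset.sum_congr rfl fun b _ => Finset.sum_congr rfl fun c _ =>
      Fintype.sum_ite_eq' (0 : F) fun d => mc ρ ψ (a, b, c, d)
  have hR : (Fintype.card F + 1) * sLow ρ ψ = ∑ f : F × F × F × F,
      ((∑ t : F, if (shiftCub t f).1 = 0 then mc ρ ψ f else 0) +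
        if f.2.2.2 = 0 then mc ρ ψ f else 0) := by
    rw [Finset.sum_add_distrib, Finset.sum_comm, hlow,
      Finset.sum_congr rfl fun t _ => sum_root ρ ψ t, Finset.sum_const, Finset.card_univ, smul_eq_mul,
      add_mul, one_mul]
  rw [hR, ← sum_mc ρ ψ hψ, ← Finset.add_sum_erase _ _ (Finset.mem_univ (0, 0, 0, 0)),
    ← Finset.add_sum_erase _ _ (Finset.mem_univ (0, 0, 0, 0)), add_right_comm]
  refine add_le_add ?_ (Finset.sum_le_sum fun f _ => ?_)
  · simp [shiftCub, Finset.sum_const, add_comm]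
  · by_cases hm : mc ρ ψ f = 0
    · simp [hm]
    rcases hroot f hm with h | ⟨t, ht⟩
    · exact (if_pos h).symm.le.trans (Nat.le_add_left _ _)
    · refine le_trans ?_ (Nat.le_add_right _ _)
      exact le_trans (if_pos ht).ge (Finset.single_le_sum (f := fun t => if (shiftCub t f).1 = 0 then
        mc ρ ψ f else 0) (fun _ _ => Nat.zero_le _) (Finset.mem_univ t))

/-- The bound for `q ≡ 2 (mod 3)` and the structure left for `q ≡ 1 (mod 3)`. -/
theorem cases_ne_three (h3 : (3 : F) ≠ 0) (hψ : ψ ≠ 1) (hfaith : ρ (X 11 1) ≠ 1)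
    (hq : 5 ≤ Fintype.card F) :
    Fintype.card F ^ 3 - 1 ≤ Module.finrank ℂ V ∧
      (Fintype.card F ^ 3 + 1 ≤ Module.finrank ℂ V ∨
        ((∀ f : F × F × F × F, f.2.2.2 = 0 → (f.2.1 ≠ 0 ∨ f.2.2.1 ≠ 0) → mc ρ ψ f = 0) ∧
          (∀ u : F, u ≠ 0 → mc ρ ψ (u, 0, 0, 0) = 1) ∧ mc ρ ψ (0, 0, 0, 0) ≤ 1 ∧
          Module.finrank ℂ V = Fintype.card F ^ 3 - 1 + mc ρ ψ (0, 0, 0, 0))) := by
  classical
  have hpos := eB_pos ρ ψ hψ hfaith
  obtain ⟨c, hc⟩ := card_dvd_eB ρ ψ hψ h3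
  have hc1 : 1 ≤ c := Nat.one_le_iff_ne_zero.2 fun h => by simp [h] at hc; omega
  have hk := finrank_eq ρ ψ hψ
  have hd := finrank_fix ρ ψ hψ
  set q := Fintype.card F with hqdef
  set d0 := Module.finrank ℂ (fixSp ρ [11])
  obtain ⟨j, hj⟩ : ∃ j, q = j + 5 := ⟨q - 5, by omega⟩
  have hq1 : q - 1 = j + 4 := by omega
  have hcube : q ^ 3 = (j + 4) * (q * q) + q * q := by rw [hj]; ring
  have hk1 : (j + 4) * (q * q) + d0 ≤ Module.finrank ℂ V := by
    rw [hk, hq1, hc, add_comm d0]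
    exact Nat.add_le_add_right (Nat.mul_le_mul_left _ (Nat.mul_le_mul_left _ (Nat.le_mul_of_pos_right _ hc1))) _
  by_cases hr : ∃ f : F × F × F × F, mc ρ ψ f ≠ 0 ∧ f.2.2.2 ≠ 0 ∧ ∀ t, (shiftCub t f).1 ≠ 0
  · obtain ⟨f, hm, hf, hroot⟩ := hr
    have h := rootless_bound ρ ψ h3 hψ hm hf hroot
    rw [← hqdef, hq1] at h
    suffices hb : q ^ 3 + 1 ≤ Module.finrank ℂ V from ⟨by omega, Or.inl hb⟩
    have : 3 * (q * q + 1) ≤ q * (j + 4) ^ 2 + 2 := by rw [hj]; nlinarith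
    omega
  push Not at hr
  have hcov := root_cover ρ ψ hψ fun f hm => by
    by_cases h : f.2.2.2 = 0
    · exact Or.inl h
    · exact Or.inr (hr f hm h)
  rw [show Module.finrank ℂ (fixSp ρ [11]) = d0 from rfl, ← hqdef, hd, hq1, hc, add_one_mul q] at hcov
  set S := sLow ρ ψ
  set m0 := mc ρ ψ (0, 0, 0, 0) with hm0
  have hS : (j + 4) * c + m0 ≤ S := by
    refine le_of_mul_le_mul_left (a := q) ?_ (show 0 < q by omega)
    rw [mul_add, mul_left_comm]
    omega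
  have hd' : d0 = S + (j + 4) * (q * c) := by rw [hd, hq1, hc]
  have hexp : (j + 4) * q + (j + 4) + 1 = q * q := by rw [hj]; ring
  have hcge : (j + 4) * q ≤ (j + 4) * (q * c) :=
    Nat.mul_le_mul_left _ (Nat.le_mul_of_pos_right _ hc1)
  have hc4 : j + 4 ≤ (j + 4) * c := Nat.le_mul_of_pos_right _ hc1
  refine ⟨by omega, ?_⟩
  by_cases hbig : q ^ 3 + 1 ≤ Module.finrank ℂ V
  · exact Or.inl hbig
  refine Or.inr ?_
  have hceq : c = 1 := by
    by_contra hne
    have h2 : (j + 4) * 2 ≤ (j + 4) * c := Nat.mul_le_mul_left _ (by omega)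
    omega
  rw [hk, hq1, hc, hd'] at hbig ⊢
  rw [hceq] at hd' hS hbig ⊢
  simp only [mul_one] at hd' hS hbig ⊢
  have hSle : S ≤ q := by omega
  have hnolow : ∀ f : F × F × F × F, f.2.2.2 = 0 → (f.2.1 ≠ 0 ∨ f.2.2.1 ≠ 0) → mc ρ ψ f = 0 := by
    intro f hf hne
    by_contra hm
    have h := low_bound ρ ψ hm hf hne
    rw [← hqdef, hq1] at h
    have : q * 4 ≤ q * (j + 4) := Nat.mul_le_mul_left q (by omega)
    omega
  have hu : ∀ u : F, u ≠ 0 → mc ρ ψ (u, 0, 0, 0) = mc ρ ψ (1, 0, 0, 0) := fun u hu => by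
    have := mc_scale ρ ψ 1 (Units.mk0 u hu) (1, 0, 0, 0)
    simpa [scaleCub] using this
  have hSsum : S = m0 + (j + 4) * mc ρ ψ (1, 0, 0, 0) := by
    have : S = ∑ u : F, mc ρ ψ (u, 0, 0, 0) := by
      refine Finset.sum_congr rfl fun u _ => ?_
      rw [Fintype.sum_eq_single 0 fun a ha => ?_, Fintype.sum_eq_single 0 fun b hb => ?_]
      · exact hnolow _ rfl (Or.inr hb)
      · exact Finset.sum_eq_zero fun b _ => hnolow _ rfl (Or.inl ha)
    rw [this, ← Finset.add_sum_erase _ _ (Finset.mem_univ (0 : F)),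
      Finset.sum_congr rfl fun u hu' => hu u (Finset.ne_of_mem_erase hu'), Finset.sum_const,
      Finset.card_erase_of_mem (Finset.mem_univ _), Finset.card_univ, smul_eq_mul, ← hqdef, hq1]
  have hm1 : mc ρ ψ (1, 0, 0, 0) = 1 := by
    rcases lt_trichotomy (mc ρ ψ (1, 0, 0, 0)) 1 with h | h | h
    · rw [Nat.lt_one_iff.1 h] at hSsum
      omega
    · exact h
    · have : (j + 4) * 2 ≤ (j + 4) * mc ρ ψ (1, 0, 0, 0) := Nat.mul_le_mul_left _ h
      omega
  rw [hm1, mul_one] at hSsum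
  exact ⟨hnolow, fun u h => (hu u h).trans hm1, by omega, by omega⟩

end CfsgLib.G2Deg97
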