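import Cfsg.Agent.G2Deg97.Tools
import Cfsg.Agent.G2Deg97.Cells
import Cfsg.Agent.G2Deg97.OrbitBound

/-!
The degree `q³ - 1` does not occur when `q ≡ 1 (mod 3)`: an element of order three of the torus would
act as a scalar.
-/

set_option autoImplicit false

namespace CfsgLib.G2Deg97

open Cfsg.Lie CfsgLib.Chevalley CfsgLib.WeightProj65
open SelfDual (pair)

variable {F : Type*} [Field F]

theorem torusVal_ea (A B : Fˣ) (s : Fin 12) :
    torusVal chevG2 (fun j => if j = 0 then A ^ 2 * B else A ^ 3 * B ^ 2) s =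
      A ^ ea s * B ^ eb s := by
  have hc : ∀ r : Fin 12, 2 * chevG2.cartan 0 r + 3 * chevG2.cartan 1 r = ea r ∧
      chevG2.cartan 0 r + 2 * chevG2.cartan 1 r = eb r := by decide +kernel
  rw [torusVal, show chevG2.rank = 2 from rfl, Finset.prod_range_succ, Finset.prod_range_succ,
    Finset.prod_range_zero, one_mul, if_pos rfl, if_neg one_ne_zero, ← (hc s).1, ← (hc s).2,
    mul_zpow, mul_zpow, ← zpow_natCast A, ← zpow_natCast A, ← zpow_natCast B, ← zpow_mul, ← zpow_mul,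
    ← zpow_mul, zpow_add, zpow_add]
  exact mul_mul_mul_comm _ _ _ _

theorem nn_Tor (i : Fin 2) (A B : Fˣ) :
    nn i * Tor A B = Tor (A ^ ea (refl2 i 7) * B ^ eb (refl2 i 7))
      (A ^ ea (refl2 i 6) * B ^ eb (refl2 i 6)) * nn i := by
  have he : ∀ (i : Fin 2) (s : Fin 12),
      ea (refl2 i s) = ea s * ea (refl2 i 7) + eb s * ea (refl2 i 6) ∧
      eb (refl2 i s) = ea s * eb (refl2 i 7) + eb s * eb (refl2 i 6) := by decide +kernel
  refine Subtype.ext (Units.ext ?_)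
  simp only [Subgroup.coe_mul, Units.val_mul, nn, Tor, Sys.nG_val, sysG2.tor_val]
  rw [sysG2.n_dg F i.isLt]
  refine congrArg (· * _) (dg_congr fun s hs => congrArg Units.val ?_)
  rw [show chevG2.reflectRoot i s = (refl2 i ⟨s, hs⟩ : ℕ) from (refl2_val i ⟨s, hs⟩).symm]
  refine (torusVal_ea A B _).trans (Eq.trans ?_ (torusVal_ea _ _ ⟨s, hs⟩).symm)
  rw [mul_zpow, mul_zpow, ← zpow_mul, ← zpow_mul, ← zpow_mul, ← zpow_mul, mul_mul_mul_comm,
    ← zpow_add, ← zpow_add, (he i ⟨s, hs⟩).1, (he i ⟨s, hs⟩).2]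
  congr 2 <;> ring

variable {V : Type*} [AddCommGroup V] [Module ℂ V] (ρ : Representation ℂ ↥(GG F) V)

variable [Fintype F] [FiniteDimensional ℂ V] (ψ : AddChar F ℂ)

theorem fix_ten_eleven (hψ : ψ ≠ 1)
    (hlow : ∀ f : F × F × F × F, f.2.2.2 = 0 → (f.2.1 ≠ 0 ∨ f.2.2.1 ≠ 0) → mc ρ ψ f = 0) {w : V}
    (hw : w ∈ fixSp ρ [10, 11]) : ∀ t, ρ (X 8 t) w = w ∧ ρ (X 9 t) w = w := by
  classical
  have h11 : w ∈ fixSp ρ [11] := (mem_fix_one ρ).2 fun t => hw 11 (by decide) t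
  have h10 : ∀ b, act0 ρ ((0 : F), b, (0 : F), (0 : F)) ⟨w, h11⟩ = ⟨w, h11⟩ := fun b => Subtype.ext (by
    rw [act0_apply]; simp [X_zero, hw 10 (by decide)])
  have key : ∀ (a : F × F × F × F) (v' w' : F),
      act0 ρ ((0 : F), (0 : F), v', w') (proj (act0 ρ) (chr ψ a) ⟨w, h11⟩) =
        proj (act0 ρ) (chr ψ a) ⟨w, h11⟩ := by
    intro a v' w'
    set p := proj (act0 ρ) (chr ψ a) ⟨w, h11⟩ with hp
    rcases eq_or_ne p 0 with h0 | h0
    · rw [h0, map_zero]
    have hp10 : ∀ b, act0 ρ ((0 : F), b, (0 : F), (0 : F)) p = p := fun b => by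
      rw [hp, ← Module.End.mul_apply, ← proj_comm_act, Module.End.mul_apply, h10]
    have hb : a.2.1 = 0 := by
      by_contra hb
      obtain ⟨t, ht⟩ := AddChar.ne_one_iff.1 hψ
      have := (proj_mem (act0 ρ) (chr ψ a) ⟨w, h11⟩ ((0 : F), a.2.1⁻¹ * t, (0 : F), (0 : F))).symm.trans
        (hp10 (a.2.1⁻¹ * t))
      rw [chr_apply, ← hp] at this
      simp only [pair_prod, pair_field, mul_zero, zero_add, add_zero, mul_inv_cancel_left₀ hb] at this
      exact ht (smul_left_injective ℂ h0 (this.trans (one_smul ℂ p).symm))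
    have hz : a.2.2 = (0, 0) := by
      by_contra hz
      have h := hlow (a.1, a.2.2.1, a.2.2.2, 0) rfl (by
        by_contra hc
        push Not at hc
        exact hz (Prod.ext hc.1 hc.2))
      rw [mc, mu_eq_zero_iff, Submodule.eq_bot_iff] at h
      refine h0 (h p ?_)
      have ea : ((a.1, -(0 : F), a.2.2.1, a.2.2.2) : F × F × F × F) = a :=
        Prod.ext rfl (Prod.ext (by rw [hb, neg_zero]) rfl)
      simp only [ea]
      exact proj_mem _ _ _
    rw [hp, proj_mem (act0 ρ) (chr ψ a) ⟨w, h11⟩, chr_apply]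
    simp [pair_prod, pair_field, hb, hz]
  have hall : ∀ v' w' : F, ρ (X 6 0 * (X 10 0 * (X 8 v' * X 9 w'))) w = w := by
    intro v' w'
    have h := LinearMap.congr_fun (sum_proj (act0 ρ)) ⟨w, h11⟩
    rw [LinearMap.sum_apply, Module.End.one_apply, ← (chr_bijective (M := F × F × F × F) hψ).sum_comp] at h
    have e := congrArg (act0 ρ ((0 : F), (0 : F), v', w')) h
    rw [map_sum, Finset.sum_congr rfl fun a _ => key a v' w', h] at e
    have := congrArg Subtype.val e.symm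
    rwa [act0_apply] at this
  intro t
  exact ⟨by simpa [X_zero] using hall t 0, by simpa [X_zero] using hall 0 t⟩

theorem cuspidal_bound (hψ : ψ ≠ 1) (hinj : ∀ g, ρ g = 1 → g = 1)
    {ω : Fˣ} (hω : ω ≠ 1) (hω3 : ω ^ 3 = 1)
    (hlow : ∀ f : F × F × F × F, f.2.2.2 = 0 → (f.2.1 ≠ 0 ∨ f.2.2.1 ≠ 0) → mc ρ ψ f = 0)
    (hu : ∀ u : F, u ≠ 0 → mc ρ ψ (u, 0, 0, 0) = 1) (h0 : mc ρ ψ (0, 0, 0, 0) = 0) :
    Fintype.card F ^ 3 - 1 < Module.finrank ℂ V := by
  classical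
  set q := Fintype.card F with hqdef
  have hfix0 : ∀ w ∈ fixSp ρ [10, 11], (∀ t, ρ (X 6 t) w = w) → w = 0 := by
    intro w hw h6
    have hmem : w ∈ fixSp ρ [6, 8, 9, 10, 11] := by
      intro r hr t
      simp only [List.mem_cons, List.not_mem_nil, or_false] at hr
      rcases hr with rfl | rfl | rfl | rfl | rfl
      · exact h6 t
      · exact (fix_ten_eleven ρ ψ hψ hlow hw t).1
      · exact (fix_ten_eleven ρ ψ hψ hlow hw t).2
      · exact hw 10 (by decide) t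
      · exact hw 11 (by decide) t
    rw [mc_zero, Submodule.finrank_eq_zero] at h0
    exact (Submodule.eq_bot_iff _).1 h0 w hmem
  have hnb : ∀ r ∈ [10, (11 : Fin 12)], ∃ r' ∈ [10, (11 : Fin 12)],
      chevG2.reflectRoot (1 : Fin 2) r = ((r' : Fin 12) : ℕ) := by decide +kernel
  have hnb' : ∀ r' ∈ [10, (11 : Fin 12)], ∃ r ∈ [10, (11 : Fin 12)],
      chevG2.reflectRoot (1 : Fin 2) ((r : Fin 12) : ℕ) = (r' : ℕ) := by decide +kernel
  have hfix5 : ∀ w ∈ fixSp ρ [10, 11], (∀ t, ρ (X 5 t) w = w) → w = 0 := by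
    intro w hw h5
    obtain ⟨c, -, -, e⟩ := nn_conj (F := F) 1 5 6 (by decide +kernel)
    have h := hfix0 _ (stab_nn ρ 1 hnb hnb' hw) (move_fix ρ e h5)
    have := congrArg (ρ (nn 1)⁻¹) h
    rwa [map_zero, ← rho_mul_apply, inv_mul_cancel, map_one] at this
  -- the vector of weight one
  obtain ⟨x₁, hx₁0, hx₁⟩ := exists_of_mu_pos (ψ := ψ) (act0 ρ) (a := ((1 : F), -(0 : F), (0 : F), (0 : F)))
    (by rw [show mu ψ (act0 ρ) ((1 : F), -(0 : F), (0 : F), (0 : F)) = 1 from hu 1 one_ne_zero]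
        exact one_ne_zero)
  have hline : ∀ w ∈ fixSp ρ [10, 11], (∀ t, ρ (X 6 t) w = ψ t • w) → ∃ c : ℂ, c • (x₁ : V) = w := by
    intro w hw h6
    have h11 : w ∈ fixSp ρ [11] := (mem_fix_one ρ).2 fun t => hw 11 (by decide) t
    have hmem : (⟨w, h11⟩ : fixSp ρ [11]) ∈ wt (act0 ρ) (chr ψ ((1 : F), -(0 : F), (0 : F), (0 : F))) := by
      rintro ⟨u, b, a, d⟩
      refine Subtype.ext ?_
      rw [act0_apply]
      simp only [rho_mul_apply, (fix_ten_eleven ρ ψ hψ hlow hw _).1,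
        (fix_ten_eleven ρ ψ hψ hlow hw _).2, hw 10 (by decide), h6]
      simp [chr_apply, pair_prod, pair_field]
    have hdim : Module.finrank ℂ (wt (act0 ρ) (chr ψ ((1 : F), -(0 : F), (0 : F), (0 : F)))) = 1 :=
      hu 1 one_ne_zero
    obtain ⟨c, hc⟩ := exists_smul_of_finrank_one hdim hx₁ hx₁0 hmem
    exact ⟨c, congrArg Subtype.val hc⟩
  have hx₁N : (x₁ : V) ∈ fixSp ρ [10, 11] := by
    intro r hr t
    simp only [List.mem_cons, List.not_mem_nil, or_false] at hr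
    rcases hr with rfl | rfl
    · have := congrArg Subtype.val (hx₁ ((0 : F), t, (0 : F), (0 : F)))
      rw [act0_apply] at this
      simpa [X_zero, pair_prod, pair_field] using this
    · exact (mem_fix_one ρ).1 x₁.2 t
  have hx₁6 : ∀ t, ρ (X 6 t) (x₁ : V) = ψ t • (x₁ : V) := fun t => by
    have := congrArg Subtype.val (hx₁ (t, (0 : F), (0 : F), (0 : F)))
    rw [act0_apply] at this
    simpa [X_zero, pair_prod, pair_field] using this
  -- the element of order three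
  set h : ↥(GG F) := Tor ω 1 with hh
  have hcomm : ∀ r : Fin 12, ea r % 3 = 0 → ∀ t : F, h * X r t = X r t * h := fun r hr t => by
    obtain ⟨d, hd⟩ := Int.dvd_of_emod_eq_zero hr
    exact Tor_comm ω 1 r (by rw [one_zpow, mul_one, hd, zpow_mul]; norm_cast; rw [hω3, one_zpow]) t
  obtain ⟨μ, hμ⟩ : ∃ μ : ℂ, μ • (x₁ : V) = ρ h x₁ := by
    refine hline _ (fun r hr t => stab_Tor ρ ω 1 hx₁N r hr t) fun t => ?_
    rw [← rho_mul_apply, ← hcomm 6 (by decide) t, rho_mul_apply, hx₁6, map_smul]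
  set M : Submodule ℂ V := Module.End.eigenspace (ρ h) μ with hM
  have hM' : ∀ v, v ∈ M ↔ ρ h v = μ • v := fun v => Module.End.mem_eigenspace_iff
  have hTM : ∀ A B, ∀ v ∈ M, ρ (Tor A B) v ∈ M := fun A B v hv => by
    rw [hM'] at hv ⊢
    rw [← rho_mul_apply, (Tor_commute ω 1 A B).eq, rho_mul_apply, hv, map_smul]
  have hXM : ∀ r : Fin 12, ea r % 3 = 0 → ∀ (t : F), ∀ v ∈ M, ρ (X r t) v ∈ M := fun r hr t v hv => by
    rw [hM'] at hv ⊢
    rw [← rho_mul_apply, hcomm r hr, rho_mul_apply, hv, map_smul]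
  have hTw : ∀ (B : Fˣ) (w : V) (a : F), (∀ t, ρ (X 6 t) w = ψ (a * t) • w) →
      ∀ t, ρ (X 6 t) (ρ (Tor 1 B) w) = ψ (a * (((B⁻¹ : Fˣ) : F) * t)) • ρ (Tor 1 B) w := by
    intro B w a hw t
    have e := Tor_conj 1 B 6 (((B⁻¹ : Fˣ) : F) * t)
    rw [show (1 : Fˣ) ^ ea 6 * B ^ eb 6 = B from by simp [ea, eb], Units.mul_inv_cancel_left] at e
    rw [← rho_mul_apply, ← e, rho_mul_apply, hw, map_smul]
  let act6 := opW ρ [10, 11] 6 (by decide +kernel)
  have hNM : ∀ w ∈ fixSp ρ [10, 11], w ∈ M := by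
    intro w hw
    have hd := LinearMap.congr_fun (sum_proj act6) ⟨w, hw⟩
    rw [LinearMap.sum_apply, Module.End.one_apply, ← (chr_bijective (M := F) hψ).sum_comp] at hd
    have hd' := congrArg Subtype.val hd
    rw [AddSubmonoidClass.coe_finsetSum] at hd'
    rw [← show _ = w from hd']
    refine Submodule.sum_mem _ fun a _ => ?_
    set p := proj act6 (chr ψ a) ⟨w, hw⟩ with hp
    have hp6 : ∀ t, ρ (X 6 t) (p : V) = ψ (a * t) • (p : V) := fun t =>
      congrArg Subtype.val (proj_mem act6 (chr ψ a) ⟨w, hw⟩ t)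
    rcases eq_or_ne a 0 with ha | ha
    · have := hfix0 (p : V) p.2 fun t => by rw [hp6, ha, zero_mul, AddChar.map_zero_eq_one, one_smul]
      rw [this]
      exact M.zero_mem
    set B := Units.mk0 a ha
    obtain ⟨c, hc⟩ := hline (ρ (Tor 1 B) p) (fun r hr t => stab_Tor ρ 1 B p.2 r hr t) fun t => by
      rw [hTw B p a hp6 t]
      congr 2
      simp [B, ha]
    have e : (p : V) = ρ (Tor 1 B⁻¹) (c • (x₁ : V)) := by
      rw [hc, ← rho_mul_apply, Tor_mul, inv_mul_cancel, one_mul]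
      have : (Tor (1 : Fˣ) 1 : ↥(GG F)) = 1 := by
        have h := Tor_mul (1 : Fˣ) 1 1 1
        rw [one_mul] at h
        exact mul_eq_left.1 h
      rw [this, map_one]
      rfl
    rw [e]
    exact hTM _ _ _ (M.smul_mem _ ((hM' _).2 hμ.symm))
  have hNdim : q - 1 ≤ Module.finrank ℂ (fixSp ρ [10, 11]) := by
    rw [← sum_mu hψ act6, ← Finset.add_sum_erase _ _ (Finset.mem_univ (0 : F))]
    refine le_trans ?_ (le_trans (Finset.sum_le_sum (f := fun _ => 1) fun a ha => ?_) (Nat.le_add_left _ _))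
    · exact le_of_eq (by
        rw [Finset.sum_const, Finset.card_erase_of_mem (Finset.mem_univ _), Finset.card_univ,
          smul_eq_mul, mul_one])
    · set B := Units.mk0 a (Finset.ne_of_mem_erase ha)
      have h6 : ∀ t, ρ (X 6 t) (x₁ : V) = ψ (1 * t) • (x₁ : V) := fun t => by rw [one_mul, hx₁6]
      refine mu_pos_of_mem act6 (v := ⟨ρ (Tor 1 B⁻¹) x₁, stab_Tor ρ 1 B⁻¹ hx₁N⟩) ?_ fun t => ?_
      · intro h'
        have := congrArg (fun z : fixSp ρ [10, 11] => ρ (Tor 1 B) z.1) h'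
        simp only [ZeroMemClass.coe_zero, map_zero, ← rho_mul_apply, Tor_mul, mul_inv_cancel,
          one_mul] at this
        rw [show (Tor (1 : Fˣ) 1 : ↥(GG F)) = 1 from by
          have h := Tor_mul (1 : Fˣ) 1 1 1
          rw [one_mul] at h
          exact mul_eq_left.1 h, map_one] at this
        exact hx₁0 (Subtype.ext this)
      · refine Subtype.ext ((hTw B⁻¹ x₁ 1 h6 t).trans ?_)
        simp [B, pair_field]
  -- the abelian group of roots `1, 0`
  let actA : AddChar (F × F) (Module.End ℂ V) :=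
    prodAct (op ρ 1) (op ρ 0) fun a b => op_comm ρ 0 1 (by decide +kernel) a b
  have hAM : ∀ x, ∀ v ∈ M, actA x v ∈ M := fun x v hv =>
    hXM 1 (by decide) x.1 _ (hXM 0 (by decide) x.2 v hv)
  let actM := restrictAct actA M hAM
  have hcR : chainOK [10, 11] = true := by decide +kernel
  have hcR' : chainOK [11, 10] = true := by decide +kernel
  have heR : eF ρ [10, 11] = eF ρ [11, 10] := by
    show proj (op ρ 10) 1 * (proj (op ρ 11) 1 * 1) = proj (op ρ 11) 1 * (proj (op ρ 10) 1 * 1)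
    rw [mul_one, mul_one]
    refine comm_proj _ (fun b => ?_) _
    refine ((comm_proj (op ρ 10) (fun a => ?_) 1)).symm
    exact op_comm ρ 11 10 (by decide +kernel) a b
  have c6 : ∀ (u : F) (w : V), eF ρ [10, 11] (ρ (X 6 u) w) = ρ (X 6 u) (eF ρ [10, 11] w) :=
    fun u w => eF_comm ρ hcR (by decide +kernel) u w
  have c5 : ∀ (u : F) (w : V), eF ρ [10, 11] (ρ (X 5 u) w) = ρ (X 5 u) (eF ρ [10, 11] w) :=
    fun u w => by rw [heR]; exact eF_comm ρ hcR' (by decide +kernel) u w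
  have hN6 : ∀ (u : F), ∀ w ∈ fixSp ρ [10, 11], ρ (X 6 u) w ∈ fixSp ρ [10, 11] := fun u w hw =>
    stab_X ρ (by decide +kernel) u hw
  have hN5 : ∀ (u : F), ∀ w ∈ fixSp ρ [10, 11], ρ (X 5 u) w ∈ fixSp ρ [10, 11] := fun u w hw =>
    stab_X ρ (by decide +kernel) u hw
  obtain ⟨C1, hC1, e111⟩ : ∃ C : F, C ≠ 0 ∧ ∀ s u : F,
      X 11 u * X 1 s = X 1 s * X 11 u * X 6 (C * s * u) := by
    have hsw : ∀ C : ℤ, chevG2.commTerms (1 : Fin 12) (11 : Fin 12) = [(((6 : Fin 12) : ℕ), C, 1, 1)] →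
        ∀ s u : F, X 11 u * X 1 s = X 1 s * X 11 u * X 6 (-(C : F) * s * u) := fun C hC s u => by
      rw [X_swap_one 1 11 6 (C := C) (i := 1) (j := 1) ⟨by decide, by decide +kernel, hC⟩]
      congr 2
      ring
    have : chevG2.commTerms (1 : Fin 12) (11 : Fin 12) = [(((6 : Fin 12) : ℕ), (-1 : ℤ), 1, 1)] ∨
        chevG2.commTerms (1 : Fin 12) (11 : Fin 12) = [(((6 : Fin 12) : ℕ), (1 : ℤ), 1, 1)] := by
      decide +kernel
    rcases this with hC | hC
    · exact ⟨_, by simp, hsw _ hC⟩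
    · exact ⟨_, by simp, hsw _ hC⟩
  obtain ⟨C0, hC0, e100⟩ : ∃ C : F, C ≠ 0 ∧ ∀ s u : F,
      X 10 u * X 0 s = X 0 s * X 10 u * X 5 (C * s * u) := by
    have hsw : ∀ C : ℤ, chevG2.commTerms (0 : Fin 12) (10 : Fin 12) = [(((5 : Fin 12) : ℕ), C, 1, 1)] →
        ∀ s u : F, X 10 u * X 0 s = X 0 s * X 10 u * X 5 (-(C : F) * s * u) := fun C hC s u => by
      rw [X_swap_one 0 10 5 (C := C) (i := 1) (j := 1) ⟨by decide, by decide +kernel, hC⟩]
      congr 2
      ring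
    have : chevG2.commTerms (0 : Fin 12) (10 : Fin 12) = [(((5 : Fin 12) : ℕ), (-1 : ℤ), 1, 1)] ∨
        chevG2.commTerms (0 : Fin 12) (10 : Fin 12) = [(((5 : Fin 12) : ℕ), (1 : ℤ), 1, 1)] := by
      decide +kernel
    rcases this with hC | hC
    · exact ⟨_, by simp, hsw _ hC⟩
    · exact ⟨_, by simp, hsw _ hC⟩
  obtain ⟨C5, hC5, e51⟩ : ∃ C : F, C ≠ 0 ∧ ∀ s u : F,
      X 5 u * X 1 s = X 1 s * X 5 u * X 0 (C * s * u) := by
    have hsw : ∀ C : ℤ, chevG2.commTerms (1 : Fin 12) (5 : Fin 12) = [(((0 : Fin 12) : ℕ), C, 1, 1)] →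
        ∀ s u : F, X 5 u * X 1 s = X 1 s * X 5 u * X 0 (-(C : F) * s * u) := fun C hC s u => by
      rw [X_swap_one 1 5 0 (C := C) (i := 1) (j := 1) ⟨by decide, by decide +kernel, hC⟩]
      congr 2
      ring
    have : chevG2.commTerms (1 : Fin 12) (5 : Fin 12) = [(((0 : Fin 12) : ℕ), (-1 : ℤ), 1, 1)] ∨
        chevG2.commTerms (1 : Fin 12) (5 : Fin 12) = [(((0 : Fin 12) : ℕ), (1 : ℤ), 1, 1)] := by
      decide +kernel
    rcases this with hC | hC
    · exact ⟨_, by simp, hsw _ hC⟩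
    · exact ⟨_, by simp, hsw _ hC⟩
  obtain ⟨C6, hC6, e60⟩ : ∃ C : F, C ≠ 0 ∧ ∀ s u : F,
      X 6 u * X 0 s = X 0 s * X 6 u * X 1 (C * s * u) := by
    have hsw : ∀ C : ℤ, chevG2.commTerms (0 : Fin 12) (6 : Fin 12) = [(((1 : Fin 12) : ℕ), C, 1, 1)] →
        ∀ s u : F, X 6 u * X 0 s = X 0 s * X 6 u * X 1 (-(C : F) * s * u) := fun C hC s u => by
      rw [X_swap_one 0 6 1 (C := C) (i := 1) (j := 1) ⟨by decide, by decide +kernel, hC⟩]
      congr 2
      ring
    have : chevG2.commTerms (0 : Fin 12) (6 : Fin 12) = [(((1 : Fin 12) : ℕ), (-1 : ℤ), 1, 1)] ∨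
        chevG2.commTerms (0 : Fin 12) (6 : Fin 12) = [(((1 : Fin 12) : ℕ), (1 : ℤ), 1, 1)] := by
      decide +kernel
    rcases this with hC | hC
    · exact ⟨_, by simp, hsw _ hC⟩
    · exact ⟨_, by simp, hsw _ hC⟩
  have hzero1 : ∀ s : F, s ≠ 0 → ∀ n ∈ fixSp ρ [10, 11], eF ρ [10, 11] (ρ (X 1 s) n) = 0 := by
    intro s hs n hn
    refine hfix0 _ (eF_mem ρ hcR _) fun t => ?_
    set u := t / (C1 * s) with hu'
    have e : eF ρ [10, 11] (ρ (X 11 u) (ρ (X 1 s) n)) = eF ρ [10, 11] (ρ (X 1 s) n) :=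
      eF_abs ρ hcR (by decide +kernel) u _
    rw [← rho_mul_apply, e111, rho_mul_apply, rho_mul_apply, hN6 _ n hn 11 (by decide) u,
      hu', mul_div_cancel₀ t (mul_ne_zero hC1 hs), ← rho_mul_apply,
      ← X_comm 1 6 (by decide +kernel), rho_mul_apply, c6] at e
    exact e
  have hzero0 : ∀ s : F, s ≠ 0 → ∀ n ∈ fixSp ρ [10, 11], eF ρ [10, 11] (ρ (X 0 s) n) = 0 := by
    intro s hs n hn
    refine hfix5 _ (eF_mem ρ hcR _) fun t => ?_
    set u := t / (C0 * s) with hu'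
    have e : eF ρ [10, 11] (ρ (X 10 u) (ρ (X 0 s) n)) = eF ρ [10, 11] (ρ (X 0 s) n) :=
      eF_abs ρ hcR (by decide +kernel) u _
    rw [← rho_mul_apply, e100, rho_mul_apply, rho_mul_apply, hN5 _ n hn 10 (by decide) u,
      hu', mul_div_cancel₀ t (mul_ne_zero hC0 hs), ← rho_mul_apply,
      ← X_comm 0 5 (by decide +kernel), rho_mul_apply, c5] at e
    exact e
  have hzero : ∀ x : F × F, x ≠ 0 → ∀ n ∈ fixSp ρ [10, 11],
      eF ρ [10, 11] (ρ (X 1 x.1) (ρ (X 0 x.2) n)) = 0 := by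
    rintro ⟨s, t⟩ hx n hn
    rcases eq_or_ne s 0 with rfl | hs
    · simp only [X_zero, map_one, Module.End.one_apply]
      exact hzero0 t (fun ht => hx (by simp [ht])) n hn
    · set y := t / (C5 * s) with hy
      have e := congrArg (fun g => ρ g (ρ (X 5 (-y)) n)) (e51 s y)
      rw [hy, mul_div_cancel₀ t (mul_ne_zero hC5 hs), ← hy] at e
      simp only [rho_mul_apply] at e
      rw [← rho_mul_apply ρ (X 5 y) (X 0 t), X_comm 0 5 (by decide +kernel), rho_mul_apply,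
        ← rho_mul_apply ρ (X 5 y) (X 5 (-y)), X_add, add_neg_cancel, X_zero, map_one,
        Module.End.one_apply] at e
      show eF ρ [10, 11] (ρ (X 1 s) (ρ (X 0 t) n)) = 0
      rw [← e, c5, hzero1 s hs _ (hN5 _ n hn), map_zero]
  have hproj : ∀ (χ : AddChar (F × F) ℂ) (n : V) (hn : n ∈ fixSp ρ [10, 11]),
      eF ρ [10, 11] ((proj actM χ ⟨n, hNM n hn⟩ : M) : V) =
        (Fintype.card (F × F) : ℂ)⁻¹ • n := by
    intro χ n hn
    simp only [proj, LinearMap.smul_apply, LinearMap.sum_apply, Submodule.coe_smul,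
      AddSubmonoidClass.coe_finsetSum, map_smul, map_sum]
    congr 1
    rw [Fintype.sum_eq_single (0 : F × F) fun x hx => ?_]
    · simp only [neg_zero, AddChar.map_zero_eq_one, one_smul, Module.End.one_apply]
      exact eF_fix ρ hn
    · show χ (-x) • eF ρ [10, 11] (ρ (X 1 x.1) (ρ (X 0 x.2) n)) = 0
      rw [hzero x hx n hn, smul_zero]
  have hcard0 : (Fintype.card (F × F) : ℂ)⁻¹ ≠ 0 := inv_ne_zero card_ne_zero
  let f : ∀ χ : AddChar (F × F) ℂ, fixSp ρ [10, 11] →ₗ[ℂ] wt actM χ := fun χ =>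
    (((proj actM χ).codRestrict (wt actM χ) (proj_mem actM χ))).comp
      (Submodule.inclusion (show fixSp ρ [10, 11] ≤ M from hNM))
  have hfe : ∀ χ (n : fixSp ρ [10, 11]), eF ρ [10, 11] (((f χ n : wt actM χ) : M) : V) =
      (Fintype.card (F × F) : ℂ)⁻¹ • (n : V) := fun χ n => hproj χ n n.2
  have hge : ∀ a : F × F, q - 1 ≤ mu ψ actM a := fun a => by
    refine hNdim.trans (LinearMap.finrank_le_finrank_of_injective (f := f (chr ψ a)) ?_)
    rw [injective_iff_map_eq_zero]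
    intro n hn
    have e := hfe (chr ψ a) n
    rw [hn, ZeroMemClass.coe_zero, ZeroMemClass.coe_zero, map_zero, eq_comm, smul_eq_zero] at e
    exact Subtype.ext (e.resolve_left hcard0)
  -- one more vector
  obtain ⟨c0', hc0'⟩ := word_conj_nn (F := F) [1, 0, 1, 0, 1] 11
  obtain ⟨c5', hc5'⟩ := word_conj_nn (F := F) [1, 0, 1, 0, 1] 10
  obtain ⟨c1', hc1'⟩ := word_conj_nn (F := F) [1, 0, 1, 0, 1] 6
  rw [show wp [1, 0, 1, 0, 1] 11 = 0 by decide +kernel] at hc0'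
  rw [show wp [1, 0, 1, 0, 1] 10 = 5 by decide +kernel] at hc5'
  rw [show wp [1, 0, 1, 0, 1] 6 = 1 by decide +kernel] at hc1'
  set nz : ↥(GG F) := nW [1, 0, 1, 0, 1] with hnz
  have hnzh : nz * h = h * nz := by
    have ha : (nn 0 : ↥(GG F)) * Tor ω 1 = Tor ω⁻¹ 1 * nn 0 := by
      rw [nn_Tor]
      congr 2 <;> simp [show refl2 0 7 = 4 by decide +kernel, show refl2 0 6 = 10 by decide +kernel,
        ea, zpow_neg, hω3]
    have ha' : (nn 0 : ↥(GG F)) * Tor ω⁻¹ 1 = Tor ω 1 * nn 0 := by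
      rw [nn_Tor]
      congr 2 <;> simp [show refl2 0 7 = 4 by decide +kernel, show refl2 0 6 = 10 by decide +kernel,
        ea, zpow_neg, hω3]
    have hb : ∀ A : Fˣ, (nn 1 : ↥(GG F)) * Tor A 1 = Tor A 1 * nn 1 := fun A => by
      rw [nn_Tor]
      congr 2 <;> simp [show refl2 1 7 = 8 by decide +kernel, show refl2 1 6 = 5 by decide +kernel, ea]
    simp only [hnz, nW, List.map_cons, List.map_nil, List.prod_cons, List.prod_nil, mul_one, hh,
      mul_assoc]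
    rw [hb, ← mul_assoc (nn 0) (Tor ω 1), ha, mul_assoc, ← mul_assoc (nn 1) (Tor ω⁻¹ 1), hb,
      mul_assoc, ← mul_assoc (nn 0) (Tor ω⁻¹ 1), ha', mul_assoc, ← mul_assoc (nn 1) (Tor ω 1), hb,
      mul_assoc]
  set m : V := ρ nz x₁ with hm
  have hmM : m ∈ M := (hM' m).2 (by
    rw [hm, ← rho_mul_apply, ← hnzh, rho_mul_apply, ← hμ, map_smul])
  have hm0 : m ≠ 0 := fun h' => by
    have := congrArg (ρ nz⁻¹) h'
    rw [hm, map_zero, ← rho_mul_apply, inv_mul_cancel, map_one] at this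
    exact hx₁0 (Subtype.ext this)
  have hm5 : ∀ t, ρ (X 5 t) m = m := move_fix ρ hc5' fun t => hx₁N 10 (by decide) t
  have hm0' : ∀ t, ρ (X 0 t) m = m := move_fix ρ hc0' fun t => hx₁N 11 (by decide) t
  have hc1ne := conj_coeff_ne_zero hc1'
  have hm1 : ∀ t, ρ (X 1 t) m = ψ (c1'⁻¹ * t) • m := fun t => by
    have e := congrArg (fun g => ρ g (x₁ : V)) (hc1' (c1'⁻¹ * t))
    rw [mul_inv_cancel_left₀ hc1ne] at e
    simp only [rho_mul_apply, hx₁6, map_smul] at e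
    exact e.symm
  have hmwt : (⟨m, hmM⟩ : M) ∈ wt actM (chr ψ ((c1'⁻¹, 0) : F × F)) := by
    rintro ⟨s, t⟩
    refine Subtype.ext ?_
    show ρ (X 1 s) (ρ (X 0 t) m) = _
    rw [hm0', hm1]
    simp [chr_apply, pair_prod, pair_field]
  have hem : eF ρ [10, 11] m = 0 :=
    hfix5 _ (eF_mem ρ hcR _) fun t => by rw [← c5, hm5]
  have hq1 : q - 1 + 1 ≤ mu ψ actM (c1'⁻¹, (0 : F)) := by
    refine (Nat.add_le_add_right hNdim 1).trans ?_
    rw [← Module.finrank_self ℂ, ← Module.finrank_prod]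
    refine LinearMap.finrank_le_finrank_of_injective
      (f := (f _).coprod (LinearMap.toSpanSingleton ℂ _ ⟨⟨m, hmM⟩, hmwt⟩)) ?_
    rw [injective_iff_map_eq_zero]
    rintro ⟨n, z⟩ hnzero
    have e := congrArg (fun y : wt actM (chr ψ ((c1'⁻¹, 0) : F × F)) =>
      eF ρ [10, 11] ((y : M) : V)) hnzero
    simp only [LinearMap.coprod_apply, LinearMap.toSpanSingleton_apply, Submodule.coe_add,
      Submodule.coe_smul, map_add, map_smul, hem, smul_zero, add_zero, ZeroMemClass.coe_zero, map_zero,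
      hfe] at e
    have hn : n = 0 := Subtype.ext ((smul_eq_zero.1 e).resolve_left hcard0)
    subst hn
    simp only [LinearMap.coprod_apply, map_zero, zero_add, LinearMap.toSpanSingleton_apply] at hnzero
    rcases smul_eq_zero.1 hnzero with hz | hz
    · simp [hz]
    · exact absurd (congrArg (fun y : wt actM (chr ψ ((c1'⁻¹, 0) : F × F)) => ((y : M) : V)) hz) hm0
  -- transitivity
  have hM6 : ∀ u, ∀ v ∈ M, ρ (X 6 u) v ∈ M := fun u => hXM 6 (by decide) u
  have hM5 : ∀ u, ∀ v ∈ M, ρ (X 5 u) v ∈ M := fun u => hXM 5 (by decide) u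
  have hinvM : ∀ (g g' : ↥(GG F)) (h1 : ∀ v ∈ M, ρ g v ∈ M) (h2 : ∀ v ∈ M, ρ g' v ∈ M), g' * g = 1 →
      (ρ g').restrict h2 * (ρ g).restrict h1 = 1 := fun g g' h1 h2 e =>
    LinearMap.ext fun v => Subtype.ext (by
      show ρ g' (ρ g v) = v
      rw [← rho_mul_apply, e, map_one]; rfl)
  have sh6 : ∀ α γ u : F, mu ψ actM (α, γ - C6 * u * α) = mu ψ actM (α, γ) := by
    intro α γ u
    refine mu_move (ψ := ψ) actM actM (hinvM _ _ (hM6 u) (hM6 (-u)) (X_cancel 6 u))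
      (fun x => (x.1 + C6 * x.2 * u, x.2)) (fun y => ⟨(y.1 - C6 * y.2 * u, y.2), by simp⟩) ?_ ?_
    · rintro ⟨s, t⟩
      refine LinearMap.ext fun v => Subtype.ext ?_
      show ρ (X 1 (s + C6 * t * u)) (ρ (X 0 t) (ρ (X 6 u) (v : V))) =
        ρ (X 6 u) (ρ (X 1 s) (ρ (X 0 t) (v : V)))
      rw [← rho_mul_apply ρ (X 6 u), ← X_comm 6 1 (by decide +kernel) u s, rho_mul_apply,
        ← rho_mul_apply ρ (X 6 u) (X 0 t), e60, rho_mul_apply, rho_mul_apply,
        ← X_add 1 s, rho_mul_apply, ← rho_mul_apply ρ (X 6 u) (X 1 _),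
        ← X_comm 6 1 (by decide +kernel) u, rho_mul_apply, ← rho_mul_apply ρ (X 0 t) (X 1 _),
        X_comm 1 0 (by decide +kernel), rho_mul_apply]
    · rintro ⟨s, t⟩
      simp only [pair_prod, pair_field]
      ring
  have sh5 : ∀ α γ u : F, mu ψ actM (α - C5 * u * γ, γ) = mu ψ actM (α, γ) := by
    intro α γ u
    refine mu_move (ψ := ψ) actM actM (hinvM _ _ (hM5 u) (hM5 (-u)) (X_cancel 5 u))
      (fun x => (x.1, x.2 + C5 * x.1 * u)) (fun y => ⟨(y.1, y.2 - C5 * y.1 * u), by simp⟩) ?_ ?_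
    · rintro ⟨s, t⟩
      refine LinearMap.ext fun v => Subtype.ext ?_
      show ρ (X 1 s) (ρ (X 0 (t + C5 * s * u)) (ρ (X 5 u) (v : V))) =
        ρ (X 5 u) (ρ (X 1 s) (ρ (X 0 t) (v : V)))
      rw [← rho_mul_apply ρ (X 5 u), e51, rho_mul_apply, rho_mul_apply,
        add_comm t, ← X_add 0 _ t, rho_mul_apply]
      simp only [← rho_mul_apply]
      refine congrArg (fun g => ρ g (v : V)) ?_
      rw [X_comm 0 5 (by decide +kernel) t u |>.symm, ← mul_assoc (X 0 (C5 * s * u)) (X 5 u),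
        ← X_comm 0 5 (by decide +kernel), mul_assoc]
    · rintro ⟨s, t⟩
      simp only [pair_prod, pair_field]
      ring
  have shT : ∀ (B : Fˣ) (α : F), mu ψ actM (α * B, (0 : F)) = mu ψ actM (α, (0 : F)) := by
    intro B α
    refine mu_move (ψ := ψ) actM actM (hinvM _ _ (hTM 1 B) (hTM (1 : Fˣ)⁻¹ B⁻¹) (Tor_cancel 1 B))
      (fun x => (((B⁻¹ : Fˣ) : F) * x.1, (((B⁻¹) ^ 2 : Fˣ) : F) * x.2))
      (fun y => ⟨((B : F) * y.1, ((B ^ 2 : Fˣ) : F) * y.2), by simp⟩) ?_ ?_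
    · rintro ⟨s, t⟩
      refine LinearMap.ext fun v => Subtype.ext ?_
      show ρ (X 1 (((B⁻¹ : Fˣ) : F) * s)) (ρ (X 0 ((((B⁻¹) ^ 2 : Fˣ) : F) * t))
        (ρ (Tor 1 B) (v : V))) = ρ (Tor 1 B) (ρ (X 1 s) (ρ (X 0 t) (v : V)))
      simp only [← rho_mul_apply]
      rw [← mul_assoc (Tor 1 B), Tor_conj, mul_assoc, Tor_conj]
      simp [ea, eb]
    · rintro ⟨s, t⟩
      simp only [pair_prod, pair_field]
      field_simp
      simp
  have hall : ∀ x : F × F, x ≠ 0 → q ≤ mu ψ actM x := by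
    have base : ∀ α γ : F, α ≠ 0 → q ≤ mu ψ actM (α, γ) := by
      intro α γ hα
      have h1 := sh6 α γ (γ / (C6 * α))
      rw [show γ - C6 * (γ / (C6 * α)) * α = 0 by field_simp; ring] at h1
      rw [← h1]
      have h2 := shT (Units.mk0 (α * c1') (mul_ne_zero hα hc1ne)) c1'⁻¹
      rw [Units.val_mk0, mul_comm α, inv_mul_cancel_left₀ hc1ne] at h2
      rw [h2]
      have : 1 ≤ q := Fintype.card_pos
      omega
    rintro ⟨α, γ⟩ hx
    rcases eq_or_ne α 0 with rfl | hα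
    · have hγ : γ ≠ 0 := fun h => hx (by simp [h])
      have := sh5 (C5 * γ) γ 1
      rw [show C5 * γ - C5 * 1 * γ = 0 by ring] at this
      rw [this]
      exact base _ _ (mul_ne_zero hC5 hγ)
    · exact base _ _ hα
  have hMdim : q ^ 3 - 1 ≤ Module.finrank ℂ M := by
    rw [← sum_mu hψ actM, ← Finset.add_sum_erase _ _ (Finset.mem_univ (0 : F × F))]
    refine le_trans ?_ (Nat.add_le_add (hge 0) (Finset.sum_le_sum fun x hx => hall x (Finset.ne_of_mem_erase hx)))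
    rw [Finset.sum_const, Finset.card_erase_of_mem (Finset.mem_univ _), Finset.card_univ,
      Fintype.card_prod, smul_eq_mul, ← hqdef, tsub_mul, one_mul]
    have h3 : q ^ 3 = q * q * q := by ring
    have h1 : q ≤ q * q * q := Nat.le_mul_of_pos_left q (by positivity)
    omega
  by_contra hcon
  push Not at hcon
  have htop : M = ⊤ := Submodule.eq_top_of_finrank_eq (le_antisymm (Submodule.finrank_le _) (hcon.trans hMdim))
  have hμ0 : μ ≠ 0 := fun h0' => by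
    rw [h0', zero_smul] at hμ
    have := congrArg (ρ h⁻¹) hμ
    rw [map_zero, ← rho_mul_apply, inv_mul_cancel, map_one] at this
    exact hx₁0 (Subtype.ext this.symm)
  have hscal : ∀ v, ρ h v = μ • v := fun v => (hM' v).1 (htop ▸ Submodule.mem_top)
  have e8 := Tor_conj ω 1 8 (1 : F)
  rw [one_zpow, mul_one, mul_one, show ea 8 = 1 from rfl, zpow_one] at e8
  have h8 : ρ (X 8 (1 : F)) = ρ (X 8 (ω : F)) := LinearMap.ext fun v => by
    have := congrArg (fun g => ρ g v) e8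
    rw [← hh, rho_mul_apply, rho_mul_apply, hscal, hscal, map_smul] at this
    exact smul_right_injective V hμ0 this
  have h1 : ρ (X 8 ((ω : F) - 1)) = 1 := by
    rw [sub_eq_add_neg, ← X_add, map_mul, ← h8, ← map_mul, X_add, add_neg_cancel, X_zero, map_one]
  exact hω (Units.ext (sub_eq_zero.1 ((X_eq_one_iff 8 _).1 (hinj _ h1))))

end CfsgLib.G2Deg97
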