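import Cfsg.Agent.Chevalley.Weights.G2
import Cfsg.Agent.Chevalley.RankOne

/-!
Root elements, torus elements and simple reflections inside the Chevalley group of type `G₂`.

Root indices: `6 = b`, `7 = a` (short), `8 = a+b`, `9 = 2a+b`, `10 = 3a+b`, `11 = 3a+2b`, and
`11 - r` is the negative of `r`.
-/

set_option autoImplicit false

namespace CfsgLib.G2Deg97

open Cfsg.Lie CfsgLib.Chevalley

variable {F : Type*} [Field F]

/-- The group. -/
noncomputable abbrev GG (F : Type*) [Field F] : Subgroup (GL chevG2.Idx F) := chevG2.group F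

/-- A root element. -/
noncomputable def X (r : Fin 12) (t : F) : ↥(GG F) := ⟨sysG2.xG F r t, sysG2.xG_mem F r.isLt t⟩

theorem X_val (r : Fin 12) (t : F) : ((X r t : ↥(GG F)) : GL chevG2.Idx F) = sysG2.xG F r t := rfl

theorem X_add (r : Fin 12) (t u : F) : X r t * X r u = X r (t + u) :=
  Subtype.ext (sysG2.xG_add F r t u)

theorem X_zero (r : Fin 12) : X r (0 : F) = 1 := Subtype.ext (sysG2.xG_zero F r)

theorem X_inv (r : Fin 12) (t : F) : (X r t)⁻¹ = X r (-t) :=
  Subtype.ext (sysG2.xG_inv F r t)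

theorem X_eq_one_iff (r : Fin 12) (t : F) : X r t = 1 ↔ t = 0 :=
  Subtype.ext_iff.trans (sysG2.xG_eq_one_iff F r.isLt t)

/-- The product of a list of root elements. -/
noncomputable def XW (L : List (Fin 12 × F)) : ↥(GG F) := (L.map fun e => X e.1 e.2).prod

theorem XW_val (L : List (Fin 12 × F)) :
    ((XW L : ↥(GG F)) : GL chevG2.Idx F) = sysG2.wG F (L.map fun e => ((e.1 : ℕ), e.2)) := by
  induction L with
  | nil => rfl
  | cons e L ih =>
    simp only [XW, Sys.wG, List.map_cons, List.prod_cons, Subgroup.coe_mul] at ih ⊢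
    rw [ih, X_val]

/-- The commutator formula. -/
theorem X_swap (r s : Fin 12) {T : List (Fin 12 × ℤ × ℕ × ℕ)}
    (h : (s : ℕ) ≠ r ∧ (s : ℕ) ≠ chevG2.neg r ∧
      chevG2.commTerms r s = T.map fun c => ((c.1 : ℕ), c.2)) (t u : F) :
    X s u * X r t =
      X r t * X s u * XW (T.map fun c => (c.1, (c.2.1 : F) * (-t) ^ c.2.2.1 * u ^ c.2.2.2)) := by
  have e := sysG2.xG_comm F r.isLt s.isLt h.1 h.2.1 t u
  refine Subtype.ext ?_
  simp only [Subgroup.coe_mul, X_val, XW_val, List.map_map]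
  rw [ChevalleyDatum.commWord, h.2.2, List.map_map] at e
  rw [mul_assoc, inv_mul_eq_iff_eq_mul] at e
  rw [e, mul_assoc]
  rfl

theorem X_comm (r s : Fin 12) (h : (s : ℕ) ≠ r ∧ (s : ℕ) ≠ chevG2.neg r ∧
    chevG2.commTerms r s = []) (t u : F) : X s u * X r t = X r t * X s u := by
  simpa [XW] using X_swap r s (T := []) h t u

theorem X_swap_one (r s w : Fin 12) {C : ℤ} {i j : ℕ} (h : (s : ℕ) ≠ r ∧ (s : ℕ) ≠ chevG2.neg r ∧
    chevG2.commTerms r s = [((w : ℕ), C, i, j)]) (t u : F) :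
    X s u * X r t = X r t * X s u * X w ((C : F) * (-t) ^ i * u ^ j) := by
  simpa [XW] using X_swap r s (T := [(w, C, i, j)]) (by simpa using h) t u

/-- Membership of the root elements of a set of roots in a subgroup generates their words. -/
theorem XW_mem {H : Subgroup ↥(GG F)} {L : List (Fin 12 × F)} (h : ∀ e ∈ L, X e.1 e.2 ∈ H) :
    XW L ∈ H :=
  Subgroup.list_prod_mem _ fun g hg => by
    obtain ⟨e, he, rfl⟩ := List.mem_map.mp hg
    exact h e he

/-- The exponent of the first coordinate. -/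
def ea : Fin 12 → ℤ := ![-3, -3, -2, -1, -1, 0, 0, 1, 1, 2, 3, 3]

/-- The exponent of the second coordinate. -/
def eb : Fin 12 → ℤ := ![-2, -1, -1, -1, 0, -1, 1, 0, 1, 1, 1, 2]

/-- The torus element with values `A` at `a` and `B` at `b`. -/
noncomputable def Tor (A B : Fˣ) : ↥(GG F) :=
  ⟨tor chevG2 F fun j => if j = 0 then A ^ 2 * B else A ^ 3 * B ^ 2,
    sysG2.diagonal_le_group F (by rw [sysG2.diagonal_eq]; exact ⟨_, rfl⟩)⟩

theorem Tor_conj (A B : Fˣ) (r : Fin 12) (t : F) :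
    Tor A B * X r t = X r (((A ^ ea r * B ^ eb r : Fˣ) : F) * t) * Tor A B := by
  have hc : ∀ r : Fin 12, 2 * chevG2.cartan 0 r + 3 * chevG2.cartan 1 r = ea r ∧
      chevG2.cartan 0 r + 2 * chevG2.cartan 1 r = eb r := by decide +kernel
  refine Subtype.ext ?_
  simp only [Subgroup.coe_mul, X_val]
  rw [← mul_inv_eq_iff_eq_mul]
  refine (sysG2.tor_conj F _ r.isLt t).trans ?_
  congr 3
  rw [torusVal, show chevG2.rank = 2 from rfl, Finset.prod_range_succ, Finset.prod_range_succ,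
    Finset.prod_range_zero, one_mul, if_pos rfl, if_neg one_ne_zero, ← (hc r).1, ← (hc r).2,
    mul_zpow, mul_zpow, ← zpow_natCast A, ← zpow_natCast A, ← zpow_natCast B, ← zpow_mul, ← zpow_mul,
    ← zpow_mul, zpow_add, zpow_add]
  push_cast
  exact mul_mul_mul_comm _ _ _ _

theorem Tor_comm (A B : Fˣ) (r : Fin 12) (h : A ^ ea r * B ^ eb r = 1) (t : F) :
    Tor A B * X r t = X r t * Tor A B := by
  rw [Tor_conj, h, Units.val_one, one_mul]

theorem Tor_mul (A B A' B' : Fˣ) : Tor A B * Tor A' B' = Tor (A * A') (B * B') := by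
  refine Subtype.ext ((map_mul (tor chevG2 F) _ _).symm.trans (congrArg _ (funext fun j => ?_)))
  simp only [Pi.mul_apply]
  split_ifs <;> simp only [mul_pow] <;> exact mul_mul_mul_comm _ _ _ _

theorem Tor_commute (A B A' B' : Fˣ) : Commute (Tor A B) (Tor A' B') := by
  rw [Commute, SemiconjBy, Tor_mul, Tor_mul, mul_comm A, mul_comm B]

/-- The reflection in the `i`-th fundamental root (`0` for `a`, `1` for `b`). -/
noncomputable def nn (i : Fin 2) : ↥(GG F) :=
  ⟨sysG2.nG F (chevG2.simple i) 1, sysG2.nG_mem F (sysG2.wf.simple_lt i i.isLt) 1⟩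

theorem nn_conj (i : Fin 2) (r r' : Fin 12) (h : chevG2.reflectRoot i r = r') :
    ∃ c : F, c ≠ 0 ∧ (c = 1 ∨ c = -1) ∧ ∀ t, nn i * X r t = X r' (c * t) * nn i := by
  rcases sysG2.eta_sign i i.isLt r r.isLt with e | e
  · refine ⟨1, one_ne_zero, Or.inl rfl, fun t => Subtype.ext ?_⟩
    have := sysG2.nG_conj_xG F i.isLt r.isLt (t := t)
    rw [h, e, Int.cast_one] at this
    exact this
  · refine ⟨-1, neg_ne_zero.2 one_ne_zero, Or.inr rfl, fun t => Subtype.ext ?_⟩
    have := sysG2.nG_conj_xG F i.isLt r.isLt (t := t)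
    rw [h, e, Int.cast_neg, Int.cast_one] at this
    exact this

theorem nn_eq_XW (i : Fin 2) (r r' : Fin 12) (h : chevG2.simple i = r ∧ chevG2.neg r = r') :
    (nn i : ↥(GG F)) = X r 1 * X r' (-1) * X r 1 := by
  refine Subtype.ext ?_
  show sysG2.nG F (chevG2.simple i) 1 = _
  rw [h.1, sysG2.nG_eq, h.2, inv_one]
  rfl

theorem group_closure : Subgroup.closure {g : ↥(GG F) | ∃ r t, g = X r t} = ⊤ := by
  refine eq_top_iff.2 fun g _ => ?_
  have hle : GG F ≤ (Subgroup.closure {g : ↥(GG F) | ∃ r t, g = X r t}).map (GG F).subtype := by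
    refine (sysG2.group_eq F).trans_le ((Subgroup.closure_le _).2 ?_)
    rintro x ⟨r, hr, t, rfl⟩
    exact ⟨X ⟨r, hr⟩ t, Subgroup.subset_closure ⟨⟨r, hr⟩, t, rfl⟩, rfl⟩
  obtain ⟨h, hh, he⟩ := hle g.2
  rwa [Subtype.ext he] at hh

end CfsgLib.G2Deg97
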