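import Cfsg.Agent.G2Deg97.Tools
import Cfsg.Agent.G2Deg97.Cells
import Cfsg.Agent.S1059

/-!
A representation with a one-dimensional space fixed by the radical and the long simple root
subgroup has degree above `q³`.
-/

set_option autoImplicit false

namespace CfsgLib.G2Deg97

open Cfsg.Lie CfsgLib.Chevalley CfsgLib.WeightProj65
open SelfDual (pair)

/-- The check that a word moves `b` to positive roots at each reflection in `b`, read from the right. -/
def wordGood : List (Fin 2) → Bool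
  | [] => true
  | i :: R => (decide (i = 0) || decide (6 ≤ (wp R.reverse 6 : ℕ))) && wordGood R

theorem words_good : ∀ L ∈ words, wordGood L = true ∧ wordGood L.reverse = true := by decide +kernel

theorem words_arith : (words.map fun L : List (Fin 2) => (L.length, L.count 1)) =
    [(0, 0), (1, 0), (1, 1), (2, 1), (2, 1), (3, 1), (3, 2), (4, 2), (4, 2), (5, 2), (5, 3), (6, 3)] := by
  decide +kernel

variable {F : Type*} [Field F]

theorem word_conj (m : Fin 2 → ↥(GG F))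
    (hm : ∀ (i : Fin 2) (r r' : Fin 12), chevG2.reflectRoot i r = r' →
      ∃ c : F, ∀ t, m i * X r t = X r' (c * t) * m i) :
    ∀ (L : List (Fin 2)) (r : Fin 12),
      ∃ c : F, ∀ t, (L.map m).prod * X r t = X (wp L r) (c * t) * (L.map m).prod
  | [], r => ⟨1, fun t => by simp [wp]⟩
  | i :: L, r => by
    obtain ⟨c, hc⟩ := word_conj m hm L r
    obtain ⟨d, hd⟩ := hm i (wp L r) (refl2 i (wp L r)) (refl2_val i (wp L r)).symm
    refine ⟨d * c, fun t => ?_⟩
    rw [List.map_cons, List.prod_cons, mul_assoc, hc, ← mul_assoc, hd, mul_assoc d, mul_assoc]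
    rfl

theorem nn_inv_conj (i : Fin 2) (r r' : Fin 12) (h : chevG2.reflectRoot i r = r') :
    ∃ c : F, ∀ t, (nn i : ↥(GG F))⁻¹ * X r t = X r' (c * t) * (nn i)⁻¹ := by
  have hinv : ∀ (i : Fin 2) (r r' : Fin 12), chevG2.reflectRoot i r = r' →
      chevG2.reflectRoot i r' = r := by decide +kernel
  obtain ⟨c, hc, -, e⟩ := nn_conj (F := F) i r' r (hinv i r r' h)
  refine ⟨c⁻¹, fun t => ?_⟩
  rw [eq_mul_inv_iff_mul_eq, mul_assoc, inv_mul_eq_iff_eq_mul, e, mul_inv_cancel_left₀ hc]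

variable {V : Type*} [AddCommGroup V] [Module ℂ V] [FiniteDimensional ℂ V]
  (ρ : Representation ℂ ↥(GG F) V) (v : V) (ℓ : V →ₗ[ℂ] ℂ)

/-- The elements acting by a scalar on `v` and compatibly on `ℓ`. -/
def eigSub : Subgroup ↥(GG F) where
  carrier := {g | ∃ a : ℂ, a ≠ 0 ∧ ρ g v = a • v ∧ ∀ w, ℓ (ρ g w) = a * ℓ w}
  one_mem' := ⟨1, one_ne_zero, by simp, by simp⟩
  mul_mem' := by
    rintro g h ⟨a, ha, h1, h2⟩ ⟨b, hb, h3, h4⟩
    refine ⟨a * b, mul_ne_zero ha hb, ?_, fun w => ?_⟩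
    · rw [rho_mul_apply, h3, map_smul, h1, smul_smul, mul_comm]
    · rw [rho_mul_apply, h2, h4, mul_assoc]
  inv_mem' := by
    rintro g ⟨a, ha, h1, h2⟩
    refine ⟨a⁻¹, inv_ne_zero ha, ?_, fun w => ?_⟩
    · have := congrArg (ρ g⁻¹) h1
      rw [map_smul, ← rho_mul_apply, inv_mul_cancel, map_one] at this
      rw [eq_comm, inv_smul_eq_iff₀ ha]
      exact this
    · have := h2 (ρ g⁻¹ w)
      rw [← rho_mul_apply, mul_inv_cancel, map_one] at this
      rw [eq_inv_mul_iff_mul_eq₀ ha]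
      exact this.symm

theorem sum_conj_scalar {G W : Type*} [Group G] [Fintype G] [AddCommGroup W] [Module ℂ W]
    [FiniteDimensional ℂ W] (σ : Representation ℂ G W) (hσ : σ.IsIrreducible) [Nontrivial W]
    (T : Module.End ℂ W) : ∃ s : ℂ, (∑ g, σ g * T * σ g⁻¹) = s • 1 ∧
      s * Module.finrank ℂ W = Fintype.card G * LinearMap.trace ℂ W T := by
  obtain ⟨s, hs⟩ := scalar_of_commute σ hσ (∑ g, σ g * T * σ g⁻¹) fun h => by
    rw [Finset.sum_mul, Finset.mul_sum]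
    refine Fintype.sum_equiv (Equiv.mulLeft h⁻¹) _ _ fun g => ?_
    simp only [Equiv.coe_mulLeft, mul_inv_rev, inv_inv, map_mul, ← mul_assoc]
    rw [← map_mul σ h, mul_inv_cancel, map_one, one_mul]
  refine ⟨s, hs, ?_⟩
  have h := congrArg (LinearMap.trace ℂ W) hs
  rw [map_smul, LinearMap.trace_one, map_sum, smul_eq_mul] at h
  rw [← h, Finset.sum_congr rfl fun g _ => ?_, Finset.sum_const, Finset.card_univ, nsmul_eq_mul]
  rw [LinearMap.trace_mul_comm, ← mul_assoc, ← map_mul, inv_mul_cancel, map_one, one_mul]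

variable [Fintype F]

omit [FiniteDimensional ℂ V] in
theorem word_value (c : ℂ) (hA : ∀ r : Fin 12, 6 ≤ (r : ℕ) → ∀ (t : F) (w : V), ℓ (ρ (X r t) w) = ℓ w)
    (hv : ℓ v = 1) (m : Fin 2 → ↥(GG F))
    (hm : ∀ (i : Fin 2) (r r' : Fin 12), chevG2.reflectRoot i r = r' →
      ∃ c : F, ∀ t, m i * X r t = X r' (c * t) * m i)
    (h0 : ρ (m 0) v = v)
    (h1 : ∑ t : F, ρ (X 6 t) (ρ (m 1) v) = ((Fintype.card F : ℂ) * c) • v) :
    ∀ R : List (Fin 2), wordGood R = true → ℓ (ρ (R.reverse.map m).prod v) = c ^ R.count 1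
  | [], _ => by simp [hv]
  | i :: R, h => by
    simp only [wordGood, Bool.and_eq_true, Bool.or_eq_true, decide_eq_true_eq] at h
    have ih := word_value c hA hv m hm h0 h1 R h.2
    rw [List.reverse_cons, List.map_append, List.prod_append, rho_mul_apply, List.map_singleton,
      List.prod_singleton]
    fin_cases i
    · simp only [Fin.zero_eta, h0, ih]
      simp
    · have hp : 6 ≤ (wp R.reverse 6 : ℕ) := h.1.resolve_left (by decide)
      obtain ⟨d, hd⟩ := word_conj m hm R.reverse 6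
      have e := congrArg (fun u => ℓ (ρ (R.reverse.map m).prod u)) h1
      simp only [map_sum, map_smul, smul_eq_mul, ih, ← rho_mul_apply, ← mul_assoc, hd] at e
      simp only [Fin.mk_one, ← rho_mul_apply]
      have e' : ∀ t : F, ℓ (ρ (X (wp R.reverse 6) (d * t) * (R.reverse.map m).prod * m 1) v) =
          ℓ (ρ ((R.reverse.map m).prod * m 1) v) := fun t => by
        rw [mul_assoc (X _ _), rho_mul_apply ρ (X _ _), hA _ hp]
      rw [Finset.sum_congr rfl fun t _ => e' t, Finset.sum_const, Finset.card_univ, nsmul_eq_mul] at e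
      rw [List.count_cons_self, pow_succ']
      exact mul_left_cancel₀ (Nat.cast_ne_zero.2 Fintype.card_ne_zero) (e.trans (mul_assoc _ _ _))

/-- The count over the Bruhat cells. -/
theorem card_lt_of_cover [DecidableEq ↥(GG F)] [Fintype ↥(GG F)] [DecidablePred (· ∈ BB F)]
    (R : ↥(GG F) → ℝ) (k : ℕ)
    (hR : ∀ g, ∃ L ∈ words, g ∈ cellF L ∧ R g = ((Fintype.card F : ℝ)⁻¹) ^ (2 * L.count 1))
    (hk : (∑ g, R g) * k = Fintype.card ↥(GG F)) : Fintype.card F ^ 3 < k := by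
  set q := Fintype.card F with hqdef
  have hq2 : 2 ≤ q := Fintype.one_lt_card
  have hqpos : (0 : ℝ) < q := by exact_mod_cast (by omega : 0 < q)
  set w : List (Fin 2) → ℝ := fun L => ((q : ℝ)⁻¹) ^ (2 * L.count 1) with hw
  have hre : ∀ g : ↥(GG F), R g ≤ (words.map fun L => if g ∈ cellF L then w L else 0).sum := by
    intro g
    obtain ⟨L, hL, hg, e⟩ := hR g
    refine le_trans (le_of_eq ?_) (List.single_le_sum ?_ _ (List.mem_map_of_mem hL))
    · rw [if_pos hg, e]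
    · intro x hx
      obtain ⟨L', -, rfl⟩ := List.mem_map.1 hx
      split_ifs
      · exact pow_nonneg (inv_nonneg.2 (Nat.cast_nonneg _)) _
      · exact le_rfl
  have hsw : ∀ Ls : List (List (Fin 2)), ∑ g : ↥(GG F),
      (Ls.map fun L => if g ∈ cellF L then w L else 0).sum =
      (Ls.map fun L => ((cellF (F := F) L).card : ℝ) * w L).sum := by
    intro Ls
    induction Ls with
    | nil => simp
    | cons L Ls ih =>
      simp only [List.map_cons, List.sum_cons, Finset.sum_add_distrib, ih]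
      congr 1
      rw [Finset.sum_ite_mem, Finset.univ_inter, Finset.sum_const, nsmul_eq_mul]
  have hle : ∀ L ∈ words, ((cellF (F := F) L).card : ℝ) * w L ≤
      ((q : ℝ) ^ L.length * (Nat.card (BB F) : ℝ)) * w L := fun L _ => by
    refine mul_le_mul_of_nonneg_right ?_ (pow_nonneg (inv_nonneg.2 (Nat.cast_nonneg _)) _)
    rw [← Nat.cast_pow, ← Nat.cast_mul]
    exact Nat.cast_le.2 (card_cellF L)
  have hsum : ∑ g, R g ≤ (Nat.card (BB F) : ℝ) * (6 + 3 * q + 3 / q) := by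
    refine ((Finset.sum_le_sum fun g _ => hre g).trans (le_of_eq (hsw words))).trans
      ((List.sum_le_sum hle).trans (le_of_eq ?_))
    have : (words.map fun L : List (Fin 2) => (q : ℝ) ^ L.length * (Nat.card (BB F) : ℝ) * w L) =
        ((words.map fun L : List (Fin 2) => (L.length, L.count 1)).map fun p =>
          (q : ℝ) ^ p.1 * (Nat.card (BB F) : ℝ) * ((q : ℝ)⁻¹) ^ (2 * p.2)) := by
      rw [List.map_map]; rfl
    rw [this, words_arith]
    simp only [List.map_cons, List.map_nil, List.sum_cons, List.sum_nil, inv_pow]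
    field_simp
    ring
  have hG : (Fintype.card ↥(GG F) : ℝ) = (q : ℝ) ^ 6 * ((q : ℝ) ^ 2 - 1) * ((q : ℝ) ^ 6 - 1) := by
    have h := Cfsg.Agent.S1059.result (F := F) (q := q) rfl
    rw [Nat.card_eq_fintype_card] at h
    rw [h, Nat.cast_mul, Nat.cast_mul, Nat.cast_sub (Nat.one_le_pow 2 q (by omega)),
      Nat.cast_sub (Nat.one_le_pow 6 q (by omega))]
    simp only [Nat.cast_pow, Nat.cast_one]
  have hBB : (Nat.card (BB F) : ℝ) = (q : ℝ) ^ 6 * ((q : ℝ) - 1) ^ 2 := by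
    have h1 : Nat.card (BB F) = Nat.card (chevG2.borelSubgroup F) :=
      Nat.card_congr (Subgroup.subgroupOfEquivOfLe (sysG2.borel_le_group F)).toEquiv
    have h2 := natCardDiagonalG2 F
    rw [one_mul] at h2
    rw [h1, sysG2.natCard_borel F, h2, show chevG2.nroots / 2 = 6 from rfl, ← hqdef, Nat.cast_mul,
      Nat.cast_pow, Nat.cast_pow, Nat.cast_sub (show 1 ≤ q by omega), Nat.cast_one]
  by_contra hcon
  push Not at hcon
  have hk3 : (k : ℝ) ≤ (q : ℝ) ^ 3 := by exact_mod_cast hcon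
  have hmain : (q : ℝ) ^ 6 * ((q : ℝ) ^ 2 - 1) * ((q : ℝ) ^ 6 - 1) ≤
      (q : ℝ) ^ 6 * ((q : ℝ) - 1) ^ 2 * (6 + 3 * q + 3 / q) * (q : ℝ) ^ 3 := by
    rw [← hG, ← hk, ← hBB]
    refine (mul_le_mul_of_nonneg_right hsum (Nat.cast_nonneg _)).trans
      (mul_le_mul_of_nonneg_left hk3 ?_)
    positivity
  have hq' : (2 : ℝ) ≤ q := by exact_mod_cast hq2
  have e1 : (q : ℝ) ^ 6 * ((q : ℝ) ^ 2 - 1) * ((q : ℝ) ^ 6 - 1) =
      (q : ℝ) ^ 6 * (((q : ℝ) ^ 2 - 1) ^ 2) * ((q : ℝ) ^ 4 + (q : ℝ) ^ 2 + 1) := by ring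
  have e2 : (q : ℝ) ^ 6 * ((q : ℝ) - 1) ^ 2 * (6 + 3 * q + 3 / q) * (q : ℝ) ^ 3 =
      (q : ℝ) ^ 6 * (((q : ℝ) ^ 2 - 1) ^ 2) * (3 * (q : ℝ) ^ 2) := by field_simp; ring
  rw [e1, e2] at hmain
  have h3 := le_of_mul_le_mul_left hmain (mul_pos (pow_pos hqpos 6) (pow_pos (by nlinarith) 2))
  nlinarith [mul_le_mul hq' hq' (by norm_num) hqpos.le]

/-- The main bound. -/
theorem unipotent_bound (hirr : ρ.IsIrreducible) (hk : 2 ≤ Module.finrank ℂ V)
    (hq : ∃ a : F, a ≠ 0 ∧ a + 1 ≠ 0)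
    (hdim : Module.finrank ℂ (fixSp ρ [6, 8, 9, 10, 11]) = 1) :
    Fintype.card F ^ 3 < Module.finrank ℂ V := by
  classical
  have : Nontrivial V := Module.nontrivial_of_finrank_pos (R := ℂ) (by omega)
  obtain ⟨v, hv5, hv0⟩ := Submodule.exists_mem_ne_zero_of_ne_bot (p := fixSp ρ [6, 8, 9, 10, 11])
    fun h => by rw [Submodule.finrank_eq_zero.2 h] at hdim; exact zero_ne_one hdim
  have hline : ∀ g, (∀ w ∈ fixSp ρ [6, 8, 9, 10, 11], ρ g w ∈ fixSp ρ [6, 8, 9, 10, 11]) →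
      ∃ a : ℂ, a • v = ρ g v := fun g hg => exists_smul_of_finrank_one hdim hv5 hv0 (hg v hv5)
  have hT : ∀ A B : Fˣ, ∃ a : ℂ, a • v = ρ (Tor A B) v := fun A B =>
    hline _ fun w hw => stab_Tor ρ A B hw
  have h7 : ∀ t : F, ρ (X 7 t) v = v := fix_of_line ρ hq hv0 hT 7
    (fun s => ⟨s, 1, by simp [ea, eb]⟩)
    fun t => hline _ fun w hw => stab_X ρ (by decide +kernel) t hw
  have h4 : ∀ t : F, ρ (X 4 t) v = v := fix_of_line ρ hq hv0 hT 4
    (fun s => ⟨s⁻¹, 1, by simp [ea, eb]⟩)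
    fun t => hline _ fun w hw => stab_X ρ (by decide +kernel) t hw
  have hn0 : ρ (nn 0) v = v := by
    rw [nn_eq_XW 0 7 4 (by decide +kernel), rho_mul_apply, rho_mul_apply, h7, h4, h7]
  have hn0' : ρ (nn 0)⁻¹ v = v := by
    conv_lhs => rw [← hn0, ← rho_mul_apply, inv_mul_cancel, map_one]
    rfl
  have hvU : v ∈ fixSp ρ [6, 7, 8, 9, 10, 11] := fun r hr t => by
    simp only [List.mem_cons, List.not_mem_nil, or_false] at hr
    rcases hr with rfl | rfl | rfl | rfl | rfl | rfl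
    all_goals first | exact h7 t | exact hv5 _ (by decide) t
  have hcU : chainOK [6, 7, 8, 9, 10, 11] = true := by decide +kernel
  have hEv : eF ρ [6, 7, 8, 9, 10, 11] v = v := eF_fix ρ hvU
  have hEline : ∀ w, ∃ a : ℂ, a • v = eF ρ [6, 7, 8, 9, 10, 11] w := fun w =>
    exists_smul_of_finrank_one hdim hv5 hv0 fun r hr t => eF_mem ρ hcU w r (by
      simp only [List.mem_cons, List.not_mem_nil, or_false] at hr ⊢; tauto) t
  obtain ⟨μ, hμ⟩ := Module.Projective.exists_dual_ne_zero ℂ hv0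
  let ℓ : V →ₗ[ℂ] ℂ := ((μ v)⁻¹ • μ).comp (eF ρ [6, 7, 8, 9, 10, 11])
  have hℓ : ∀ w, eF ρ [6, 7, 8, 9, 10, 11] w = ℓ w • v := fun w => by
    obtain ⟨a, ha⟩ := hEline w
    show _ = ((μ v)⁻¹ * μ (eF ρ [6, 7, 8, 9, 10, 11] w)) • v
    rw [← ha, map_smul, smul_eq_mul, mul_comm a, inv_mul_cancel_left₀ hμ]
  have hℓv : ℓ v = 1 := by
    show (μ v)⁻¹ * μ (eF ρ [6, 7, 8, 9, 10, 11] v) = 1
    rw [hEv, inv_mul_cancel₀ hμ]
  have hA : ∀ r : Fin 12, 6 ≤ (r : ℕ) → ∀ (t : F) (w : V), ℓ (ρ (X r t) w) = ℓ w := fun r hr t w => by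
    have habs : ∀ r : Fin 12, 6 ≤ (r : ℕ) → absOK [6, 7, 8, 9, 10, 11] r = true := by decide +kernel
    show ((μ v)⁻¹ • μ) _ = ((μ v)⁻¹ • μ) _
    rw [eF_abs ρ hcU (habs r hr)]
  have hfixv : ∀ r : Fin 12, 6 ≤ (r : ℕ) → ∀ t : F, ρ (X r t) v = v := fun r hr t => by
    have : ∀ r : Fin 12, 6 ≤ (r : ℕ) → r ∈ [6, 7, 8, 9, 10, (11 : Fin 12)] := by decide
    exact hvU r (this r hr) t
  have hB : BB F ≤ eigSub ρ v ℓ := BB_le
    (fun r hr t => ⟨1, one_ne_zero, by rw [hfixv r hr, one_smul], fun w => by rw [hA r hr, one_mul]⟩)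
    fun A B => by
      obtain ⟨a, ha⟩ := hT A B
      refine ⟨a, fun h => ?_, ha.symm, fun w => ?_⟩
      · rw [h, zero_smul] at ha
        have := congrArg (ρ (Tor A⁻¹ B⁻¹)) ha
        rw [map_zero, ← rho_mul_apply, Tor_cancel, map_one] at this
        exact hv0 this.symm
      · refine smul_left_injective ℂ hv0 (show ℓ (ρ (Tor A B) w) • v = (a * ℓ w) • v from ?_)
        rw [← hℓ, eF_Tor, hℓ, map_smul, ← ha, smul_smul, mul_comm]
  -- the value at `n_b`
  set c := ℓ (ρ (X 5 (-1)) v) with hc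
  have hF : ∀ t : F, t ≠ 0 → ℓ (ρ (X 5 t) v) = c := fun t ht => by
    obtain ⟨a, ha⟩ := hT 1 (Units.mk0 (-t⁻¹) (neg_ne_zero.2 (inv_ne_zero ht)))
    have hmem := hB (Tor_mem_BB 1 (Units.mk0 (-t⁻¹) (neg_ne_zero.2 (inv_ne_zero ht))))
    obtain ⟨a', ha', e1, e2⟩ := hmem
    have e := congrArg (fun g => ℓ (ρ g v))
      (Tor_conj 1 (Units.mk0 (-t⁻¹) (neg_ne_zero.2 (inv_ne_zero ht))) 5 (-1))
    simp only [rho_mul_apply, e2, e1, map_smul, smul_eq_mul] at e
    rw [show (((1 : Fˣ) ^ ea 5 * (Units.mk0 (-t⁻¹) (neg_ne_zero.2 (inv_ne_zero ht))) ^ eb 5 : Fˣ) : F) *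
      -1 = t from by simp [ea, eb, ht]] at e
    exact (mul_left_cancel₀ ha' e).symm
  have hval : ∀ e : F, (e = 1 ∨ e = -1) → ℓ (ρ (X 6 e * X 5 (-e) * X 6 e) v) = c := fun e he => by
    rw [rho_mul_apply, rho_mul_apply, hfixv 6 (by decide), hA 6 (by decide),
      hF _ (by rcases he with rfl | rfl <;> simp)]
  have hcn : ℓ (ρ (nn 1) v) = c := by
    rw [nn_eq_XW 1 6 5 (by decide +kernel)]
    exact hval 1 (Or.inl rfl)
  have hcn' : ℓ (ρ (nn 1)⁻¹ v) = c := by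
    rw [nn_eq_XW 1 6 5 (by decide +kernel), mul_inv_rev, mul_inv_rev, X_inv, X_inv, ← mul_assoc]
    exact hval (-1) (Or.inr rfl)
  have hq0 : (Fintype.card F : ℂ) ≠ 0 := Nat.cast_ne_zero.2 Fintype.card_ne_zero
  have hsum : ∀ m : ↥(GG F), ρ m v ∈ fixSp ρ [7, 8, 9, 10, 11] → ℓ (ρ m v) = c →
      ∑ t : F, ρ (X 6 t) (ρ m v) = ((Fintype.card F : ℂ) * c) • v := fun m hmem hm => by
    have e := hℓ (ρ m v)
    rw [eF, Module.End.mul_apply, eF_fix ρ hmem, proj_one_apply, hm] at e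
    rw [mul_smul, ← e, smul_inv_smul₀ hq0]
  have h78 : ∀ r ∈ [7, 8, 9, 10, (11 : Fin 12)], ∃ r' ∈ [7, 8, 9, 10, (11 : Fin 12)],
      chevG2.reflectRoot (1 : Fin 2) r = ((r' : Fin 12) : ℕ) := by decide +kernel
  have h78' : ∀ r' ∈ [7, 8, 9, 10, (11 : Fin 12)], ∃ r ∈ [7, 8, 9, 10, (11 : Fin 12)],
      chevG2.reflectRoot (1 : Fin 2) ((r : Fin 12) : ℕ) = (r' : ℕ) := by decide +kernel
  have hv7 : v ∈ fixSp ρ [7, 8, 9, 10, 11] := fun r hr t => hvU r (List.mem_cons_of_mem _ hr) t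
  have hS1 := hsum _ (stab_nn ρ 1 h78 h78' hv7) hcn
  have hS1' := hsum _ (stab_nn_inv ρ 1 h78 hv7) hcn'
  have hquad : (Fintype.card F : ℂ) * c * c = 1 + ((Fintype.card F : ℂ) - 1) * c := by
    have e := congrArg (fun u => ℓ (ρ (nn 1)⁻¹ u)) hS1
    simp only [map_sum, map_smul, smul_eq_mul, hcn', ← rho_mul_apply] at e
    rw [← e, ← Finset.add_sum_erase _ _ (Finset.mem_univ (0 : F))]
    obtain ⟨d, hd0, -, hd⟩ := nn_conj (F := F) 1 5 6 (by decide +kernel)
    have e0 : ∀ t ∈ Finset.univ.erase (0 : F), ℓ (ρ ((nn 1)⁻¹ * (X 6 t * nn 1)) v) = c := by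
      intro t ht
      have e' := hd (d⁻¹ * t)
      rw [mul_inv_cancel_left₀ hd0] at e'
      rw [← e', inv_mul_cancel_left]
      exact hF _ (mul_ne_zero (inv_ne_zero hd0) (Finset.ne_of_mem_erase ht))
    rw [Finset.sum_congr rfl e0, Finset.sum_const, Finset.card_erase_of_mem (Finset.mem_univ _),
      Finset.card_univ, nsmul_eq_mul, Nat.cast_sub Fintype.card_pos, X_zero, one_mul, inv_mul_cancel,
      map_one, Nat.cast_one, Module.End.one_apply, hℓv]
  have hc2 : c = 1 ∨ c = -(Fintype.card F : ℂ)⁻¹ := by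
    have : (c - 1) * ((Fintype.card F : ℂ) * c + 1) = 0 := by linear_combination hquad
    rcases mul_eq_zero.1 this with h | h
    · exact Or.inl (sub_eq_zero.1 h)
    · exact Or.inr (by field_simp; linear_combination h)
  -- Schur
  obtain ⟨s, hs, hsk⟩ := sum_conj_scalar ρ hirr (eF ρ [6, 7, 8, 9, 10, 11])
  have htr : LinearMap.trace ℂ V (eF ρ [6, 7, 8, 9, 10, 11]) = 1 := by
    rw [show eF ρ [6, 7, 8, 9, 10, 11] = ℓ.smulRight v from LinearMap.ext hℓ, LinearMap.trace_smulRight,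
      hℓv]
  have hsv : ∑ g : ↥(GG F), ℓ (ρ g⁻¹ v) * ℓ (ρ g v) = s := by
    have e := congrArg ℓ (LinearMap.congr_fun hs v)
    rw [LinearMap.sum_apply, map_sum, LinearMap.smul_apply, map_smul, Module.End.one_apply, hℓv,
      smul_eq_mul, mul_one] at e
    rw [← e]
    refine Finset.sum_congr rfl fun g _ => ?_
    rw [Module.End.mul_apply, Module.End.mul_apply, hℓ, map_smul, map_smul, smul_eq_mul]
  rw [htr, mul_one] at hsk
  have hinvar : ∀ a ∈ BB F, ∀ b ∈ BB F, ∀ g : ↥(GG F),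
      ℓ (ρ (a * g * b)⁻¹ v) * ℓ (ρ (a * g * b) v) = ℓ (ρ g⁻¹ v) * ℓ (ρ g v) := by
    intro a ha b hb g
    obtain ⟨x, hx, x1, x2⟩ := hB ha
    obtain ⟨y, hy, y1, y2⟩ := hB hb
    obtain ⟨x', -, x1', -⟩ := hB (inv_mem ha)
    obtain ⟨y', -, -, y2'⟩ := hB (inv_mem hb)
    have hxx : x' * x = 1 := by
      refine smul_left_injective ℂ hv0 (show (x' * x) • v = (1 : ℂ) • v from ?_)
      rw [mul_smul, ← x1, ← map_smul, ← x1', ← rho_mul_apply, mul_inv_cancel, map_one, one_smul]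
      rfl
    have hyy : y' * y = 1 := by
      have := y2' (ρ b v)
      rw [← rho_mul_apply, inv_mul_cancel, map_one, Module.End.one_apply, hℓv, y2, hℓv, mul_one] at this
      exact this.symm
    simp only [mul_inv_rev, rho_mul_apply, x2, y2', x1', y1, map_smul, smul_eq_mul]
    linear_combination (ℓ (ρ g⁻¹ v) * ℓ (ρ g v)) * (y' * y) * hxx + (ℓ (ρ g⁻¹ v) * ℓ (ρ g v)) * hyy
  have hword : ∀ L ∈ words, ℓ (ρ (nW L : ↥(GG F))⁻¹ v) * ℓ (ρ (nW L : ↥(GG F)) v) = c ^ (2 * L.count 1) := by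
    intro L hL
    obtain ⟨g1, g2⟩ := words_good L hL
    have e1 := word_value ρ v ℓ c hA hℓv nn
      (fun i r r' h => let ⟨d, _, _, hd⟩ := nn_conj (F := F) i r r' h; ⟨d, hd⟩) hn0 hS1 L.reverse g2
    have e2 := word_value ρ v ℓ c hA hℓv (fun i => (nn i)⁻¹) nn_inv_conj hn0' hS1' L g1
    rw [List.reverse_reverse, List.count_reverse] at e1
    rw [two_mul, pow_add, show nW L = (L.map (nn (F := F))).prod from rfl, e1,
      List.prod_inv_reverse, List.map_map, ← List.map_reverse]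
    exact congrArg (· * _) e2
  -- the case of a trivial value
  rcases hc2 with hc1 | hcq
  · exfalso
    have hs1 : s = (Fintype.card ↥(GG F) : ℂ) := by
      rw [← hsv, Finset.sum_congr rfl fun g _ => ?_, Finset.sum_const, Finset.card_univ, nsmul_eq_mul,
        mul_one]
      obtain ⟨L, hL, a, ha, b, hb, rfl⟩ := exists_decomp g
      rw [hinvar a ha b hb, hword L hL, hc1, one_pow]
    rw [hs1, mul_eq_left₀ (Nat.cast_ne_zero.2 Fintype.card_ne_zero), Nat.cast_eq_one] at hsk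
    omega
  -- the count
  refine card_lt_of_cover (F := F) (fun g => (ℓ (ρ g⁻¹ v) * ℓ (ρ g v)).re) (Module.finrank ℂ V)
    ?_ ?_
  · intro g
    obtain ⟨L, hL, a, ha, b, hb, rfl⟩ := exists_decomp g
    refine ⟨L, hL, ?_, ?_⟩
    · rw [mul_assoc]
      exact BB_mul_cellF L ha (nW_mul_mem_cellF L hb)
    · rw [hinvar a ha b hb, hword L hL, hcq, pow_mul, neg_sq, ← pow_mul,
        show ((Fintype.card F : ℂ)⁻¹) ^ (2 * L.count 1) =
          ((((Fintype.card F : ℝ)⁻¹) ^ (2 * L.count 1) : ℝ) : ℂ) by push_cast; rfl, Complex.ofReal_re]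
  · rw [← Complex.re_sum, hsv]
    simpa using congrArg Complex.re hsk

end CfsgLib.G2Deg97
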