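import Cfsg.Agent.G2Deg97.Three
import Cfsg.Agent.G2Deg97.Cuspidal
import Cfsg.Agent.G2Deg97.Unipotent
import Cfsg.Agent.G2Deg97.OrbitBound
import Cfsg.Agent.S1055
import Cfsg.Agent.S0135

/-!
The minimal degrees of the non-linear irreducible representations of `G₂(q)`.
-/

set_option autoImplicit false

namespace CfsgLib.G2Deg97

open Cfsg.Lie CfsgLib.Chevalley CfsgLib.WeightProj65

theorem eq_one_of_rho {G V : Type*} [Group G] [IsSimpleGroup G] [AddCommGroup V] [Module ℂ V]
    [FiniteDimensional ℂ V] (ρ : Representation ℂ G V) (hρ : ρ.IsIrreducible)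
    (hk : 2 ≤ Module.finrank ℂ V) {g : G} (hg : ρ g = 1) : g = 1 := by
  have : ρ.IsIrreducible := hρ
  let f : G →* Module.End ℂ V := ρ
  rcases f.normal_ker.eq_bot_or_eq_top with h | h
  · exact (Subgroup.eq_bot_iff_forall _).1 h g hg
  · exfalso
    obtain ⟨v, hv⟩ := Module.finrank_pos_iff_exists_ne_zero.1 (show 0 < Module.finrank ℂ V by omega)
    let U : Subrepresentation ρ := ⟨Submodule.span ℂ {v}, fun x w hw => by
      rw [show ρ x = 1 from (h ▸ Subgroup.mem_top x : x ∈ f.ker)]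
      exact hw⟩
    rcases eq_bot_or_eq_top U with e | e
    · exact hv (Submodule.span_singleton_eq_bot.1 (congrArg Subrepresentation.toSubmodule e))
    · have := finrank_span_singleton (K := ℂ) hv
      rw [show Submodule.span ℂ {v} = ⊤ from congrArg Subrepresentation.toSubmodule e, finrank_top] at this
      omega

variable {F : Type*} [Field F] [Fintype F]

theorem three_eq_zero_iff : (3 : F) = 0 ↔ Fintype.card F % 3 = 0 := by
  obtain ⟨p, hp⟩ := CharP.exists F
  obtain ⟨n, hprime, hn⟩ := FiniteField.card F p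
  constructor
  · intro h
    have h3 : p ∣ 3 := (CharP.cast_eq_zero_iff F p 3).1 (by exact_mod_cast h)
    rw [hn, (Nat.prime_dvd_prime_iff_eq hprime Nat.prime_three).1 h3]
    exact Nat.mod_eq_zero_of_dvd (dvd_pow_self 3 n.ne_zero)
  · intro h
    have h3 : 3 ∣ p := Nat.prime_three.dvd_of_dvd_pow (hn ▸ Nat.dvd_of_mod_eq_zero h)
    have := (Nat.prime_dvd_prime_iff_eq Nat.prime_three hprime).1 h3
    subst this
    exact_mod_cast (CharP.cast_eq_zero_iff F 3 3).2 (dvd_refl 3)

theorem nine_le (h : Fintype.card F % 3 = 0) (h' : 3 < Fintype.card F) : 9 ≤ Fintype.card F := by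
  obtain ⟨p, hp⟩ := CharP.exists F
  obtain ⟨n, hprime, hn⟩ := FiniteField.card F p
  have h3 : 3 ∣ p := Nat.prime_three.dvd_of_dvd_pow (hn ▸ Nat.dvd_of_mod_eq_zero h)
  have := (Nat.prime_dvd_prime_iff_eq Nat.prime_three hprime).1 h3
  subst this
  have hn2 : 2 ≤ (n : ℕ) := by
    by_contra hc
    have : (n : ℕ) = 1 := by have := n.pos; omega
    rw [hn, this] at h'
    omega
  rw [hn]
  exact le_trans (by norm_num) (Nat.pow_le_pow_right (by norm_num) hn2)

theorem min_degree {V : Type*} [AddCommGroup V] [Module ℂ V] [FiniteDimensional ℂ V]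
    (ρ : Representation ℂ ↥(GG F) V) (hρ : ρ.IsIrreducible) (hk : 2 ≤ Module.finrank ℂ V) :
    (Fintype.card F % 3 = 1 → 4 < Fintype.card F → Fintype.card F ^ 3 + 1 ≤ Module.finrank ℂ V) ∧
    (Fintype.card F % 3 = 2 → 2 < Fintype.card F → Fintype.card F ^ 3 - 1 ≤ Module.finrank ℂ V) ∧
    (Fintype.card F % 3 = 0 → 3 < Fintype.card F →
      Fintype.card F ^ 4 + Fintype.card F ^ 2 + 1 ≤ Module.finrank ℂ V) := by
  classical
  obtain ⟨ψ, hψ⟩ : ∃ ψ : AddChar F ℂ, ψ ≠ 1 := by
    obtain ⟨ψ, hψ⟩ := (AddChar.exists_apply_ne_zero (α := F)).2 one_ne_zero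
    exact ⟨ψ, fun h => hψ (by rw [h, AddChar.one_apply])⟩
  have setup : 3 ≤ Fintype.card F →
      (∃ a : F, a ≠ 0 ∧ a + 1 ≠ 0) ∧ (∀ g, ρ g = 1 → g = 1) ∧ ρ (X 11 1) ≠ 1 := by
    intro hq
    have hex : ∀ b : F, ∃ a : F, a ≠ 0 ∧ a ≠ b := fun b => by
      by_contra hc
      push Not at hc
      have := Finset.card_le_card (s := (Finset.univ : Finset F)) (t := {0, b}) fun a _ => by
        rcases eq_or_ne a 0 with rfl | ha
        · exact Finset.mem_insert_self _ _
        · exact Finset.mem_insert_of_mem (Finset.mem_singleton.2 (hc a ha))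
      rw [Finset.card_univ] at this
      have := this.trans Finset.card_le_two
      omega
    have : IsSimpleGroup ↥(GG F) := (Cfsg.Agent.S1055.result (hex 1)).1
    obtain ⟨a, ha, ha'⟩ := hex (-1)
    exact ⟨⟨a, ha, fun h => ha' (eq_neg_of_add_eq_zero_left h)⟩, fun g hg => eq_one_of_rho ρ hρ hk hg,
      fun h => one_ne_zero ((X_eq_one_iff 11 (1 : F)).1 (eq_one_of_rho ρ hρ hk h))⟩
  refine ⟨fun hm hq => ?_, fun hm hq => ?_, fun hm hq => ?_⟩
  · obtain ⟨hex, hinj, hf⟩ := setup (by omega)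
    have h3 : (3 : F) ≠ 0 := fun h => by have := three_eq_zero_iff.1 h; omega
    obtain ⟨-, hbig | ⟨hlow, hu, hm0, hkeq⟩⟩ := cases_ne_three ρ ψ h3 hψ hf (by omega)
    · exact hbig
    rcases Nat.le_one_iff_eq_zero_or_eq_one.1 hm0 with h0 | h1
    · exfalso
      have hdvd : 3 ∣ Fintype.card Fˣ := by rw [Fintype.card_units]; omega
      have := Fact.mk Nat.prime_three
      obtain ⟨ω, hω⟩ := exists_prime_orderOf_dvd_card 3 hdvd
      have := cuspidal_bound ρ ψ hψ hinj (ω := ω) (fun h => by rw [h, orderOf_one] at hω; omega)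
        (by rw [← hω, pow_orderOf_eq_one]) hlow hu h0
      omega
    · have := unipotent_bound ρ hρ hk hex ((mc_zero ρ ψ).symm.trans h1)
      omega
  · obtain ⟨-, -, hf⟩ := setup (by omega)
    have h3 : (3 : F) ≠ 0 := fun h => by have := three_eq_zero_iff.1 h; omega
    exact (cases_ne_three ρ ψ h3 hψ hf (by omega)).1
  · obtain ⟨-, -, hf⟩ := setup (by omega)
    have := hρ
    have hd : Module.finrank ℂ V ∣ Nat.card ↥(GG F) := Cfsg.Agent.S0135.result ρ
    rw [Cfsg.Agent.S1059.result (F := F) rfl] at hd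
    exact three_bound ρ ψ hψ hf (nine_le hm hq) hd (three_eq_zero_iff.2 hm)

end CfsgLib.G2Deg97
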