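import Cfsg.Agent.G2Deg97.Weights
import Cfsg.Agent.G2Deg97.Group

/-!
A representation of `G₂(q)`: fixed spaces of root subgroups, the weights on the highest root
subgroup and on the radical of its parabolic subgroup.
-/

set_option autoImplicit false

namespace CfsgLib.G2Deg97

open Cfsg.Lie CfsgLib.Chevalley CfsgLib.WeightProj65
open SelfDual (pair)

variable {F : Type*} [Field F] {V : Type*} [AddCommGroup V] [Module ℂ V]
  (ρ : Representation ℂ ↥(GG F) V)

/-- The operators of a root subgroup. -/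
noncomputable def op (r : Fin 12) : AddChar F (Module.End ℂ V) where
  toFun t := ρ (X r t)
  map_zero_eq_one' := by rw [X_zero, map_one]
  map_add_eq_mul' t u := by rw [← X_add, map_mul]

theorem op_apply (r : Fin 12) (t : F) : op ρ r t = ρ (X r t) := rfl

/-- The vectors fixed by some root subgroups. -/
def fixSp (R : List (Fin 12)) : Submodule ℂ V where
  carrier := {v | ∀ r ∈ R, ∀ t : F, ρ (X r t) v = v}
  zero_mem' _ _ _ := map_zero _
  add_mem' hv hw r hr t := by rw [map_add, hv r hr t, hw r hr t]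
  smul_mem' c v hv r hr t := by rw [map_smul, hv r hr t]

theorem mem_fixSp {R : List (Fin 12)} {v : V} :
    v ∈ fixSp ρ R ↔ ∀ r ∈ R, ∀ t : F, ρ (X r t) v = v := Iff.rfl

/-- The subgroup generated by some root subgroups. -/
noncomputable def rootsSub (F : Type*) [Field F] (R : List (Fin 12)) : Subgroup ↥(GG F) :=
  Subgroup.closure {g | ∃ r ∈ R, ∃ t : F, g = X r t}

theorem fix_of_mem {R : List (Fin 12)} {g : ↥(GG F)} (hg : g ∈ rootsSub F R) {v : V}
    (hv : v ∈ fixSp ρ R) : ρ g v = v := by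
  induction hg using Subgroup.closure_induction with
  | mem x hx => obtain ⟨r, hr, t, rfl⟩ := hx; exact hv r hr t
  | one => rw [map_one]; rfl
  | mul x y _ _ hx hy => rw [map_mul, Module.End.mul_apply, hy, hx]
  | inv x _ hx =>
    have h : ρ x⁻¹ (ρ x v) = v := by rw [← Module.End.mul_apply, ← map_mul, inv_mul_cancel, map_one]; rfl
    rwa [hx] at h

/-- The check that `X_r X_s = X_s X_r` modulo the roots of `R`. -/
def chkStab (R : List (Fin 12)) (s r : Fin 12) : Bool :=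
  decide (s = r) || (decide ((r : ℕ) ≠ s ∧ (r : ℕ) ≠ chevG2.neg s) &&
    (chevG2.commTerms s r).all fun c => R.any fun r' => decide ((r' : ℕ) = c.1))

theorem swap_mem {R : List (Fin 12)} {s r : Fin 12} (h : chkStab R s r = true) (t u : F) :
    ∃ k ∈ rootsSub F R, X r t * X s u = X s u * X r t * k := by
  simp only [chkStab, Bool.or_eq_true, decide_eq_true_eq, Bool.and_eq_true, List.all_eq_true,
    List.any_eq_true] at h
  rcases h with rfl | ⟨⟨h1, h2⟩, h3⟩
  · exact ⟨1, one_mem _, by rw [mul_one, X_add, X_add, add_comm]⟩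
  have hw : ∀ L : List (ℕ × F), (∀ e ∈ L, ∃ r' ∈ R, (r' : ℕ) = e.1) →
      ∃ k ∈ rootsSub F R, ((k : ↥(GG F)) : GL chevG2.Idx F) = sysG2.wG F L := by
    intro L hL
    induction L with
    | nil => exact ⟨1, one_mem _, rfl⟩
    | cons e L ih =>
      obtain ⟨k, hk, hkv⟩ := ih fun e' he' => hL e' (List.mem_cons_of_mem _ he')
      obtain ⟨r', hr', hre⟩ := hL e List.mem_cons_self
      refine ⟨X r' e.2 * k, mul_mem (Subgroup.subset_closure ⟨r', hr', e.2, rfl⟩) hk, ?_⟩
      simp only [Subgroup.coe_mul, X_val, hre, hkv, Sys.wG, List.map_cons, List.prod_cons]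
  obtain ⟨k, hk, hkv⟩ := hw (chevG2.commWord F s r u t) fun e he => by
    obtain ⟨c, hc, rfl⟩ := List.mem_map.mp he
    exact h3 c hc
  refine ⟨k, hk, Subtype.ext ?_⟩
  have e := sysG2.xG_comm F s.isLt r.isLt h1 h2 u t
  rw [mul_assoc, inv_mul_eq_iff_eq_mul] at e
  simp only [Subgroup.coe_mul, X_val, hkv]
  rw [e, mul_assoc]

theorem swap_fix {R : List (Fin 12)} {s r : Fin 12} (h : chkStab R s r = true) (t u : F) {v : V}
    (hv : v ∈ fixSp ρ R) : ρ (X r t) (ρ (X s u) v) = ρ (X s u) (ρ (X r t) v) := by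
  obtain ⟨k, hk, e⟩ := swap_mem h t u
  rw [← Module.End.mul_apply, ← map_mul, e, map_mul, map_mul, Module.End.mul_apply,
    Module.End.mul_apply, fix_of_mem ρ hk hv]

theorem stab_X {R : List (Fin 12)} {s : Fin 12} (h : (R.all fun r => chkStab R s r) = true) (u : F)
    {v : V} (hv : v ∈ fixSp ρ R) : ρ (X s u) v ∈ fixSp ρ R := fun r hr t => by
  rw [swap_fix ρ (List.all_eq_true.1 h r hr) t u hv, hv r hr t]

theorem stab_nn {R : List (Fin 12)} (i : Fin 2)
    (h : ∀ r ∈ R, ∃ r' ∈ R, chevG2.reflectRoot i r = ((r' : Fin 12) : ℕ))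
    (h' : ∀ r' ∈ R, ∃ r ∈ R, chevG2.reflectRoot i ((r : Fin 12) : ℕ) = (r' : ℕ))
    {v : V} (hv : v ∈ fixSp ρ R) : ρ (nn i) v ∈ fixSp ρ R := fun r' hr' t => by
  obtain ⟨r, hr, e⟩ := h' r' hr'
  obtain ⟨c, hc, -, hct⟩ := nn_conj (F := F) i r r' e
  have := hct (c⁻¹ * t)
  rw [mul_inv_cancel_left₀ hc] at this
  rw [← Module.End.mul_apply, ← map_mul, ← this, map_mul, Module.End.mul_apply, hv r hr]

theorem stab_Tor {R : List (Fin 12)} (A B : Fˣ) {v : V} (hv : v ∈ fixSp ρ R) :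
    ρ (Tor A B) v ∈ fixSp ρ R := fun r hr t => by
  set c : Fˣ := A ^ ea r * B ^ eb r
  have e : X r t * Tor A B = Tor A B * X r (((c⁻¹ : Fˣ) : F) * t) := by
    rw [Tor_conj, Units.mul_inv_cancel_left]
  rw [← Module.End.mul_apply, ← map_mul, e, map_mul, Module.End.mul_apply, hv r hr]

/-- An element restricted to a fixed space. -/
noncomputable def resW (R : List (Fin 12)) (g : ↥(GG F)) (h : ∀ v ∈ fixSp ρ R, ρ g v ∈ fixSp ρ R) :
    Module.End ℂ (fixSp ρ R) := (ρ g).restrict h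

theorem resW_apply {R : List (Fin 12)} {g : ↥(GG F)} {h : ∀ v ∈ fixSp ρ R, ρ g v ∈ fixSp ρ R}
    (v : fixSp ρ R) : ((resW ρ R g h v : fixSp ρ R) : V) = ρ g v := rfl

/-- A root subgroup on a fixed space. -/
noncomputable def opW (R : List (Fin 12)) (s : Fin 12) (h : (R.all fun r => chkStab R s r) = true) :
    AddChar F (Module.End ℂ (fixSp ρ R)) where
  toFun t := resW ρ R (X s t) fun _ hv => stab_X ρ h t hv
  map_zero_eq_one' := LinearMap.ext fun v => Subtype.ext (by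
    rw [resW_apply, X_zero, map_one]; rfl)
  map_add_eq_mul' t u := LinearMap.ext fun v => Subtype.ext (by
    rw [resW_apply, ← X_add, map_mul]; rfl)

theorem opW_apply {R : List (Fin 12)} {s : Fin 12} {h : (R.all fun r => chkStab R s r) = true} (t : F)
    (v : fixSp ρ R) : ((opW ρ R s h t v : fixSp ρ R) : V) = ρ (X s t) v := rfl

theorem opW_comm {R : List (Fin 12)} {s r : Fin 12} {hs : (R.all fun x => chkStab R s x) = true}
    {hr : (R.all fun x => chkStab R r x) = true} (h : chkStab R s r = true) (t u : F) :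
    opW ρ R r hr u * opW ρ R s hs t = opW ρ R s hs t * opW ρ R r hr u :=
  LinearMap.ext fun v => Subtype.ext (swap_fix ρ h u t v.2)

theorem op_comm (r s : Fin 12) (h : chkStab [] s r = true) (t u : F) :
    op ρ r u * op ρ s t = op ρ s t * op ρ r u :=
  LinearMap.ext fun v => swap_fix ρ h u t (fun _ hr => absurd hr List.not_mem_nil)

/-- The action of `(x₁₀, x₁₁)`. -/
noncomputable def actB : AddChar (F × F) (Module.End ℂ V) :=
  prodAct (op ρ 10) (op ρ 11) fun a b => op_comm ρ 11 10 (by decide +kernel) a b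

/-- The action of `(x₉, x₁₀, x₁₁)`. -/
noncomputable def actP : AddChar (F × F × F) (Module.End ℂ V) :=
  prodAct (op ρ 9) (actB ρ) fun a b => by
    show op ρ 10 b.1 * op ρ 11 b.2 * op ρ 9 a = op ρ 9 a * (op ρ 10 b.1 * op ρ 11 b.2)
    rw [mul_assoc, op_comm ρ 11 9 (by decide +kernel) a b.2, ← mul_assoc,
      op_comm ρ 10 9 (by decide +kernel) a b.1, mul_assoc]

/-- The action of the radical modulo the centre. -/
noncomputable def act0 : AddChar (F × F × F × F) (Module.End ℂ (fixSp ρ [11])) :=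
  prodAct (opW ρ [11] 6 (by decide +kernel))
    (prodAct (opW ρ [11] 10 (by decide +kernel))
      (prodAct (opW ρ [11] 8 (by decide +kernel)) (opW ρ [11] 9 (by decide +kernel))
        fun a b => opW_comm ρ (by decide +kernel) a b)
      fun a b => by
        refine (prodAct_comm _ _ _ _ ?_ ?_ b) <;> intro c <;>
          exact opW_comm ρ (by decide +kernel) a c)
    fun a b => by
      refine (prodAct_comm _ _ _ _ ?_ ?_ b)
      · intro c; exact opW_comm ρ (by decide +kernel) a c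
      · intro c
        refine (prodAct_comm _ _ _ _ ?_ ?_ c) <;> intro d <;>
          exact opW_comm ρ (by decide +kernel) a d

theorem act0_apply (u b v w : F) (x : fixSp ρ [11]) :
    ((act0 ρ (u, b, v, w) x : fixSp ρ [11]) : V) =
      ρ (X 6 u * (X 10 b * (X 8 v * X 9 w))) x := by
  simp only [map_mul, Module.End.mul_apply]
  rfl

variable [Fintype F] [FiniteDimensional ℂ V] (ψ : AddChar F ℂ)

/-- The multiplicity of the weight given by the cubic `f₀ + f₁ s + f₂ s² + f₃ s³`. -/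
noncomputable def mc (f : F × F × F × F) : ℕ :=
  mu ψ (act0 ρ) (f.1, -f.2.2.2, f.2.1, f.2.2.1)

/-- The change of variable `s ↦ s + t`. -/
def shiftCub (t : F) (f : F × F × F × F) : F × F × F × F :=
  (f.1 + f.2.1 * t + f.2.2.1 * t ^ 2 + f.2.2.2 * t ^ 3,
    f.2.1 + 2 * f.2.2.1 * t + 3 * f.2.2.2 * t ^ 2, f.2.2.1 + 3 * f.2.2.2 * t, f.2.2.2)

/-- The torus action on cubics. -/
def scaleCub (A B : F) (f : F × F × F × F) : F × F × F × F :=
  (B * f.1, A * B * f.2.1, A ^ 2 * B * f.2.2.1, A ^ 3 * B * f.2.2.2)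

theorem resW_inv_mul (R : List (Fin 12)) (g g' : ↥(GG F)) (h : g * g' = 1)
    (hg : ∀ v ∈ fixSp ρ R, ρ g v ∈ fixSp ρ R) (hg' : ∀ v ∈ fixSp ρ R, ρ g' v ∈ fixSp ρ R) :
    resW ρ R g hg * resW ρ R g' hg' = 1 :=
  LinearMap.ext fun v => Subtype.ext (by
    rw [Module.End.mul_apply, resW_apply, resW_apply, ← Module.End.mul_apply, ← map_mul, h, map_one]
    rfl)

theorem mc_shift (t : F) (f : F × F × F × F) : mc ρ ψ (shiftCub t f) = mc ρ ψ f := by
  obtain ⟨f0, f1, f2, f3⟩ := f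
  have hs : ([11].all fun r => chkStab [11] (7 : Fin 12) r) = true := by decide +kernel
  let L : F × F × F × F → F × F × F × F := fun x =>
    (x.1, x.2.1 - 3 * t * x.2.2.2 - 3 * t ^ 2 * x.2.2.1 - t ^ 3 * x.1, x.2.2.1 + t * x.1,
      x.2.2.2 + 2 * t * x.2.2.1 + t ^ 2 * x.1)
  refine (mu_move (act0 ρ) (act0 ρ) (resW_inv_mul ρ [11] (X 7 t) (X 7 (-t))
    (by rw [X_add, add_neg_cancel, X_zero]) (fun v hv => stab_X ρ hs t hv)
    (fun v hv => stab_X ρ hs (-t) hv)) L ?_ ?_ ?_).symm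
  · intro y
    refine ⟨(y.1, y.2.1 + 3 * t * (y.2.2.2 - 2 * t * (y.2.2.1 - t * y.1) - t ^ 2 * y.1) +
      3 * t ^ 2 * (y.2.2.1 - t * y.1) + t ^ 3 * y.1, y.2.2.1 - t * y.1,
      y.2.2.2 - 2 * t * (y.2.2.1 - t * y.1) - t ^ 2 * y.1), ?_⟩
    refine Prod.ext rfl (Prod.ext ?_ (Prod.ext ?_ ?_)) <;> simp only [L] <;> ring
  · rintro ⟨u, b, v, w⟩
    refine LinearMap.ext fun x => Subtype.ext ?_
    simp only [Module.End.mul_apply, L]
    have e6 : X 6 u * X 7 t = X 7 t * X 6 u * (X 8 (t * u) * X 9 (t ^ 2 * u) *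
        X 10 (-(t ^ 3 * u)) * X 11 (-(t ^ 3 * u ^ 2))) := by
      rw [X_swap 7 6 (T := [(8, -1, 1, 1), (9, 1, 2, 1), (10, 1, 3, 1), (11, 1, 3, 2)])
        (by decide +kernel) t u]
      congr 1
      simp only [XW, List.map_cons, List.map_nil, List.prod_cons, List.prod_nil, mul_one, mul_assoc]
      refine congrArg₂ _ (congrArg _ ?_) (congrArg₂ _ (congrArg _ ?_) (congrArg₂ _ (congrArg _ ?_)
        (congrArg _ ?_))) <;> push_cast <;> ring
    have e8 : X 8 v * X 7 t = X 7 t * X 8 v * (X 9 (2 * t * v) * X 10 (-(3 * t ^ 2 * v)) *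
        X 11 (-(3 * t * v ^ 2))) := by
      rw [X_swap 7 8 (T := [(9, -2, 1, 1), (10, -3, 2, 1), (11, 3, 1, 2)]) (by decide +kernel) t v]
      congr 1
      simp only [XW, List.map_cons, List.map_nil, List.prod_cons, List.prod_nil, mul_one, mul_assoc]
      refine congrArg₂ _ (congrArg _ ?_) (congrArg₂ _ (congrArg _ ?_) (congrArg _ ?_)) <;>
        push_cast <;> ring
    have e9 : X 9 w * X 7 t = X 7 t * X 9 w * X 10 (-(3 * t * w)) := by
      rw [X_swap_one 7 9 10 (C := 3) (i := 1) (j := 1) (by decide +kernel)]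
      congr 2
      push_cast
      ring
    have e10 : X 10 b * X 7 t = X 7 t * X 10 b := X_comm 7 10 (by decide +kernel) t b
    have e : X 6 u * (X 10 b * (X 8 v * X 9 w)) * X 7 t = X 7 t * (X 6 u *
        (X 8 (t * u) * X 9 (t ^ 2 * u) * X 10 (-(t ^ 3 * u)) * X 11 (-(t ^ 3 * u ^ 2))) * (X 10 b *
        (X 8 v * (X 9 (2 * t * v) * X 10 (-(3 * t ^ 2 * v)) * X 11 (-(3 * t * v ^ 2))) *
        (X 9 w * X 10 (-(3 * t * w)))))) := by
      calc X 6 u * (X 10 b * (X 8 v * X 9 w)) * X 7 t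
          = X 6 u * (X 10 b * (X 8 v * (X 9 w * X 7 t))) := by simp only [mul_assoc]
        _ = X 6 u * (X 10 b * ((X 8 v * X 7 t) * (X 9 w * X 10 (-(3 * t * w))))) := by
            rw [e9]; simp only [mul_assoc]
        _ = X 6 u * ((X 10 b * X 7 t) * (X 8 v * (X 9 (2 * t * v) * X 10 (-(3 * t ^ 2 * v)) *
              X 11 (-(3 * t * v ^ 2))) * (X 9 w * X 10 (-(3 * t * w))))) := by
            rw [e8]; simp only [mul_assoc]
        _ = (X 6 u * X 7 t) * (X 10 b * (X 8 v * (X 9 (2 * t * v) * X 10 (-(3 * t ^ 2 * v)) *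
              X 11 (-(3 * t * v ^ 2))) * (X 9 w * X 10 (-(3 * t * w))))) := by
            rw [e10]; simp only [mul_assoc]
        _ = _ := by rw [e6]; simp only [mul_assoc]
    -- modulo `x₁₁`
    have hA : act0 ρ (u, b - 3 * t * w - 3 * t ^ 2 * v - t ^ 3 * u, v + t * u,
        w + 2 * t * v + t ^ 2 * u) =
      opW ρ [11] 6 (by decide +kernel) u * (opW ρ [11] 8 (by decide +kernel) (t * u) *
        opW ρ [11] 9 (by decide +kernel) (t ^ 2 * u) *
        opW ρ [11] 10 (by decide +kernel) (-(t ^ 3 * u))) * (opW ρ [11] 10 (by decide +kernel) b *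
        (opW ρ [11] 8 (by decide +kernel) v * (opW ρ [11] 9 (by decide +kernel) (2 * t * v) *
        opW ρ [11] 10 (by decide +kernel) (-(3 * t ^ 2 * v))) *
        (opW ρ [11] 9 (by decide +kernel) w * opW ρ [11] 10 (by decide +kernel) (-(3 * t * w))))) := by
      have a6 : ∀ a, opW ρ [11] 6 (by decide +kernel) a = act0 ρ (a, 0, 0, 0) := fun a => by
        simp [act0, prodAct_apply]
      have a10 : ∀ a, opW ρ [11] 10 (by decide +kernel) a = act0 ρ (0, a, 0, 0) := fun a => by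
        simp [act0, prodAct_apply]
      have a8 : ∀ a, opW ρ [11] 8 (by decide +kernel) a = act0 ρ (0, 0, a, 0) := fun a => by
        simp [act0, prodAct_apply]
      have a9 : ∀ a, opW ρ [11] 9 (by decide +kernel) a = act0 ρ (0, 0, 0, a) := fun a => by
        simp [act0, prodAct_apply]
      rw [a6, a8, a9, a10, a10, a8, a9, a10, a9, a10]
      simp only [← AddChar.map_add_eq_mul]
      congr 1
      refine Prod.ext ?_ (Prod.ext ?_ (Prod.ext ?_ ?_)) <;> simp <;> ring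
    have hfix : ∀ (a : F) (y : fixSp ρ [11]), ρ (X 11 a) (y : V) = y :=
      fun a y => y.2 11 List.mem_cons_self a
    set y : V := ρ (X 7 (-t)) (x : V) with hy
    have hyW : y ∈ fixSp ρ [11] := stab_X ρ hs (-t) x.2
    have hT : ρ (X 7 t) y = (x : V) := by
      rw [hy, ← Module.End.mul_apply, ← map_mul, X_add, add_neg_cancel, X_zero, map_one]
      rfl
    have mv : ∀ r : Fin 12, chkStab [] r (11 : Fin 12) = true → ∀ (a c : F) (z : V),
        ρ (X 11 a) (ρ (X r c) z) = ρ (X r c) (ρ (X 11 a) z) := fun r hr a c z =>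
      swap_fix ρ hr a c (fun _ hr => absurd hr List.not_mem_nil)
    have h7 := congrArg (fun g => ρ g y) e
    simp only [map_mul, Module.End.mul_apply, hT] at h7
    simp only [mv 6 (by decide +kernel), mv 8 (by decide +kernel), mv 9 (by decide +kernel),
      mv 10 (by decide +kernel), hfix _ ⟨y, hyW⟩] at h7
    rw [hA, resW_apply, act0_apply]
    simp only [map_mul, Module.End.mul_apply, opW_apply, resW_apply, ← hy]
    rw [h7, ← Module.End.mul_apply (ρ (X 7 (-t))), ← map_mul, X_add, neg_add_cancel, X_zero, map_one]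
    rfl
  · rintro ⟨u, b, v, w⟩
    simp only [shiftCub, L, pair_prod, pair_field]
    ring

theorem mc_scale (A B : Fˣ) (f : F × F × F × F) :
    mc ρ ψ (scaleCub (A : F) (B : F) f) = mc ρ ψ f := by
  obtain ⟨f0, f1, f2, f3⟩ := f
  let L : F × F × F × F → F × F × F × F := fun x =>
    ((B : F) * x.1, (A : F) ^ 3 * B * x.2.1, (A : F) * B * x.2.2.1, (A : F) ^ 2 * B * x.2.2.2)
  refine (mu_move (act0 ρ) (act0 ρ) (resW_inv_mul ρ [11] (Tor A⁻¹ B⁻¹) (Tor A B) ?_
    (fun v hv => stab_Tor ρ _ _ hv) (fun v hv => stab_Tor ρ A B hv)) L ?_ ?_ ?_).symm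
  · rw [Tor_mul, inv_mul_cancel, inv_mul_cancel]
    exact Subtype.ext ((congrArg _ (funext fun j => by split_ifs <;> simp)).trans (map_one _))
  · intro y
    refine ⟨((B : F)⁻¹ * y.1, ((A : F) ^ 3 * B)⁻¹ * y.2.1, ((A : F) * B)⁻¹ * y.2.2.1,
      ((A : F) ^ 2 * B)⁻¹ * y.2.2.2), ?_⟩
    have hA := A.ne_zero
    have hB := B.ne_zero
    refine Prod.ext ?_ (Prod.ext ?_ (Prod.ext ?_ ?_)) <;> simp only [L] <;> field_simp
  · rintro ⟨u, b, v, w⟩
    refine LinearMap.ext fun x => Subtype.ext ?_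
    simp only [Module.End.mul_apply, resW_apply, act0_apply, L]
    rw [← Module.End.mul_apply, ← map_mul, ← Module.End.mul_apply (ρ (Tor A B)), ← map_mul]
    refine congrArg (fun g => ρ g (x : V)) ?_
    have e : ∀ (r : Fin 12) (t c : F), ((A ^ ea r * B ^ eb r : Fˣ) : F) = c →
        X r (c * t) * Tor A B = Tor A B * X r t := fun r t c h => by rw [Tor_conj, h]
    have h6 := e 6 u (B : F) (by simp [ea, eb])
    have h10 := e 10 b ((A : F) ^ 3 * B) (by simp [ea, eb, zpow_ofNat])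
    have h8 := e 8 v ((A : F) * B) (by simp [ea, eb])
    have h9 := e 9 w ((A : F) ^ 2 * B) (by simp [ea, eb, zpow_ofNat])
    simp only [mul_assoc] at h6 h10 h8 h9 ⊢
    rw [h9, ← mul_assoc (X 8 _) (Tor A B), h8, mul_assoc, ← mul_assoc (X 10 _) (Tor A B), h10,
      mul_assoc, ← mul_assoc (X 6 _) (Tor A B), h6, mul_assoc]
  · rintro ⟨u, b, v, w⟩
    simp only [scaleCub, L, pair_prod, pair_field]
    ring

theorem mc_rev : ∃ c₀ c₁ c₂ c₃ : F, c₀ ≠ 0 ∧ c₁ ≠ 0 ∧ c₂ ≠ 0 ∧ c₃ ≠ 0 ∧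
    ∀ f : F × F × F × F, mc ρ ψ (c₀ * f.2.2.2, c₁ * f.2.2.1, c₂ * f.2.1, c₃ * f.1) = mc ρ ψ f := by
  obtain ⟨c6, h6, -, e6⟩ := nn_conj (F := F) 0 6 10 (by decide +kernel)
  obtain ⟨c10, h10, -, e10⟩ := nn_conj (F := F) 0 10 6 (by decide +kernel)
  obtain ⟨c8, h8, -, e8⟩ := nn_conj (F := F) 0 8 9 (by decide +kernel)
  obtain ⟨c9, h9, -, e9⟩ := nn_conj (F := F) 0 9 8 (by decide +kernel)
  refine ⟨-c6, c8, c9, -c10, neg_ne_zero.2 h6, h8, h9, neg_ne_zero.2 h10, ?_⟩
  rintro ⟨f0, f1, f2, f3⟩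
  have hst : ∀ v ∈ fixSp ρ [11], ρ (nn 0) v ∈ fixSp ρ [11] := fun v hv =>
    stab_nn ρ 0 (fun r hr => ⟨11, List.mem_cons_self, by
      rw [List.mem_singleton.1 hr]; decide +kernel⟩) (fun r hr => ⟨11, List.mem_cons_self, by
      rw [List.mem_singleton.1 hr]; decide +kernel⟩) hv
  have hst' : ∀ v ∈ fixSp ρ [11], ρ (nn 0)⁻¹ v ∈ fixSp ρ [11] := by
    intro v hv r hr t
    rw [List.mem_singleton.1 hr]
    obtain ⟨c, hc, -, e⟩ := nn_conj (F := F) 0 11 11 (by decide +kernel)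
    have e' : X 11 t * (nn 0)⁻¹ = (nn 0)⁻¹ * X 11 (c * t) := by
      rw [eq_inv_mul_iff_mul_eq, ← mul_assoc, e, mul_inv_cancel_right]
    rw [← Module.End.mul_apply, ← map_mul, e', map_mul, Module.End.mul_apply, hv 11 List.mem_cons_self]
  let L : F × F × F × F → F × F × F × F := fun x =>
    (c10 * x.2.1, c6 * x.1, c9 * x.2.2.2, c8 * x.2.2.1)
  refine (mu_move (act0 ρ) (act0 ρ) (resW_inv_mul ρ [11] (nn 0)⁻¹ (nn 0) (inv_mul_cancel _) hst' hst)
    L ?_ ?_ ?_).symm
  · intro y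
    refine ⟨(c6⁻¹ * y.2.1, c10⁻¹ * y.1, c8⁻¹ * y.2.2.2, c9⁻¹ * y.2.2.1), ?_⟩
    refine Prod.ext ?_ (Prod.ext ?_ (Prod.ext ?_ ?_)) <;> simp only [L] <;> field_simp
  · rintro ⟨u, b, v, w⟩
    have a6 : ∀ a, opW ρ [11] 6 (by decide +kernel) a = act0 ρ (a, 0, 0, 0) := fun a => by
      simp [act0, prodAct_apply]
    have a10 : ∀ a, opW ρ [11] 10 (by decide +kernel) a = act0 ρ (0, a, 0, 0) := fun a => by
      simp [act0, prodAct_apply]
    have a8 : ∀ a, opW ρ [11] 8 (by decide +kernel) a = act0 ρ (0, 0, a, 0) := fun a => by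
      simp [act0, prodAct_apply]
    have a9 : ∀ a, opW ρ [11] 9 (by decide +kernel) a = act0 ρ (0, 0, 0, a) := fun a => by
      simp [act0, prodAct_apply]
    have hA : act0 ρ (L (u, b, v, w)) = opW ρ [11] 10 (by decide +kernel) (c6 * u) *
        (opW ρ [11] 6 (by decide +kernel) (c10 * b) * (opW ρ [11] 9 (by decide +kernel) (c8 * v) *
          opW ρ [11] 8 (by decide +kernel) (c9 * w))) := by
      rw [a6, a8, a9, a10]
      simp only [← AddChar.map_add_eq_mul]
      congr 1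
      refine Prod.ext ?_ (Prod.ext ?_ (Prod.ext ?_ ?_)) <;> simp [L]
    refine LinearMap.ext fun x => Subtype.ext ?_
    rw [hA]
    simp only [Module.End.mul_apply, resW_apply, opW_apply, act0_apply]
    simp only [← Module.End.mul_apply, ← map_mul]
    refine congrArg (fun g => ρ g (x : V)) ?_
    have g6 := e6 u
    have g10 := e10 b
    have g8 := e8 v
    have g9 := e9 w
    rw [← g9, ← mul_assoc (X 9 _) (nn 0), ← g8, mul_assoc, ← mul_assoc (X 6 _) (nn 0), ← g10,
      mul_assoc, ← mul_assoc (X 10 _) (nn 0), ← g6, mul_assoc]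
  · rintro ⟨u, b, v, w⟩
    simp only [L, pair_prod, pair_field]
    ring

end CfsgLib.G2Deg97
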