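import Cfsg.Agent.G2Deg97.Tools

/-!
Sums of weights over fibres, weights on nested stable subspaces and components of vectors.
-/

set_option autoImplicit false

namespace CfsgLib.G2Deg97

open CfsgLib.WeightProj65
open SelfDual (pair)

variable {F : Type*} [Field F] {ψ : AddChar F ℂ} {V : Type*} [AddCommGroup V] [Module ℂ V]
  [FiniteDimensional ℂ V]

/-- The weights of a partial action are the sums over the fibres, in any coordinates. -/
theorem mu_sum {A B M : Type*} [AddCommGroup A] [AddCommGroup B] [AddCommGroup M] [Fintype A]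
    [Fintype B] [SelfDual F A] [SelfDual F B] [SelfDual F M] (hψ : ψ ≠ 1)
    (act : AddChar M (Module.End ℂ V)) (e : A × B →+ M) (he : Function.Surjective e) (f : A × B → M)
    (hf : ∀ p y, pair (F := F) (f p) (e y) = pair p y) (g : AddChar B (Module.End ℂ V))
    (hg : ∀ y, act (e (0, y)) = g y) (b : B) : mu ψ g b = ∑ a, mu ψ act (f (a, b)) := by
  have h := mu_marginal hψ (act.compAddMonoidHom e) b
  rw [show (act.compAddMonoidHom e).compAddMonoidHom (AddMonoidHom.inr A B) = g from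
    DFunLike.ext _ _ fun y => hg y] at h
  rw [h]
  exact Finset.sum_congr rfl fun a _ => mu_reindex act e he fun y => hf (a, b) y

omit [FiniteDimensional ℂ V] in
theorem finrank_eq_of_images {W₁ W₂ : Submodule ℂ V} (S₁ : Submodule ℂ W₁) (S₂ : Submodule ℂ W₂)
    (h : ∀ v : V, (∃ hv : v ∈ W₁, (⟨v, hv⟩ : W₁) ∈ S₁) ↔ (∃ hv : v ∈ W₂, (⟨v, hv⟩ : W₂) ∈ S₂)) :
    Module.finrank ℂ S₁ = Module.finrank ℂ S₂ := by
  have e : S₁.map W₁.subtype = S₂.map W₂.subtype := by
    ext v
    simp only [Submodule.mem_map, Submodule.coe_subtype, Subtype.exists]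
    constructor
    · rintro ⟨w, hw, hS, rfl⟩
      obtain ⟨hw', hS'⟩ := (h w).1 ⟨hw, hS⟩
      exact ⟨w, hw', hS', rfl⟩
    · rintro ⟨w, hw, hS, rfl⟩
      obtain ⟨hw', hS'⟩ := (h w).2 ⟨hw, hS⟩
      exact ⟨w, hw', hS', rfl⟩
  rw [← Submodule.finrank_map_subtype_eq W₁ S₁, e, Submodule.finrank_map_subtype_eq]

omit [FiniteDimensional ℂ V] in
theorem finrank_eq_of_image {W : Submodule ℂ V} (S : Submodule ℂ V) (S' : Submodule ℂ W)
    (h : ∀ v : V, v ∈ S ↔ ∃ hv : v ∈ W, (⟨v, hv⟩ : W) ∈ S') :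
    Module.finrank ℂ S = Module.finrank ℂ S' := by
  have e : S = S'.map W.subtype := by
    ext v
    rw [h v]
    simp only [Submodule.mem_map, Submodule.coe_subtype, Subtype.exists]
    constructor
    · rintro ⟨hw, hS⟩; exact ⟨v, hw, hS, rfl⟩
    · rintro ⟨w, hw, hS, rfl⟩; exact ⟨hw, hS⟩
  rw [e, Submodule.finrank_map_subtype_eq]

variable {M : Type*} [AddCommGroup M] [SelfDual F M] [Fintype M]

/-- The components of an eigenvector have the same eigenvalue. -/
theorem comp_eigen (act : AddChar M (Module.End ℂ V)) {v : V} {y : M} {c : ℂ} (hv : act y v = c • v)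
    {a : M} (ha : proj act (chr ψ a) v ≠ 0) : ψ (pair a y) = c ∧ mu ψ act a ≠ 0 := by
  have h1 := proj_mem act (chr ψ a) v y
  rw [← Module.End.mul_apply, ← proj_comm_act, Module.End.mul_apply, hv, map_smul, chr_apply] at h1
  refine ⟨(smul_left_injective ℂ ha h1).symm, fun h => ?_⟩
  exact ha ((Submodule.eq_bot_iff _).1 ((mu_eq_zero_iff act a).1 h) _ (proj_mem act _ v))

omit [FiniteDimensional ℂ V] in
/-- A vector is fixed when all of its components are. -/
theorem fix_of_comps (hψ : ψ ≠ 1) (act : AddChar M (Module.End ℂ V)) {v : V} {x : M}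
    (h : ∀ a, proj act (chr ψ a) v ≠ 0 → ψ (pair a x) = 1) : act x v = v := by
  have hs := LinearMap.congr_fun (sum_proj act) v
  rw [LinearMap.sum_apply, Module.End.one_apply, ← (chr_bijective (M := M) hψ).sum_comp] at hs
  have e := congrArg (act x) hs
  rw [map_sum] at e
  rw [← e]
  conv_rhs => rw [← hs]
  refine Finset.sum_congr rfl fun a _ => ?_
  rcases eq_or_ne (proj act (chr ψ a) v) 0 with h0 | h0
  · rw [h0, map_zero]
  · rw [proj_mem act (chr ψ a) v x, chr_apply, h a h0, one_smul]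

omit [FiniteDimensional ℂ V] [SelfDual F M] [Fintype M] in
theorem sum_split {α : Type*} [Fintype α] [Zero α] [DecidableEq α] (f : α → ℕ) {c : ℕ}
    (h : ∀ a, a ≠ 0 → f a = c) : ∑ a, f a = f 0 + (Fintype.card α - 1) * c := by
  rw [← Finset.add_sum_erase _ _ (Finset.mem_univ (0 : α)),
    Finset.sum_congr rfl fun a ha => h a (Finset.ne_of_mem_erase ha), Finset.sum_const,
    Finset.card_erase_of_mem (Finset.mem_univ _), Finset.card_univ, smul_eq_mul]

omit [FiniteDimensional ℂ V] in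
theorem eq_one_of_scale (hψ : ψ ≠ 1) {a : F} (h : ∀ s : F, ψ (a * s) = 1) : a = 0 := by
  by_contra ha
  obtain ⟨w, hw⟩ := AddChar.ne_one_iff.1 hψ
  exact hw (by simpa [mul_inv_cancel_left₀ ha] using h (a⁻¹ * w))

end CfsgLib.G2Deg97
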