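import Cfsg.Agent.G2Deg97.ThreeFix
import Cfsg.Agent.S1059

/-!
The minimal degree in characteristic three.
-/

set_option autoImplicit false

namespace CfsgLib.G2Deg97

open Cfsg.Lie CfsgLib.Chevalley CfsgLib.WeightProj65
open SelfDual (pair)

variable {F : Type*} [Field F] {V : Type*} [AddCommGroup V] [Module ℂ V]
  (ρ : Representation ℂ ↥(GG F) V) (h3 : (3 : F) = 0)
  [Fintype F] [FiniteDimensional ℂ V] (ψ : AddChar F ℂ)

omit [Fintype F] in
theorem cube_inj (h3 : (3 : F) = 0) : Function.Injective fun x : F => x ^ 3 := fun x y h => by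
  simp only at h
  have : (x - y) ^ 3 = 0 := by linear_combination h + (x * y ^ 2 - x ^ 2 * y) * h3
  exact sub_eq_zero.1 (pow_eq_zero_iff (n := 3) (by norm_num) |>.1 this)

theorem exists_cube (h3 : (3 : F) = 0) (a : F) : ∃ s : F, s ^ 3 = a :=
  (Finite.injective_iff_surjective.1 (cube_inj h3)) a

theorem orbit_le' {ι M : Type*} [Fintype ι] [DecidableEq ι] [DecidableEq M] (μ : M → ℕ) (g : ι → M) (n : ℕ)
    (h1 : ∀ i, 1 ≤ μ (g i)) (hfib : ∀ i, (Finset.univ.filter fun j => g j = g i).card ≤ n)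
    (P : Finset M) (hP : ∀ i, g i ∈ P) : Fintype.card ι ≤ n * ∑ a ∈ P, μ a := by
  refine (Finset.card_le_mul_card_image (f := g) Finset.univ n fun a ha => ?_).trans
    (Nat.mul_le_mul_left n ?_)
  · obtain ⟨i, -, rfl⟩ := Finset.mem_image.1 ha
    exact hfib i
  · rw [Finset.card_eq_sum_ones]
    refine (Finset.sum_le_sum fun a ha => ?_).trans (Finset.sum_le_sum_of_subset fun a ha => ?_)
    · obtain ⟨i, -, rfl⟩ := Finset.mem_image.1 ha
      exact h1 i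
    · obtain ⟨i, -, rfl⟩ := Finset.mem_image.1 ha
      exact hP i

omit [Fintype F] in
theorem card_cubic_le [Fintype F] [DecidableEq F] {a : F} (ha : a ≠ 0) (b c : F) :
    (Finset.univ.filter fun t : F => b * t + a * t ^ 3 = c).card ≤ 3 := by
  classical
  set P : Polynomial F := Polynomial.C a * Polynomial.X ^ 3 + Polynomial.C 0 * Polynomial.X ^ 2 +
    Polynomial.C b * Polynomial.X + Polynomial.C (-c) with hP
  have hdeg : P.natDegree = 3 := Polynomial.natDegree_cubic ha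
  refine (Finset.card_le_card (t := P.roots.toFinset) fun t ht => ?_).trans
    ((Multiset.toFinset_card_le _).trans ((Polynomial.card_roots' P).trans hdeg.le))
  rw [Multiset.mem_toFinset, Polynomial.mem_roots (by intro h; rw [h] at hdeg; simp at hdeg)]
  have e := (Finset.mem_filter.1 ht).2
  simp [hP]
  linear_combination e

theorem m4_const : ∀ {ζ v w : F}, ψ ≠ 1 → ζ ≠ 0 → (v ≠ 0 ∨ w ≠ 0) →
    m4 ρ h3 ψ 0 ζ v w = m4 ρ h3 ψ 0 1 0 1 := by
  have hw : ∀ {ζ v w : F}, ζ ≠ 0 → w ≠ 0 → m4 ρ h3 ψ 0 ζ v w = m4 ρ h3 ψ 0 1 0 1 := by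
    intro ζ v w hζ hw
    have h1 := m4_seven ρ h3 ψ 0 ζ v w (-(v / w))
    rw [neg_mul, div_mul_cancel₀ _ hw, add_neg_cancel] at h1
    have h2 := m4_scale ρ h3 ψ (Units.mk0 (w ^ 2 / ζ) (div_ne_zero (pow_ne_zero _ hw) hζ))
      (Units.mk0 (ζ ^ 2 / w ^ 3) (div_ne_zero (pow_ne_zero _ hζ) (pow_ne_zero _ hw))) 0 1 0 1
    rw [← h1, ← h2]
    congr 1 <;> simp <;> field_simp
  intro ζ v w hψ hζ h
  rcases eq_or_ne w 0 with rfl | hw0
  · obtain ⟨c₁, c₂, c₃, h1, -, h3', hc⟩ := actC_nn ρ h3 ψ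
    have h2 := hc ζ v 0
    rw [sum_actC_ne ρ h3 ψ hψ hζ, sum_actC_ne ρ h3 ψ hψ (mul_ne_zero h1 hζ)] at h2
    rw [Nat.eq_of_mul_eq_mul_left Fintype.card_pos h2]
    exact hw (mul_ne_zero h1 hζ) (mul_ne_zero h3' (h.resolve_right (not_not.2 rfl)))
  · exact hw hζ hw0

omit [Fintype F] in
theorem m4_d {ζ : F} (hζ : ζ ≠ 0) : m4 ρ h3 ψ 0 ζ 0 0 = m4 ρ h3 ψ 0 1 0 0 := by
  have h := m4_scale ρ h3 ψ (Units.mk0 ζ hζ) (Units.mk0 ζ hζ)⁻¹ 0 1 0 0
  rw [← h]
  congr 1 <;> simp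
  field_simp

/-- The weights with `x₁₀` non-trivial and `x₁₁` trivial. -/
theorem m4_beta (hψ : ψ ≠ 1) {β : F} (hβ : β ≠ 0) :
    (∀ v w : F, w ≠ 0 → m4 ρ h3 ψ β 0 v w = m4 ρ h3 ψ 0 1 0 1) ∧
      ∑ v, m4 ρ h3 ψ β 0 v 0 =
        (Fintype.card F - 1) * m4 ρ h3 ψ 0 1 0 1 + m4 ρ h3 ψ 0 1 0 0 := by
  classical
  obtain ⟨c₁, c₂, c₃, h1, -, h3', hc⟩ := actP_nn ρ ψ
  have hsum : ∀ w, ∑ v, m4 ρ h3 ψ β 0 v w = ∑ v, m4 ρ h3 ψ 0 (c₃ * β) v (c₁ * w) := fun w => by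
    rw [← sum_actP ρ h3 ψ hψ, ← sum_actP ρ h3 ψ hψ, hc, mul_zero]
  refine ⟨fun v w hw => ?_, ?_⟩
  · have hconst : ∀ v', m4 ρ h3 ψ β 0 v' w = m4 ρ h3 ψ β 0 v w := fun v' => by
      have := m4_seven ρ h3 ψ β 0 v w ((v' - v) / w)
      rwa [div_mul_cancel₀ _ hw, add_sub_cancel] at this
    have h := hsum w
    rw [Finset.sum_congr rfl fun v' _ => hconst v',
      Finset.sum_congr rfl fun v' _ =>
        m4_const ρ h3 ψ hψ (mul_ne_zero h3' hβ) (Or.inr (mul_ne_zero h1 hw))] at h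
    simp only [Finset.sum_const, Finset.card_univ, smul_eq_mul] at h
    exact Nat.eq_of_mul_eq_mul_left Fintype.card_pos h
  · rw [hsum, mul_zero, sum_split _ fun v' hv => m4_const ρ h3 ψ hψ (mul_ne_zero h3' hβ) (Or.inl hv),
      m4_d ρ h3 ψ (mul_ne_zero h3' hβ), add_comm]

/-- The degree through the weights. -/
theorem finrank_three (hψ : ψ ≠ 1) : Module.finrank ℂ V =
    ((Fintype.card F - 1) * Fintype.card F + (Fintype.card F - 1)) *
      ((Fintype.card F * (Fintype.card F - 1) + (Fintype.card F - 1)) * m4 ρ h3 ψ 0 1 0 1 +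
        m4 ρ h3 ψ 0 1 0 0) + ∑ v, ∑ w, m4 ρ h3 ψ 0 0 v w := by
  classical
  set q := Fintype.card F with hqdef
  set n := m4 ρ h3 ψ 0 1 0 1
  set d := m4 ρ h3 ψ 0 1 0 0
  have hC1 : ∀ β ζ : F, ζ ≠ 0 → ∑ v, ∑ w, m4 ρ h3 ψ β ζ v w =
      (q * (q - 1) + (q - 1)) * n + d := by
    intro β ζ hζ
    have hb : ∀ v w, m4 ρ h3 ψ β ζ v w = m4 ρ h3 ψ 0 ζ v w := fun v w => by
      have := m4_six ρ h3 ψ 0 ζ v w (β / ζ)
      rwa [zero_add, div_mul_cancel₀ _ hζ] at this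
    simp only [hb]
    rw [Finset.sum_congr rfl fun v _ => sum_split (fun w => m4 ρ h3 ψ 0 ζ v w)
      fun w hw => m4_const ρ h3 ψ hψ hζ (Or.inr hw), Finset.sum_add_distrib, Finset.sum_const,
      Finset.card_univ, smul_eq_mul,
      sum_split _ fun v hv => m4_const ρ h3 ψ hψ hζ (Or.inl hv), m4_d ρ h3 ψ hζ, ← hqdef]
    ring
  have hC0 : ∀ β : F, β ≠ 0 → ∑ v, ∑ w, m4 ρ h3 ψ β 0 v w = (q * (q - 1) + (q - 1)) * n + d := by
    intro β hβ
    obtain ⟨h1, h2⟩ := m4_beta ρ h3 ψ hψ hβ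
    rw [Finset.sum_congr rfl fun v _ => sum_split (fun w => m4 ρ h3 ψ β 0 v w) (h1 v),
      Finset.sum_add_distrib, h2, Finset.sum_const, Finset.card_univ, smul_eq_mul, ← hqdef]
    ring
  rw [← sum_m4 ρ h3 ψ hψ, Finset.sum_comm,
    sum_split (fun ζ => ∑ β, ∑ v, ∑ w, m4 ρ h3 ψ β ζ v w) fun ζ hζ =>
      (Finset.sum_congr rfl fun β _ => hC1 β ζ hζ).trans (by rw [Finset.sum_const, Finset.card_univ,
        smul_eq_mul]), sum_split (fun β => ∑ v, ∑ w, m4 ρ h3 ψ β 0 v w) hC0, ← hqdef]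
  ring

/-- The weights `(x₈, x₉)` are not all trivial when `x₁₁` is not. -/
theorem m4_pos (hψ : ψ ≠ 1) (hfaith : ρ (X 11 1) ≠ 1) (hq : 4 ≤ Fintype.card F) :
    1 ≤ m4 ρ h3 ψ 0 1 0 1 := by
  classical
  rw [Nat.one_le_iff_ne_zero]
  intro hn
  -- `x₈` and `x₉` are trivial where `x₁₁` is non-trivial
  have h89 : ∀ {ζ : F}, ζ ≠ 0 → ∀ x : V, (∀ t, ρ (X 11 t) x = ψ (ζ * t) • x) →
      ∀ t, ρ (X 8 t) x = x ∧ ρ (X 9 t) x = x := by
    intro ζ hζ x hx
    have key : ∀ a c : F, act4 ρ h3 ((0 : F), (0 : F), a, c) x = x := fun a c => by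
      refine fix_of_comps hψ (act4 ρ h3) fun p hp => ?_
      have hz : ∀ t, ψ (p.2.1 * t) = ψ (ζ * t) := fun t => by
        have h11 : act4 ρ h3 ((0 : F), t, (0 : F), (0 : F)) x = ψ (ζ * t) • x := by
          rw [act4_apply]; simp [X_zero, hx]
        simpa [pair_prod, pair_field] using (comp_eigen (act4 ρ h3) h11 hp).1
      have hpz : p.2.1 = ζ := by
        by_contra hne
        exact sub_ne_zero.2 hne (eq_one_of_scale hψ fun t => by
          have e : ψ ((p.2.1 - ζ) * t) * ψ (ζ * t) = ψ (p.2.1 * t) := by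
            rw [← AddChar.map_add_eq_mul]; ring_nf
          rw [hz] at e
          exact (mul_eq_right₀ (fun h0 => by
            have := AddChar.map_add_eq_mul ψ (ζ * t) (-(ζ * t))
            rw [add_neg_cancel, AddChar.map_zero_eq_one, h0, zero_mul] at this
            exact one_ne_zero this)).1 e)
      have hne := (comp_eigen (act4 ρ h3) (show act4 ρ h3 0 x = (1 : ℂ) • x by
        rw [AddChar.map_zero_eq_one, one_smul]; rfl) hp).2
      have hm : m4 ρ h3 ψ p.1 p.2.1 p.2.2.1 p.2.2.2 ≠ 0 := hne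
      have hb := m4_six ρ h3 ψ 0 p.2.1 p.2.2.1 p.2.2.2 (p.1 / ζ)
      rw [hpz, zero_add, div_mul_cancel₀ _ hζ] at hb
      rw [hpz, hb] at hm
      have h00 : p.2.2.1 = 0 ∧ p.2.2.2 = 0 := by
        by_contra hc
        exact hm ((m4_const ρ h3 ψ hψ hζ (not_and_or.1 hc)).trans hn)
      simp [pair_prod, pair_field, h00.1, h00.2]
    intro t
    exact ⟨by simpa [act4_apply, X_zero] using key t 0, by simpa [act4_apply, X_zero] using key 0 t⟩
  -- hence `x₇` is trivial where `x₁₀` is non-trivial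
  have h7 : ∀ {β : F}, β ≠ 0 → ∀ x : V, (∀ t, ρ (X 10 t) x = ψ (β * t) • x) →
      ∀ t, ρ (X 7 t) x = x := by
    intro β hβ x hx
    obtain ⟨c, hc, -, e⟩ := nn_conj (F := F) 1 11 10 (by decide +kernel)
    obtain ⟨c', -, -, e'⟩ := nn_conj (F := F) 1 8 7 (by decide +kernel)
    set y : V := ρ (nn 1)⁻¹ x with hy
    have hyx : ρ (nn 1) y = x := by
      rw [hy, ← rho_mul_apply, mul_inv_cancel, map_one]; rfl
    have hy11 : ∀ t, ρ (X 11 t) y = ψ (β * c * t) • y := fun t => by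
      have : X 11 t * (nn 1)⁻¹ = (nn 1)⁻¹ * X 10 (c * t) := by
        rw [eq_inv_mul_iff_mul_eq, ← mul_assoc, e, mul_inv_cancel_right]
      rw [hy, ← rho_mul_apply, this, rho_mul_apply, hx, map_smul, mul_assoc]
    intro t
    have := move_fix ρ e' (fun s => (h89 (mul_ne_zero hβ hc) y hy11 s).1) t
    rwa [hyx] at this
  have hpos : mu ψ (actB ρ) ((1 : F), (1 : F)) ≠ 0 := by
    rw [mu_actB_of_ne ρ ψ one_ne_zero]
    exact Nat.one_le_iff_ne_zero.1 (eB_pos ρ ψ hψ hfaith)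
  obtain ⟨x, hx0, hx⟩ := exists_of_mu_pos (actB ρ) hpos
  have hx10 : ∀ t, ρ (X 10 t) x = ψ t • x := fun t => by
    have := hx (t, 0)
    simpa [actB, prodAct_apply, op_apply, X_zero, pair_prod, pair_field] using this
  have hx11 : ∀ t, ρ (X 11 t) x = ψ t • x := fun t => by
    have := hx (0, t)
    simpa [actB, prodAct_apply, op_apply, X_zero, pair_prod, pair_field] using this
  obtain ⟨u, hu⟩ : ∃ u : F, u ∉ ({0, 1, -1} : Finset F) := by
    by_contra hc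
    push Not at hc
    have := Finset.card_le_card (s := (Finset.univ : Finset F)) fun u _ => hc u
    rw [Finset.card_univ] at this
    have := (Finset.card_insert_le (0 : F) {1, -1}).trans (Nat.add_le_add_right Finset.card_le_two _)
    omega
  simp only [Finset.mem_insert, Finset.mem_singleton, not_or] at hu
  have hkey : ∀ s, ψ ((u + u ^ 2) * s ^ 3) = 1 := by
    intro s
    have h11u : ∀ t, ρ (X 11 t) (ρ (X 6 u) x) = ψ t • ρ (X 6 u) x := fun t => by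
      rw [← rho_mul_apply, X_comm 6 11 (by decide +kernel), rho_mul_apply, hx11, map_smul]
    have h10u : ∀ t, ρ (X 10 t) (ρ (X 6 u) x) = ψ ((1 - u) * t) • ρ (X 6 u) x := fun t => by
      rw [← rho_mul_apply, X_swap_one 6 10 11 (C := 1) (i := 1) (j := 1) (by decide +kernel) u t,
        rho_mul_apply, rho_mul_apply, hx11, map_smul, hx10, smul_smul, map_smul,
        ← AddChar.map_add_eq_mul]
      congr 2
      push_cast
      ring
    have hfix7 : ρ (X 7 s) (ρ (X 6 u) x) = ρ (X 6 u) x :=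
      h7 (sub_ne_zero.2 (Ne.symm hu.2.1)) _ h10u s
    have hx1 : ∀ t, ρ (X 11 t) x = ψ (1 * t) • x := fun t => by rw [one_mul, hx11]
    have e := congrArg (fun g => ρ g x) (X_swap76 (F := F) s u)
    simp only [rho_mul_apply, h7 one_ne_zero x (fun t => by rw [one_mul, hx10]), hx11, map_smul,
      hx10, (h89 one_ne_zero x hx1 _).1, (h89 one_ne_zero x hx1 _).2, hfix7, smul_smul] at e
    have hne : ρ (X 6 u) x ≠ 0 := fun h0 => by
      have := congrArg (ρ (X 6 (-u))) h0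
      rw [map_zero, ← rho_mul_apply, X_cancel, map_one] at this
      exact hx0 this
    have e' := smul_left_injective ℂ hne ((one_smul ℂ (ρ (X 6 u) x)).trans e)
    rw [← AddChar.map_add_eq_mul] at e'
    have hneg : ψ (-((u + u ^ 2) * s ^ 3)) = 1 := by
      refine Eq.trans (congrArg ψ ?_) e'.symm
      ring
    have h2 := AddChar.map_add_eq_mul ψ ((u + u ^ 2) * s ^ 3) (-((u + u ^ 2) * s ^ 3))
    rwa [add_neg_cancel, AddChar.map_zero_eq_one, hneg, mul_one, eq_comm] at h2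
  have h0 : u + u ^ 2 = 0 := eq_one_of_scale hψ fun t => by
    obtain ⟨s, rfl⟩ := exists_cube h3 t
    exact hkey s
  have : u * (u + 1) = 0 := by linear_combination h0
  rcases mul_eq_zero.1 this with h | h
  · exact hu.1 h
  · exact hu.2.2 (eq_neg_of_add_eq_zero_left h)

/-- The structure when the large weights have multiplicity one and `x₈, x₉` small multiplicity. -/
theorem three_structure (hψ : ψ ≠ 1) (hq : 9 ≤ Fintype.card F) (hn : m4 ρ h3 ψ 0 1 0 1 = 1)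
    (hd : m4 ρ h3 ψ 0 1 0 0 ≤ 3) :
    m4 ρ h3 ψ 0 1 0 0 = 1 ∧ 1 ≤ m4 ρ h3 ψ 0 0 0 1 ∧
      (∀ v : F, v ≠ 0 → m4 ρ h3 ψ 0 0 v 0 = Fintype.card F) ∧
      Fintype.card F - 1 + mc ρ ψ (0, 0, 0, 0) ≤ m4 ρ h3 ψ 0 0 0 0 := by
  classical
  set q := Fintype.card F with hqdef
  set d := m4 ρ h3 ψ 0 1 0 0
  obtain ⟨c₀, c₁, c₂, c₃, hc0, hc1, hc2, hc3, hrev⟩ := mc_rev ρ ψ
  -- no weight with `v ≠ 0`, `w = 0`, `β ≠ 0`
  have hX : ∀ u v b : F, v ≠ 0 → b ≠ 0 → mc ρ ψ (u, v, 0, b) = 0 := by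
    intro u v b hv hb
    by_contra hm
    set P := ((Finset.univ : Finset F) ×ˢ ((Finset.univ : Finset F).erase 0 ×ˢ
      ((Finset.univ : Finset F).erase 0))).image fun p : F × F × F => (p.1, p.2.1, (0 : F), p.2.2)
    have hP : ∑ a ∈ P, mc ρ ψ a ≤ (q - 1) * (q - 1 + d) := by
      rw [Finset.sum_image]
      swap
      · intro x _ y _ hxy
        simp only [Prod.mk.injEq] at hxy
        exact Prod.ext hxy.1 (Prod.ext hxy.2.1 hxy.2.2.2)
      rw [Finset.sum_product_right, Finset.sum_product_right]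
      have hcard : ((Finset.univ : Finset F).erase 0).card = q - 1 := by
        rw [Finset.card_erase_of_mem (Finset.mem_univ _), Finset.card_univ]
      rw [← hcard, ← smul_eq_mul, ← Finset.sum_const]
      refine Finset.sum_le_sum fun b' hb' => ?_
      have h2 := (m4_beta ρ h3 ψ hψ (neg_ne_zero.2 (Finset.ne_of_mem_erase hb'))).2
      rw [hn, mul_one] at h2
      rw [hcard, ← h2, ← Finset.add_sum_erase _ _ (Finset.mem_univ (0 : F))]
      refine le_trans (le_of_eq (Finset.sum_congr rfl fun v' _ => ?_)) (Nat.le_add_left _ _)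
      rw [m4_eq_sum_mc ρ h3 ψ hψ, neg_neg]
    have h := orbit_le' (mc ρ ψ) (fun i : F × Fˣ × Fˣ => shiftCub i.1 (scaleCub (i.2.1 : F) (i.2.2 : F)
      ((u, v, 0, b) : F × F × F × F))) 6 (fun i => ?_) (fun i => ?_) P (fun i => ?_)
    · rw [Fintype.card_prod, Fintype.card_prod, Fintype.card_units, ← hqdef] at h
      have h' := h.trans (Nat.mul_le_mul_left 6 hP)
      obtain ⟨j, hj⟩ : ∃ j, q = j + 9 := ⟨q - 9, by omega⟩
      rw [hj, show j + 9 - 1 = j + 8 from rfl] at h'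
      nlinarith
    · rw [mc_shift, mc_scale]
      exact Nat.one_le_iff_ne_zero.2 hm
    · -- fibres
      set S := Finset.univ.filter fun j : F × Fˣ × Fˣ =>
        shiftCub j.1 (scaleCub (j.2.1 : F) (j.2.2 : F) ((u, v, 0, b) : F × F × F × F)) =
        shiftCub i.1 (scaleCub (i.2.1 : F) (i.2.2 : F) ((u, v, 0, b) : F × F × F × F))
      have key : ∀ j ∈ S, (j.2.1 : F) ^ 2 = (i.2.1 : F) ^ 2 ∧ (j.2.1 : F) * j.2.2 = (i.2.1 : F) * i.2.2 ∧
          (j.2.2 : F) * u + (i.2.1 : F) * i.2.2 * v * j.1 + (i.2.1 : F) ^ 3 * i.2.2 * b * j.1 ^ 3 =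
            (i.2.2 : F) * u + (i.2.1 : F) * i.2.2 * v * i.1 + (i.2.1 : F) ^ 3 * i.2.2 * b * i.1 ^ 3 := by
        intro j hj
        have e := (Finset.mem_filter.1 hj).2
        simp only [shiftCub, scaleCub, Prod.mk.injEq, h3, mul_zero, zero_mul, add_zero] at e
        obtain ⟨e0, e1, -, e3⟩ := e
        have eAB := mul_right_cancel₀ hv e1
        have eA3 := mul_right_cancel₀ hb e3
        refine ⟨mul_right_cancel₀ (mul_ne_zero i.2.1.ne_zero i.2.2.ne_zero) ?_, eAB, ?_⟩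
        · linear_combination eA3 - (j.2.1 : F) ^ 2 * eAB
        · linear_combination e0 - (j.1 * v) * eAB - (j.1 ^ 3 * b) * eA3
      refine (Finset.card_le_mul_card_image S 3 (f := fun j => (j.2.1 : F)) fun A hA => ?_).trans
        (Nat.mul_le_mul (le_refl 3) ((Finset.card_le_card (t := ({(i.2.1 : F), -(i.2.1 : F)} : Finset F))
          fun A hA => ?_).trans Finset.card_le_two))
      · obtain ⟨j₀, hj₀, rfl⟩ := Finset.mem_image.1 hA
        refine le_trans (Finset.card_le_card_of_injOn (fun j => j.1) (t := Finset.univ.filter fun t : F =>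
          (i.2.1 : F) * i.2.2 * v * t + (i.2.1 : F) ^ 3 * i.2.2 * b * t ^ 3 =
            (i.2.2 : F) * u + (i.2.1 : F) * i.2.2 * v * i.1 + (i.2.1 : F) ^ 3 * i.2.2 * b * i.1 ^ 3 -
              (j₀.2.2 : F) * u) (fun j hj => ?_) ?_) ?_
        · obtain ⟨hjS, hjA⟩ := Finset.mem_filter.1 hj
          obtain ⟨-, eAB, e⟩ := key j hjS
          obtain ⟨-, eAB₀, -⟩ := key j₀ hj₀
          have hA' : (j.2.1 : F) = j₀.2.1 := hjA
          have hB : (j.2.2 : F) = j₀.2.2 := by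
            rw [← eAB₀, hA'] at eAB
            exact mul_left_cancel₀ j₀.2.1.ne_zero eAB
          rw [hB] at e
          exact Finset.mem_filter.2 ⟨Finset.mem_univ _, by linear_combination e⟩
        · intro j hj j' hj' hjj
          obtain ⟨hjS, hjA⟩ := Finset.mem_filter.1 hj
          obtain ⟨hjS', hjA'⟩ := Finset.mem_filter.1 hj'
          obtain ⟨-, eAB, -⟩ := key j hjS
          obtain ⟨-, eAB', -⟩ := key j' hjS'
          have hA' : j.2.1 = j'.2.1 := Units.ext ((hjA : (j.2.1 : F) = _).trans hjA'.symm)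
          refine Prod.ext hjj (Prod.ext hA' (Units.ext (mul_left_cancel₀ j.2.1.ne_zero ?_)))
          rw [eAB, ← eAB', hA']
        · exact card_cubic_le (mul_ne_zero (mul_ne_zero (pow_ne_zero _ i.2.1.ne_zero) i.2.2.ne_zero) hb) _ _
      · obtain ⟨j, hj, rfl⟩ := Finset.mem_image.1 hA
        rcases sq_eq_sq_iff_eq_or_eq_neg.1 (key j hj).1 with h | h <;> simp [h]
    · refine Finset.mem_image.2 ⟨((shiftCub i.1 (scaleCub (i.2.1 : F) (i.2.2 : F) (u, v, (0 : F), b))).1,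
        (i.2.1 : F) * i.2.2 * v, (i.2.1 : F) ^ 3 * i.2.2 * b), ?_, ?_⟩
      · simp [hv, hb, i.2.1.ne_zero, i.2.2.ne_zero]
      · simp only [shiftCub, scaleCub, Prod.mk.injEq, h3]
        exact ⟨trivial, by ring, by ring, trivial⟩
  -- hence `M(β, 0, 0, 0) = q - 1 + d` with `β ≠ 0`
  have hbeta : ∀ {β : F}, β ≠ 0 → m4 ρ h3 ψ β 0 0 0 = q - 1 + d := fun {β} hβ => by
    have h2 := (m4_beta ρ h3 ψ hψ hβ).2
    rw [hn, mul_one, sum_split (fun v => m4 ρ h3 ψ β 0 v 0) (c := 0) fun v hv => by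
      rw [m4_eq_sum_mc ρ h3 ψ hψ]
      exact Finset.sum_eq_zero fun u _ => hX u v _ hv (neg_ne_zero.2 hβ), mul_zero, add_zero] at h2
    exact h2
  have hJ0 : ∀ {b : F}, b ≠ 0 → ∀ u, mc ρ ψ (u, 0, 0, b) = mc ρ ψ (0, 0, 0, b) := fun {b} hb u => by
    obtain ⟨s, hs⟩ := exists_cube h3 (u / b)
    have h := mc_shift ρ ψ s ((0, 0, 0, b) : F × F × F × F)
    rw [← h]
    simp [shiftCub, h3, hs, mul_div_cancel₀ _ hb]
  have hd1 : d = 1 ∧ ∀ {b : F}, b ≠ 0 → ∀ u, mc ρ ψ (u, 0, 0, b) = 1 := by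
    have hl : ∀ {b : F}, b ≠ 0 → q * mc ρ ψ (0, 0, 0, b) = q - 1 + d := fun {b} hb => by
      rw [← hbeta (neg_ne_zero.2 hb), m4_eq_sum_mc ρ h3 ψ hψ, neg_neg,
        Finset.sum_congr rfl fun u _ => hJ0 hb u, Finset.sum_const, Finset.card_univ, smul_eq_mul]
    have hl1 : ∀ {b : F}, b ≠ 0 → mc ρ ψ (0, 0, 0, b) = 1 := fun {b} hb => by
      have h := hl hb
      rcases lt_trichotomy (mc ρ ψ (0, 0, 0, b)) 1 with h' | h' | h'
      · rw [Nat.lt_one_iff.1 h', mul_zero] at h; omega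
      · exact h'
      · have : q * 2 ≤ q * mc ρ ψ (0, 0, 0, b) := Nat.mul_le_mul_left q h'
        omega
    refine ⟨?_, fun {b} hb u => (hJ0 hb u).trans (hl1 hb)⟩
    have h := hl (one_ne_zero (α := F))
    rw [hl1 one_ne_zero, mul_one] at h
    omega
  obtain ⟨hd1, hJ⟩ := hd1
  -- `v = 0`, `w ≠ 0`, `β ≠ 0`
  have hW : ∀ w b : F, w ≠ 0 → b ≠ 0 → mc ρ ψ (0, 0, w, b) = 1 := by
    intro w b hw hb
    have h := (m4_beta ρ h3 ψ hψ (neg_ne_zero.2 hb)).1 0 w hw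
    rw [hn, m4_eq_sum_mc ρ h3 ψ hψ, neg_neg, Fintype.sum_eq_single 0 fun u hu => ?_] at h
    · exact h
    · have h' := hX (c₀ * b) (c₁ * w) (c₃ * u) (mul_ne_zero hc1 hw) (mul_ne_zero hc3 hu)
      have h'' := hrev (u, 0, w, b)
      simp only [mul_zero] at h''
      rwa [h''] at h'
  -- the weights `(u, v, 0, 0)`
  have hV1 : ∀ u v : F, u ≠ 0 → v ≠ 0 → mc ρ ψ (u, v, 0, 0) = 1 := by
    intro u v hu hv
    have h := hrev (0, 0, v / c₁, u / c₀)
    simp only [mul_zero, mul_div_cancel₀ _ hc0, mul_div_cancel₀ _ hc1] at h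
    rw [h]
    exact hW _ _ (div_ne_zero hv hc1) (div_ne_zero hu hc0)
  have hV : ∀ u v : F, v ≠ 0 → mc ρ ψ (u, v, 0, 0) = 1 := by
    intro u v hv
    rcases eq_or_ne u 0 with rfl | hu
    · rw [← mc_shift ρ ψ 1 (((0 : F), v, 0, 0) : F × F × F × F)]
      simp only [shiftCub, mul_zero, zero_mul, add_zero, zero_add, mul_one]
      exact hV1 v v hv hv
    · exact hV1 u v hu hv
  have hU : ∀ u : F, u ≠ 0 → mc ρ ψ (u, 0, 0, 0) = 1 := by
    intro u hu
    have h := hrev (0, 0, 0, u / c₀)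
    simp only [mul_zero, mul_div_cancel₀ _ hc0] at h
    rw [h]
    exact hJ (div_ne_zero hu hc0) 0
  refine ⟨hd1, ?_, fun v hv => ?_, ?_⟩
  · rw [m4_eq_sum_mc ρ h3 ψ hψ, neg_zero]
    refine le_trans (le_of_eq ?_) (Finset.single_le_sum (fun u _ => Nat.zero_le _) (Finset.mem_univ (0 : F)))
    have h := hrev (0, 1 / c₂, 0, 0)
    simp only [mul_zero, mul_div_cancel₀ _ hc2] at h
    rw [h]
    exact (hV 0 _ (div_ne_zero one_ne_zero hc2)).symm
  · rw [m4_eq_sum_mc ρ h3 ψ hψ, neg_zero, Finset.sum_congr rfl fun u _ => hV u v hv, Finset.sum_const,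
      Finset.card_univ, smul_eq_mul, mul_one]
  · rw [m4_eq_sum_mc ρ h3 ψ hψ, neg_zero, sum_split (fun u => mc ρ ψ (u, 0, 0, 0)) hU, mul_one,
      add_comm]

/-- The bound in characteristic three, up to three exceptional values. -/
theorem three_bound (hψ : ψ ≠ 1) (hfaith : ρ (X 11 1) ≠ 1) (hq : 9 ≤ Fintype.card F)
    (hdvd : Module.finrank ℂ V ∣ Fintype.card F ^ 6 * (Fintype.card F ^ 2 - 1) * (Fintype.card F ^ 6 - 1))
    (h3 : (3 : F) = 0) : Fintype.card F ^ 4 + Fintype.card F ^ 2 + 1 ≤ Module.finrank ℂ V := by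
  classical
  have hk := finrank_three ρ h3 ψ hψ
  have hn := m4_pos ρ h3 ψ hψ hfaith (by omega)
  set q := Fintype.card F with hqdef
  set n := m4 ρ h3 ψ 0 1 0 1
  set d := m4 ρ h3 ψ 0 1 0 0
  set S := ∑ v, ∑ w, m4 ρ h3 ψ 0 0 v w
  obtain ⟨j, hj⟩ : ∃ j, q = j + 9 := ⟨q - 9, by omega⟩
  have hq1 : q - 1 = j + 8 := by omega
  rw [hq1] at hk
  by_cases hn2 : 2 ≤ n
  · rw [hk, hj]
    refine le_trans ?_ ((Nat.mul_le_mul_left _ ((Nat.mul_le_mul_left ((j + 9) * (j + 8) + (j + 8)) hn2).trans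
      (Nat.le_add_right _ d))).trans (Nat.le_add_right _ S))
    nlinarith [Nat.zero_le (j ^ 2), Nat.zero_le (j ^ 3), Nat.zero_le (j ^ 4)]
  have hn1 : n = 1 := by omega
  rw [hn1, mul_one] at hk
  by_cases hd4 : 4 ≤ d
  · rw [hk, hj]
    refine le_trans ?_ ((Nat.mul_le_mul_left _ (Nat.add_le_add_left hd4 _)).trans (Nat.le_add_right _ S))
    nlinarith [Nat.zero_le (j ^ 2), Nat.zero_le (j ^ 3), Nat.zero_le (j ^ 4)]
  obtain ⟨hd1, he, hv, h00⟩ := three_structure ρ h3 ψ hψ hq hn1 (by omega)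
  rw [← hqdef] at hv h00
  rw [show d = 1 from hd1] at hk
  set e := m4 ρ h3 ψ 0 0 0 1
  have hew : ∀ v w : F, w ≠ 0 → m4 ρ h3 ψ 0 0 v w = e := by
    intro v w hw
    have h1 := m4_seven ρ h3 ψ 0 0 v w (-(v / w))
    rw [neg_mul, div_mul_cancel₀ _ hw, add_neg_cancel] at h1
    have h2 := m4_scale ρ h3 ψ 1 (Units.mk0 w hw) 0 0 0 1
    rw [← h1]
    refine Eq.trans ?_ h2
    congr 1 <;> simp
  have hS : S = m4 ρ h3 ψ 0 0 0 0 + (j + 8) * q + q * ((j + 8) * e) := by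
    show ∑ v, ∑ w, m4 ρ h3 ψ 0 0 v w = _
    rw [Finset.sum_congr rfl fun v _ => sum_split (fun w => m4 ρ h3 ψ 0 0 v w) (hew v),
      Finset.sum_add_distrib, Finset.sum_const, Finset.card_univ, smul_eq_mul,
      sum_split (fun v => m4 ρ h3 ψ 0 0 v 0) hv, ← hqdef, hq1]
  have he0 := mc_zero_ge ρ h3 ψ hψ (by omega) hv
  rw [← hqdef, hq1] at he0
  rw [hq1] at h00
  rw [hS] at hk
  have h00' : (j + 8) + (j + 8) ≤ m4 ρ h3 ψ 0 0 0 0 := by omega
  by_cases he2 : 2 ≤ e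
  · rw [hk, hj]
    nlinarith [Nat.mul_le_mul_left ((j + 9) * (j + 8)) he2]
  rw [show e = 1 by omega, mul_one] at hk
  have hge : q ^ 4 + q ^ 2 ≤ Module.finrank ℂ V + 2 := by
    rw [hk, hj]
    nlinarith
  by_contra hcon
  push Not at hcon
  set k := Module.finrank ℂ V
  have hqZ : (9 : ℤ) ≤ q := by exact_mod_cast hq
  have hdvd' : (k : ℤ) ∣ (q : ℤ) ^ 6 * ((q : ℤ) ^ 2 - 1) * ((q : ℤ) ^ 6 - 1) := by
    have := Int.natCast_dvd_natCast.2 hdvd
    push_cast [Nat.cast_sub (Nat.one_le_pow 2 q (by omega)), Nat.cast_sub (Nat.one_le_pow 6 q (by omega))] at this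
    exact this
  have hqq : (81 : ℤ) ≤ (q : ℤ) ^ 2 := by nlinarith
  set x : ℤ := (q : ℤ) ^ 2 with hx
  have hdx : (k : ℤ) ∣ x ^ 3 * (x - 1) * (x ^ 3 - 1) := by
    rw [hx, ← pow_mul]; exact hdvd'
  have hklo : (x ^ 2 + x : ℤ) ≤ k + 2 := by
    rw [hx, ← pow_mul]; exact_mod_cast hge
  have hkhi : (k : ℤ) < x ^ 2 + x + 1 := by
    rw [hx, ← pow_mul]; exact_mod_cast hcon
  rcases (show (k : ℤ) = x ^ 2 + x - 2 ∨ (k : ℤ) = x ^ 2 + x - 1 ∨ (k : ℤ) = x ^ 2 + x by omega) with h | h | h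
    <;> rw [h] at hdx
  · have h1 : (x + 2) * (x - 1) ∣ (x ^ 3 * (x - 1) * (x ^ 2 + x + 1)) * (x - 1) := by
      convert hdx using 1 <;> ring
    have h2 := (mul_dvd_mul_iff_right (by omega : x - 1 ≠ 0)).1 h1
    have h3' : x + 2 ∣ x ^ 3 * (x - 1) * (x ^ 2 + x + 1) -
        (x + 2) * (x ^ 5 - 2 * x ^ 4 + 4 * x ^ 3 - 9 * x ^ 2 + 18 * x - 36) := dvd_sub h2 (dvd_mul_right _ _)
    rw [show x ^ 3 * (x - 1) * (x ^ 2 + x + 1) -
      (x + 2) * (x ^ 5 - 2 * x ^ 4 + 4 * x ^ 3 - 9 * x ^ 2 + 18 * x - 36) = 72 by ring] at h3'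
    have := Int.le_of_dvd (by norm_num) h3'
    omega
  · have h2 : x ^ 2 + x - 1 ∣ x ^ 3 * (x - 1) * (x ^ 3 - 1) -
        (x ^ 2 + x - 1) * (x ^ 5 - 2 * x ^ 4 + 3 * x ^ 3 - 6 * x ^ 2 + 10 * x - 16) :=
      dvd_sub hdx (dvd_mul_right _ _)
    rw [show x ^ 3 * (x - 1) * (x ^ 3 - 1) -
      (x ^ 2 + x - 1) * (x ^ 5 - 2 * x ^ 4 + 3 * x ^ 3 - 6 * x ^ 2 + 10 * x - 16) = 26 * x - 16 by ring] at h2
    have := Int.le_of_dvd (by omega) h2
    nlinarith
  · have h1 : x + 1 ∣ x ^ 3 * (x - 1) * (x ^ 3 - 1) :=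
      (Dvd.intro x (by ring : (x + 1) * x = x ^ 2 + x)).trans hdx
    have h3' : x + 1 ∣ x ^ 3 * (x - 1) * (x ^ 3 - 1) -
        (x + 1) * (x ^ 6 - 2 * x ^ 5 + 2 * x ^ 4 - 3 * x ^ 3 + 4 * x ^ 2 - 4 * x + 4) :=
      dvd_sub h1 (dvd_mul_right _ _)
    rw [show x ^ 3 * (x - 1) * (x ^ 3 - 1) -
      (x + 1) * (x ^ 6 - 2 * x ^ 5 + 2 * x ^ 4 - 3 * x ^ 3 + 4 * x ^ 2 - 4 * x + 4) = -4 by ring] at h3'
    have := Int.le_of_dvd (by norm_num) (dvd_neg.1 h3')
    omega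

end CfsgLib.G2Deg97
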