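import Cfsg.Agent.G2Deg97.ThreeSym

/-!
Characteristic three: weights on the spaces fixed by `X₁₁` and by `X₉, X₁₀, X₁₁`.
-/

set_option autoImplicit false

namespace CfsgLib.G2Deg97

open Cfsg.Lie CfsgLib.Chevalley CfsgLib.WeightProj65
open SelfDual (pair)

variable {F : Type*} [Field F] {V : Type*} [AddCommGroup V] [Module ℂ V]
  (ρ : Representation ℂ ↥(GG F) V) (h3 : (3 : F) = 0)
  [Fintype F] [FiniteDimensional ℂ V] (ψ : AddChar F ℂ)

theorem m4_eq_sum_mc (hψ : ψ ≠ 1) (β v w : F) :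
    m4 ρ h3 ψ β 0 v w = ∑ u, mc ρ ψ (u, v, w, -β) := by
  have hm := mu_marginal hψ (act0 ρ) (β, v, w)
  rw [Finset.sum_congr rfl fun u _ => show mu ψ (act0 ρ) (u, β, v, w) = mc ρ ψ (u, v, w, -β) from
    (congrArg (fun z : F => mu ψ (act0 ρ) (u, z, v, w)) (neg_neg β)).symm] at hm
  rw [← hm, m4, mu, mu]
  refine finrank_eq_of_image _ _ fun x => ?_
  have hre : ∀ b z a c : F, X 10 b * (X 11 z * (X 8 a * X 9 c)) =
      X 6 0 * (X 10 b * (X 8 a * X 9 c)) * X 11 z := fun b z a c => by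
    rw [X_zero, one_mul, mul_assoc (X 10 b)]
    congr 1
    rw [← mul_assoc, X_comm 8 11 (by decide +kernel), mul_assoc, X_comm 9 11 (by decide +kernel),
      mul_assoc]
  constructor
  · intro hx
    have h11 : x ∈ fixSp ρ [11] := (mem_fix_one ρ).2 fun t => by
      have := hx ((0 : F), t, (0 : F), (0 : F))
      rw [act4_apply] at this
      simpa [X_zero, chr_apply, pair_prod, pair_field] using this
    refine ⟨h11, ?_⟩
    rintro ⟨b, a, c⟩
    refine Subtype.ext ?_
    have := hx (b, (0 : F), a, c)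
    rw [act4_apply, hre] at this
    simp only [X_zero, mul_one, one_mul] at this
    rw [AddChar.compAddMonoidHom_apply]
    show ((act0 ρ ((0 : F), b, a, c) ⟨x, h11⟩ : fixSp ρ [11]) : V) = _
    rw [act0_apply, X_zero, one_mul, this]
    simp [chr_apply, pair_prod, pair_field]
  · rintro ⟨h11, hx⟩ ⟨b, z, a, c⟩
    have := congrArg Subtype.val (hx (b, a, c))
    rw [AddChar.compAddMonoidHom_apply] at this
    change ((act0 ρ ((0 : F), b, a, c) ⟨x, h11⟩ : fixSp ρ [11]) : V) = _ at this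
    rw [act0_apply] at this
    rw [act4_apply, hre, rho_mul_apply, (mem_fix_one ρ).1 h11 z, this]
    simp [chr_apply, pair_prod, pair_field]

theorem mc_zero_ge (hψ : ψ ≠ 1) (hq : 3 ≤ Fintype.card F) (hv : ∀ v : F, v ≠ 0 →
    m4 ρ h3 ψ 0 0 v 0 = Fintype.card F) :
    Fintype.card F - 1 ≤ mc ρ ψ (0, 0, 0, 0) := by
  classical
  set q := Fintype.card F with hqdef
  let a7 := opW ρ [9, 10, 11] 7 (by decide +kernel)
  let a8 := opW ρ [9, 10, 11] 8 (by decide +kernel)
  let actQ : AddChar (F × F) (Module.End ℂ (fixSp ρ [9, 10, 11])) :=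
    prodAct a7 a8 fun a b => opW_comm ρ (by decide +kernel) a b
  have h8 : ∀ v, mu ψ a8 v = m4 ρ h3 ψ 0 0 v 0 := fun v => by
    rw [m4, mu, mu]
    refine (finrank_eq_of_image _ _ fun x => ?_).symm
    constructor
    · intro hx
      have hmem : x ∈ fixSp ρ [9, 10, 11] := fun r hr t => by
        simp only [List.mem_cons, List.not_mem_nil, or_false] at hr
        rcases hr with rfl | rfl | rfl
        · have := hx ((0 : F), (0 : F), (0 : F), t)
          rw [act4_apply] at this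
          simpa [X_zero, chr_apply, pair_prod, pair_field] using this
        · have := hx (t, (0 : F), (0 : F), (0 : F))
          rw [act4_apply] at this
          simpa [X_zero, chr_apply, pair_prod, pair_field] using this
        · have := hx ((0 : F), t, (0 : F), (0 : F))
          rw [act4_apply] at this
          simpa [X_zero, chr_apply, pair_prod, pair_field] using this
      refine ⟨hmem, fun t => Subtype.ext ?_⟩
      have := hx ((0 : F), (0 : F), t, (0 : F))
      rw [act4_apply] at this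
      show ρ (X 8 t) x = _
      simpa [X_zero, chr_apply, pair_prod, pair_field] using this
    · rintro ⟨hmem, hx⟩ ⟨b, z, a, c⟩
      have := congrArg Subtype.val (hx a)
      change ρ (X 8 a) x = _ at this
      rw [act4_apply, rho_mul_apply, rho_mul_apply, rho_mul_apply, hmem 9 (by decide), this,
        Submodule.coe_smul, map_smul, map_smul, hmem 11 (by decide), hmem 10 (by decide)]
      simp [chr_apply, pair_prod, pair_field]
  have hr : ∀ r ∈ [9, 10, (11 : Fin 12)], ∃ r' ∈ [9, 10, (11 : Fin 12)],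
      chevG2.reflectRoot (1 : Fin 2) r = ((r' : Fin 12) : ℕ) := by decide +kernel
  have hr' : ∀ r' ∈ [9, 10, (11 : Fin 12)], ∃ r ∈ [9, 10, (11 : Fin 12)],
      chevG2.reflectRoot (1 : Fin 2) ((r : Fin 12) : ℕ) = (r' : ℕ) := by decide +kernel
  have h7 : ∀ α : F, α ≠ 0 → mu ψ a7 α = q := fun α hα => by
    obtain ⟨c, hc, -, e⟩ := nn_conj (F := F) 1 8 7 (by decide +kernel)
    rw [show mu ψ a7 α = mu ψ a8 (c * α) from ?_, h8, hv _ (mul_ne_zero hc hα)]
    refine mu_move a8 a7 (resW_inv_mul ρ _ (nn 1)⁻¹ (nn 1) (inv_mul_cancel _)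
      (fun v hv => stab_nn_inv ρ 1 hr hv) (fun v hv => stab_nn ρ 1 hr hr' hv))
      (fun x => c * x) (fun y => ⟨c⁻¹ * y, mul_inv_cancel_left₀ hc y⟩) (fun t => ?_) fun t => ?_
    · refine LinearMap.ext fun x => Subtype.ext ?_
      show ρ (X 7 (c * t)) (ρ (nn 1) (x : V)) = ρ (nn 1) (ρ (X 8 t) (x : V))
      rw [← rho_mul_apply, ← e t, rho_mul_apply]
    · simp only [pair_field]
      ring
  have hsh : ∀ α v u : F, mu ψ actQ (α + v * u, v) = mu ψ actQ (α, v) := by
    intro α v u
    have hs : ([9, 10, 11].all fun r => chkStab [9, 10, 11] (6 : Fin 12) r) = true := by decide +kernel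
    refine (mu_move actQ actQ (resW_inv_mul ρ _ (X 6 (-u)) (X 6 u) (X_cancel 6 u)
      (fun x hx => stab_X ρ hs (-u) hx) (fun x hx => stab_X ρ hs u hx))
      (fun x => (x.1, x.2 + x.1 * u)) (fun y => ⟨(y.1, y.2 - y.1 * u), by simp⟩) ?_ ?_).symm
    · rintro ⟨s, a⟩
      refine LinearMap.ext fun x => Subtype.ext ?_
      show ρ (X 7 s) (ρ (X 8 (a + s * u)) (ρ (X 6 u) (x : V))) =
        ρ (X 6 u) (ρ (X 7 s) (ρ (X 8 a) (x : V)))
      set y : V := ρ (X 8 a) (x : V) with hy
      have hym : y ∈ fixSp ρ [9, 10, 11] := stab_X ρ (by decide +kernel) a x.2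
      have e := congrArg (fun g => ρ g y) (X_swap76 (F := F) s u)
      simp only [rho_mul_apply, hym 9 (by decide), hym 10 (by decide), hym 11 (by decide)] at e
      rw [e, hy]
      simp only [← rho_mul_apply]
      refine congrArg (fun g => ρ g (x : V)) ?_
      rw [X_add, X_comm 6 8 (by decide +kernel), add_comm a]
    · rintro ⟨s, a⟩
      simp only [pair_prod, pair_field]
      ring
  have hsum1 : ∀ v, mu ψ a8 v = ∑ α, mu ψ actQ (α, v) := fun v => by
    rw [← mu_marginal hψ actQ v]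
    congr 1
    refine DFunLike.ext _ _ fun t => LinearMap.ext fun x => Subtype.ext ?_
    show ρ (X 8 t) (x : V) = ρ (X 7 0) (ρ (X 8 t) (x : V))
    rw [X_zero, map_one]; rfl
  have hQ1 : ∀ α v : F, v ≠ 0 → mu ψ actQ (α, v) = 1 := by
    intro α v hv0
    have hc : ∀ α', mu ψ actQ (α', v) = mu ψ actQ (α, v) := fun α' => by
      rw [← hsh α v ((α' - α) / v), mul_div_cancel₀ _ hv0, add_sub_cancel]
    have h := hsum1 v
    rw [h8, hv v hv0, Finset.sum_congr rfl fun α' _ => hc α', Finset.sum_const, Finset.card_univ,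
      smul_eq_mul] at h
    exact ((mul_eq_left₀ (by omega)).1 h.symm)
  have hQ0 : ∀ α : F, α ≠ 0 → mu ψ actQ (α, (0 : F)) = 1 := by
    intro α hα
    have h : mu ψ a7 α = ∑ v, mu ψ actQ (α, v) := by
      refine mu_sum hψ actQ ⟨⟨fun p => (p.2, p.1), rfl⟩, fun _ _ => rfl⟩ (fun y => ⟨(y.2, y.1), rfl⟩)
        (fun p => (p.2, p.1)) (fun p y => ?_) a7 (fun t => LinearMap.ext fun x => Subtype.ext ?_) α
      · simp only [AddMonoidHom.coe_mk, ZeroHom.coe_mk, pair_prod]; ring
      · show ρ (X 7 t) (ρ (X 8 0) (x : V)) = ρ (X 7 t) (x : V)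
        rw [X_zero, map_one]; rfl
    rw [h7 α hα, sum_split (fun v => mu ψ actQ (α, v)) (fun v hv0 => hQ1 α v hv0), mul_one] at h
    omega
  let b6 := opW ρ [8, 9, 10, 11] 6 (by decide +kernel)
  let b7 := opW ρ [8, 9, 10, 11] 7 (by decide +kernel)
  let actK : AddChar (F × F) (Module.End ℂ (fixSp ρ [8, 9, 10, 11])) :=
    prodAct b7 b6 fun a b => opW_comm ρ (by decide +kernel) a b
  have hb7 : ∀ α : F, α ≠ 0 → mu ψ b7 α = 1 := fun α hα => by
    rw [← hQ0 α hα, mu, mu]
    refine finrank_eq_of_images _ _ fun x => ?_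
    constructor
    · rintro ⟨hm, hx⟩
      refine ⟨fun r hr t => hm r (List.mem_cons_of_mem _ hr) t, ?_⟩
      rintro ⟨s, a⟩
      refine Subtype.ext ?_
      show ρ (X 7 s) (ρ (X 8 a) x) = _
      rw [hm 8 (by decide)]
      refine (congrArg Subtype.val (hx s)).trans ?_
      simp [chr_apply, pair_prod, pair_field]
    · rintro ⟨hm, hx⟩
      have h8' : ∀ a, ρ (X 8 a) x = x := fun a => by
        have e := congrArg Subtype.val (hx ((0 : F), a))
        change ρ (X 7 0) (ρ (X 8 a) x) = _ at e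
        simpa [X_zero, chr_apply, pair_prod, pair_field] using e
      have hm' : x ∈ fixSp ρ [8, 9, 10, 11] := fun r hr t => by
        rcases List.mem_cons.1 hr with rfl | hr
        · exact h8' t
        · exact hm r hr t
      refine ⟨hm', fun s => Subtype.ext ?_⟩
      have e := congrArg Subtype.val (hx (s, (0 : F)))
      change ρ (X 7 s) (ρ (X 8 0) x) = _ at e
      show ρ (X 7 s) x = _
      simpa [X_zero, chr_apply, pair_prod, pair_field] using e
  have hscale : ∀ (α : F) (B : Fˣ) (u : F), mu ψ actK (α, (B : F) * u) = mu ψ actK (α, u) := by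
    intro α B u
    refine mu_move actK actK (resW_inv_mul ρ [8, 9, 10, 11] (Tor 1 B) (Tor (1 : Fˣ)⁻¹ B⁻¹) ?_
      (fun x hx => stab_Tor ρ _ _ hx) (fun x hx => stab_Tor ρ _ _ hx))
      (fun x => (x.1, ((B : F))⁻¹ * x.2)) (fun y => ⟨(y.1, (B : F) * y.2), by simp⟩) ?_ ?_
    · simpa using Tor_cancel (1 : Fˣ) B⁻¹
    · rintro ⟨s, a⟩
      refine LinearMap.ext fun x => Subtype.ext ?_
      show ρ (X 7 s) (ρ (X 6 (((B : F))⁻¹ * a)) (ρ (Tor (1 : Fˣ)⁻¹ B⁻¹) (x : V))) =
        ρ (Tor (1 : Fˣ)⁻¹ B⁻¹) (ρ (X 7 s) (ρ (X 6 a) (x : V)))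
      simp only [← rho_mul_apply]
      rw [← mul_assoc (Tor _ _), Tor_conj, mul_assoc, Tor_conj]
      simp [ea, eb]
    · rintro ⟨s, a⟩
      simp only [pair_prod, pair_field]
      field_simp
  have hK : ∀ α : F, α ≠ 0 → mu ψ actK (α, (0 : F)) = 1 := by
    intro α hα
    have h : mu ψ b7 α = ∑ u, mu ψ actK (α, u) := by
      refine mu_sum hψ actK ⟨⟨fun p => (p.2, p.1), rfl⟩, fun _ _ => rfl⟩ (fun y => ⟨(y.2, y.1), rfl⟩)
        (fun p => (p.2, p.1)) (fun p y => ?_) b7 (fun t => LinearMap.ext fun x => Subtype.ext ?_) α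
      · simp only [AddMonoidHom.coe_mk, ZeroHom.coe_mk, pair_prod]; ring
      · show ρ (X 7 t) (ρ (X 6 0) (x : V)) = ρ (X 7 t) (x : V)
        rw [X_zero, map_one]; rfl
    rw [hb7 α hα, sum_split (fun u => mu ψ actK (α, u)) (c := mu ψ actK (α, (1 : F))) (fun u hu => by
      have := hscale α (Units.mk0 u hu) 1
      rwa [Units.val_mk0, mul_one] at this)] at h
    rcases Nat.eq_zero_or_pos (mu ψ actK (α, (1 : F))) with h0 | h0
    · rw [h0, mul_zero, add_zero] at h
      exact h.symm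
    · rw [← hqdef] at h
      have : 2 * 1 ≤ (q - 1) * mu ψ actK (α, (1 : F)) := Nat.mul_le_mul (by omega) h0
      omega
  have hlast : mc ρ ψ (0, 0, 0, 0) = ∑ α, mu ψ actK (α, (0 : F)) := by
    rw [← mu_marginal hψ actK (0 : F), mc_zero, mu]
    refine (finrank_eq_of_image _ _ fun x => ?_)
    constructor
    · intro hx
      have hm : x ∈ fixSp ρ [8, 9, 10, 11] := fun r hr t => hx r (List.mem_cons_of_mem _ hr) t
      refine ⟨hm, fun t => Subtype.ext ?_⟩
      show ρ (X 7 0) (ρ (X 6 t) x) = _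
      rw [hx 6 (by decide)]
      simp [X_zero, chr_apply, pair_field]
    · rintro ⟨hm, hx⟩ r hr t
      rcases List.mem_cons.1 hr with rfl | hr
      · have e := congrArg Subtype.val (hx t)
        change ρ (X 7 0) (ρ (X 6 t) x) = _ at e
        simpa [X_zero, chr_apply, pair_field] using e
      · exact hm r hr t
  rw [hlast, sum_split (fun α => mu ψ actK (α, (0 : F))) hK, mul_one]
  exact Nat.le_add_left _ _

end CfsgLib.G2Deg97
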