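import Cfsg.Agent.G2Deg97.Sums

/-!
Characteristic three: the abelian group of the roots `10, 11, 8, 9` and the symmetries of its weights.
-/

set_option autoImplicit false

namespace CfsgLib.G2Deg97

open Cfsg.Lie CfsgLib.Chevalley CfsgLib.WeightProj65
open SelfDual (pair)

variable {F : Type*} [Field F]

theorem X_comm89 (h3 : (3 : F) = 0) (t u : F) : X 9 u * X 8 t = X 8 t * X 9 u := by
  rw [X_swap_one 8 9 11 (C := 3) (i := 1) (j := 1) (by decide +kernel) t u]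
  push_cast
  rw [h3, zero_mul, zero_mul, X_zero, mul_one]

theorem X_comm79 (h3 : (3 : F) = 0) (t u : F) : X 9 u * X 7 t = X 7 t * X 9 u := by
  rw [X_swap_one 7 9 10 (C := 3) (i := 1) (j := 1) (by decide +kernel) t u]
  push_cast
  rw [h3, zero_mul, zero_mul, X_zero, mul_one]

theorem X_swap78 (h3 : (3 : F) = 0) (t u : F) : X 8 u * X 7 t = X 7 t * X 8 u * X 9 (2 * t * u) := by
  rw [X_swap 7 8 (T := [(9, -2, 1, 1), (10, -3, 2, 1), (11, 3, 1, 2)]) (by decide +kernel) t u]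
  simp only [XW, List.map_cons, List.map_nil, List.prod_cons, List.prod_nil, Int.cast_neg,
    Int.cast_ofNat, h3, neg_zero, zero_mul, X_zero, mul_one, pow_one]
  congr 2
  ring

theorem X_swap76 (t u : F) : X 6 u * X 7 t = X 7 t * X 6 u * (X 8 (t * u) * X 9 (t ^ 2 * u) *
    X 10 (-(t ^ 3 * u)) * X 11 (-(t ^ 3 * u ^ 2))) := by
  rw [X_swap 7 6 (T := [(8, -1, 1, 1), (9, 1, 2, 1), (10, 1, 3, 1), (11, 1, 3, 2)])
    (by decide +kernel) t u]
  congr 1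
  simp only [XW, List.map_cons, List.map_nil, List.prod_cons, List.prod_nil, mul_one, mul_assoc]
  refine congrArg₂ _ (congrArg _ ?_) (congrArg₂ _ (congrArg _ ?_) (congrArg₂ _ (congrArg _ ?_)
    (congrArg _ ?_))) <;> push_cast <;> ring

variable {V : Type*} [AddCommGroup V] [Module ℂ V] (ρ : Representation ℂ ↥(GG F) V) (h3 : (3 : F) = 0)

/-- The action of `(x₁₀, x₁₁, x₈, x₉)` in characteristic three. -/
noncomputable def act4 : AddChar (F × F × F × F) (Module.End ℂ V) :=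
  prodAct (op ρ 10)
    (prodAct (op ρ 11)
      (prodAct (op ρ 8) (op ρ 9) fun a b => by
        rw [op_apply, op_apply, ← map_mul, ← map_mul, X_comm89 h3])
      fun a b => by
        refine (prodAct_comm _ _ _ _ ?_ ?_ b) <;> intro c <;>
          exact op_comm ρ _ _ (by decide +kernel) a c)
    fun a b => by
      refine (prodAct_comm _ _ _ _ ?_ ?_ b)
      · intro c; exact op_comm ρ _ _ (by decide +kernel) a c
      · intro c
        refine (prodAct_comm _ _ _ _ ?_ ?_ c) <;> intro d <;>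
          exact op_comm ρ _ _ (by decide +kernel) a d

theorem act4_apply (b z v w : F) :
    act4 ρ h3 (b, z, v, w) = ρ (X 10 b * (X 11 z * (X 8 v * X 9 w))) := by
  simp only [map_mul]
  rfl

/-- The action of `(x₁₁, x₈, x₉)`. -/
noncomputable def actC : AddChar (F × F × F) (Module.End ℂ V) :=
  (act4 ρ h3).compAddMonoidHom (AddMonoidHom.inr F (F × F × F))

theorem actC_apply (z v w : F) : actC ρ h3 (z, v, w) = ρ (X 11 z * (X 8 v * X 9 w)) := by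
  show act4 ρ h3 (0, z, v, w) = _
  rw [act4_apply, X_zero, one_mul]

variable [Fintype F] [FiniteDimensional ℂ V] (ψ : AddChar F ℂ)

/-- The weights of `(x₁₀, x₁₁, x₈, x₉)`. -/
noncomputable def m4 (β ζ v w : F) : ℕ := mu ψ (act4 ρ h3) (β, ζ, v, w)

omit [Fintype F] in
theorem m4_six (β ζ v w t : F) : m4 ρ h3 ψ (β + t * ζ) ζ v w = m4 ρ h3 ψ β ζ v w := by
  refine (mu_move (act4 ρ h3) (act4 ρ h3) (T := ρ (X 6 t)) (T' := ρ (X 6 (-t)))
    (rho_left_inv ρ (X_cancel 6 t)) (fun x => (x.1, x.2.1 + t * x.1, x.2.2))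
    (fun y => ⟨(y.1, y.2.1 - t * y.1, y.2.2), by simp⟩) ?_ ?_).symm
  · rintro ⟨b, z, a, c⟩
    rw [act4_apply, act4_apply, ← map_mul, ← map_mul]
    refine congrArg ρ ?_
    have e10 : X 10 b * X 6 t = X 6 t * X 10 b * X 11 (-(t * b)) := by
      rw [X_swap_one 6 10 11 (C := 1) (i := 1) (j := 1) (by decide +kernel) t b]
      congr 2
      push_cast
      ring
    have e11 : ∀ u, X 11 u * X 6 t = X 6 t * X 11 u := fun u => X_comm 6 11 (by decide +kernel) _ _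
    have e8 : X 8 a * X 6 t = X 6 t * X 8 a := X_comm 6 8 (by decide +kernel) _ _
    have e9 : X 9 c * X 6 t = X 6 t * X 9 c := X_comm 6 9 (by decide +kernel) _ _
    simp only [mul_assoc]
    rw [e9, ← mul_assoc (X 8 a), e8, mul_assoc, ← mul_assoc (X 11 _) (X 6 t), e11, mul_assoc,
      ← mul_assoc (X 10 b) (X 6 t), e10, mul_assoc, mul_assoc, ← mul_assoc (X 11 _) (X 11 _), X_add,
      neg_add_cancel_comm_assoc]
  · rintro ⟨b, z, a, c⟩
    simp only [pair_prod, pair_field]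
    ring

omit [Fintype F] in
theorem m4_seven (β ζ v w t : F) : m4 ρ h3 ψ β ζ (v + t * w) w = m4 ρ h3 ψ β ζ v w := by
  refine (mu_move (act4 ρ h3) (act4 ρ h3) (T := ρ (X 7 t)) (T' := ρ (X 7 (-t)))
    (rho_left_inv ρ (X_cancel 7 t)) (fun x => (x.1, x.2.1, x.2.2.1, x.2.2.2 - 2 * t * x.2.2.1))
    (fun y => ⟨(y.1, y.2.1, y.2.2.1, y.2.2.2 + 2 * t * y.2.2.1), by simp⟩) ?_ ?_).symm
  · rintro ⟨b, z, a, c⟩
    rw [act4_apply, act4_apply, ← map_mul, ← map_mul]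
    refine congrArg ρ ?_
    have e10 : X 10 b * X 7 t = X 7 t * X 10 b := X_comm 7 10 (by decide +kernel) _ _
    have e11 : X 11 z * X 7 t = X 7 t * X 11 z := X_comm 7 11 (by decide +kernel) _ _
    simp only [mul_assoc]
    rw [X_comm79 h3, ← mul_assoc (X 8 a), X_swap78 h3, mul_assoc, mul_assoc, X_add,
      ← mul_assoc (X 11 z) (X 7 t), e11, mul_assoc, ← mul_assoc (X 10 b) (X 7 t), e10, mul_assoc,
      show 2 * t * a + (c - 2 * (t * a)) = c by ring]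
  · rintro ⟨b, z, a, c⟩
    simp only [pair_prod, pair_field]
    linear_combination (-w * t * a) * h3

omit [Fintype F] in
theorem m4_scale (A B : Fˣ) (β ζ v w : F) : m4 ρ h3 ψ ((A : F) ^ 3 * B * β) ((A : F) ^ 3 * B ^ 2 * ζ)
    ((A : F) * B * v) ((A : F) ^ 2 * B * w) = m4 ρ h3 ψ β ζ v w := by
  refine mu_move (act4 ρ h3) (act4 ρ h3) (T := ρ (Tor A⁻¹ B⁻¹)) (T' := ρ (Tor A B))
    (rho_left_inv ρ (by simpa using Tor_cancel (A⁻¹) (B⁻¹)))
    (fun x => (((A : F) ^ 3 * B)⁻¹ * x.1, ((A : F) ^ 3 * B ^ 2)⁻¹ * x.2.1, ((A : F) * B)⁻¹ * x.2.2.1,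
      ((A : F) ^ 2 * B)⁻¹ * x.2.2.2))
    (fun y => ⟨((A : F) ^ 3 * B * y.1, (A : F) ^ 3 * B ^ 2 * y.2.1, (A : F) * B * y.2.2.1,
      (A : F) ^ 2 * B * y.2.2.2), by
        refine Prod.ext ?_ (Prod.ext ?_ (Prod.ext ?_ ?_)) <;>
          exact inv_mul_cancel_left₀ (mul_ne_zero (by simp) (by simp)) _⟩) ?_ ?_
  · rintro ⟨b, z, a, c⟩
    rw [act4_apply, act4_apply, ← map_mul, ← map_mul]
    refine congrArg ρ ?_
    simp only [← mul_assoc, Tor_conj]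
    simp only [mul_assoc, Tor_conj]
    simp only [← mul_assoc]
    congr 5 <;> simp [ea, eb, zpow_ofNat, mul_comm]
  · rintro ⟨b, z, a, c⟩
    have hA := A.ne_zero
    have hB := B.ne_zero
    simp only [pair_prod, pair_field]
    field_simp

theorem sum_actC (hψ : ψ ≠ 1) (ζ v w : F) :
    mu ψ (actC ρ h3) (ζ, v, w) = ∑ β, m4 ρ h3 ψ β ζ v w := mu_marginal hψ (act4 ρ h3) (ζ, v, w)

theorem sum_actC_ne (hψ : ψ ≠ 1) {ζ : F} (hζ : ζ ≠ 0) (v w : F) :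
    mu ψ (actC ρ h3) (ζ, v, w) = Fintype.card F * m4 ρ h3 ψ 0 ζ v w := by
  rw [sum_actC ρ h3 ψ hψ, Finset.sum_congr rfl fun β _ => ?_, Finset.sum_const, Finset.card_univ,
    smul_eq_mul]
  have := m4_six ρ h3 ψ 0 ζ v w (β / ζ)
  rwa [zero_add, div_mul_cancel₀ _ hζ] at this

omit [Fintype F] in
theorem actC_nn : ∃ c₁ c₂ c₃ : F, c₁ ≠ 0 ∧ c₂ ≠ 0 ∧ c₃ ≠ 0 ∧ ∀ ζ v w,
    mu ψ (actC ρ h3) (ζ, v, w) = mu ψ (actC ρ h3) (c₁ * ζ, c₂ * w, c₃ * v) := by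
  obtain ⟨c11, h11, -, e11⟩ := nn_conj (F := F) 0 11 11 (by decide +kernel)
  obtain ⟨c8, h8, -, e8⟩ := nn_conj (F := F) 0 8 9 (by decide +kernel)
  obtain ⟨c9, h9, -, e9⟩ := nn_conj (F := F) 0 9 8 (by decide +kernel)
  refine ⟨c11, c8, c9, h11, h8, h9, fun ζ v w => ?_⟩
  refine mu_move (actC ρ h3) (actC ρ h3) (T := ρ (nn 0)) (T' := ρ (nn 0)⁻¹)
    (rho_left_inv ρ (inv_mul_cancel _)) (fun x => (c11 * x.1, c9 * x.2.2, c8 * x.2.1))
    (fun y => ⟨(c11⁻¹ * y.1, c8⁻¹ * y.2.2, c9⁻¹ * y.2.1), by simp [h11, h8, h9]⟩) ?_ ?_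
  · rintro ⟨z, a, b⟩
    rw [actC_apply, actC_apply, ← map_mul, ← map_mul]
    refine congrArg ρ ?_
    rw [X_comm89 h3 a b |>.symm, ← mul_assoc (nn 0), e11, mul_assoc _ (nn 0), ← mul_assoc (nn 0), e9,
      mul_assoc _ (nn 0), e8]
    simp only [mul_assoc]
  · rintro ⟨z, a, b⟩
    simp only [pair_prod, pair_field]
    ring

theorem sum_actP (hψ : ψ ≠ 1) (w β ζ : F) :
    mu ψ (actP ρ) (w, β, ζ) = ∑ v, m4 ρ h3 ψ β ζ v w := by
  refine mu_sum hψ (act4 ρ h3) ⟨⟨fun p => (p.2.2.1, p.2.2.2, p.1, p.2.1), rfl⟩, fun _ _ => rfl⟩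
    (fun y => ⟨(y.2.2.1, y.2.2.2, y.1, y.2.1), rfl⟩) (fun p => (p.2.2.1, p.2.2.2, p.1, p.2.1))
    (fun p y => ?_) (actP ρ) (fun y => ?_) (w, β, ζ)
  · simp only [AddMonoidHom.coe_mk, ZeroHom.coe_mk, pair_prod]
    ring
  · obtain ⟨a, b, z⟩ := y
    simp only [AddMonoidHom.coe_mk, ZeroHom.coe_mk, act4_apply, actP, actB, prodAct_apply, op_apply,
      ← map_mul, X_zero, one_mul]
    refine congrArg ρ ?_
    rw [← mul_assoc (X 9 a), ← X_comm 9 10 (by decide +kernel), mul_assoc,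
      ← X_comm 9 11 (by decide +kernel)]

omit [Fintype F] in
theorem actP_nn : ∃ c₁ c₂ c₃ : F, c₁ ≠ 0 ∧ c₂ ≠ 0 ∧ c₃ ≠ 0 ∧ ∀ w β ζ,
    mu ψ (actP ρ) (w, β, ζ) = mu ψ (actP ρ) (c₁ * w, c₂ * ζ, c₃ * β) := by
  obtain ⟨c9, h9, -, e9⟩ := nn_conj (F := F) 1 9 9 (by decide +kernel)
  obtain ⟨c10, h10, -, e10⟩ := nn_conj (F := F) 1 10 11 (by decide +kernel)
  obtain ⟨c11, h11, -, e11⟩ := nn_conj (F := F) 1 11 10 (by decide +kernel)
  refine ⟨c9, c10, c11, h9, h10, h11, fun w β ζ => ?_⟩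
  refine mu_move (actP ρ) (actP ρ) (T := ρ (nn 1)) (T' := ρ (nn 1)⁻¹)
    (rho_left_inv ρ (inv_mul_cancel _)) (fun x => (c9 * x.1, c11 * x.2.2, c10 * x.2.1))
    (fun y => ⟨(c9⁻¹ * y.1, c10⁻¹ * y.2.2, c11⁻¹ * y.2.1), by simp [h9, h10, h11]⟩) ?_ ?_
  · rintro ⟨a, b, z⟩
    simp only [actP, actB, prodAct_apply, op_apply, ← map_mul]
    refine congrArg ρ ?_
    rw [← mul_assoc (nn 1), e9, mul_assoc, mul_assoc, mul_assoc]
    refine congrArg _ ?_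
    rw [← X_comm 10 11 (by decide +kernel) b z, ← mul_assoc (nn 1) (X 11 z), e11, mul_assoc, e10]
  · rintro ⟨a, b, z⟩
    simp only [pair_prod, pair_field]
    ring

theorem sum_m4 (hψ : ψ ≠ 1) :
    ∑ β : F, ∑ ζ : F, ∑ v : F, ∑ w : F, m4 ρ h3 ψ β ζ v w = Module.finrank ℂ V := by
  rw [← sum_mu hψ (act4 ρ h3)]
  simp only [Fintype.sum_prod_type, m4]

end CfsgLib.G2Deg97
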