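import Cfsg.Agent.G2Deg97.Counts
import Mathlib.Analysis.Complex.Polynomial.Basic
import Mathlib.LinearAlgebra.Eigenspace.Triangularizable
import Mathlib.RepresentationTheory.Irreducible

/-!
Averages over chains of root subgroups, stable lines and Schur's lemma.
-/

set_option autoImplicit false

namespace CfsgLib.G2Deg97

open Cfsg.Lie CfsgLib.Chevalley CfsgLib.WeightProj65
open SelfDual (pair)

theorem scalar_of_commute {G W : Type*} [Group G] [AddCommGroup W] [Module ℂ W] [FiniteDimensional ℂ W]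
    (σ : Representation ℂ G W) (hσ : σ.IsIrreducible) [Nontrivial W] (T : Module.End ℂ W)
    (h : ∀ g, T * σ g = σ g * T) : ∃ s : ℂ, T = s • 1 := by
  obtain ⟨s, hs⟩ := Module.End.exists_eigenvalue T
  let U : Subrepresentation σ := ⟨T.eigenspace s, fun g w hw => by
    rw [Module.End.mem_eigenspace_iff] at hw ⊢
    rw [← Module.End.mul_apply, h, Module.End.mul_apply, hw, map_smul]⟩
  have := hσ
  refine ⟨s, ?_⟩
  rcases eq_bot_or_eq_top U with e | e
  · exact absurd (congrArg Subrepresentation.toSubmodule e) hs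
  · refine LinearMap.ext fun w => ?_
    have : w ∈ T.eigenspace s := by
      rw [show T.eigenspace s = ⊤ from congrArg Subrepresentation.toSubmodule e]
      trivial
    exact Module.End.mem_eigenspace_iff.1 this

variable {F : Type*} [Field F] {V : Type*} [AddCommGroup V] [Module ℂ V]
  (ρ : Representation ℂ ↥(GG F) V)

theorem rho_mul_apply (g h : ↥(GG F)) (v : V) : ρ (g * h) v = ρ g (ρ h v) := by
  rw [map_mul, Module.End.mul_apply]

theorem stab_nn_inv {R : List (Fin 12)} (i : Fin 2)
    (h : ∀ r ∈ R, ∃ r' ∈ R, chevG2.reflectRoot i r = ((r' : Fin 12) : ℕ))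
    {v : V} (hv : v ∈ fixSp ρ R) : ρ (nn i)⁻¹ v ∈ fixSp ρ R := fun r hr t => by
  obtain ⟨r', hr', e⟩ := h r hr
  obtain ⟨c, hc, -, hct⟩ := nn_conj (F := F) i r r' e
  have e' : X r t * (nn i)⁻¹ = (nn i)⁻¹ * X r' (c * t) := by
    rw [eq_inv_mul_iff_mul_eq, ← mul_assoc, hct, mul_inv_cancel_right]
  rw [← rho_mul_apply, e', rho_mul_apply, hv r' hr']

/-- The check that the fixed spaces along a chain of roots are stable. -/
def chainOK : List (Fin 12) → Bool
  | [] => true
  | r :: R => (R.all fun x => chkStab R r x) && chainOK R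

/-- The check that a root commutes with the average along a chain. -/
def commOK : List (Fin 12) → Fin 12 → Bool
  | [], _ => true
  | r :: R, s => chkStab R s r && commOK R s

/-- The check that a root is absorbed by the average along a chain. -/
def absOK : List (Fin 12) → Fin 12 → Bool
  | [], _ => false
  | r :: R, s => (decide (r = s) && commOK R s) || absOK R s

variable [Fintype F]

/-- The average along a chain of root subgroups. -/
noncomputable def eF : List (Fin 12) → Module.End ℂ V
  | [] => 1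
  | r :: R => proj (op ρ r) 1 * eF R

theorem proj_one_apply (r : Fin 12) (w : V) :
    proj (op ρ r) 1 w = (Fintype.card F : ℂ)⁻¹ • ∑ t, ρ (X r t) w := by
  simp [proj, op_apply]

theorem eF_mem : ∀ {R : List (Fin 12)}, chainOK R = true → ∀ w : V, eF ρ R w ∈ fixSp ρ R
  | [], _, _ => fun r hr => absurd hr List.not_mem_nil
  | r :: R, h, w => by
    simp only [chainOK, Bool.and_eq_true] at h
    intro r' hr' t
    rw [eF, Module.End.mul_apply]
    rcases List.mem_cons.1 hr' with rfl | hr'
    · have := proj_mem (op ρ r') 1 (eF ρ R w) t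
      rwa [AddChar.one_apply, one_smul, op_apply] at this
    · have hm : proj (op ρ r) 1 (eF ρ R w) ∈ fixSp ρ R := by
        rw [proj_one_apply]
        exact Submodule.smul_mem _ _ (Submodule.sum_mem _ fun u _ => stab_X ρ h.1 u (eF_mem h.2 w))
      exact hm r' hr' t

theorem eF_fix : ∀ {R : List (Fin 12)} {v : V}, v ∈ fixSp ρ R → eF ρ R v = v
  | [], _, _ => rfl
  | r :: R, v, hv => by
    rw [eF, Module.End.mul_apply, eF_fix (R := R) fun r' hr' => hv r' (List.mem_cons_of_mem _ hr')]
    exact proj_apply_mem _ fun t => by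
      rw [AddChar.one_apply, one_smul, op_apply]
      exact hv r List.mem_cons_self t

theorem eF_comm : ∀ {R : List (Fin 12)}, chainOK R = true → ∀ {s : Fin 12}, commOK R s = true →
    ∀ (u : F) (w : V), eF ρ R (ρ (X s u) w) = ρ (X s u) (eF ρ R w)
  | [], _, _, _, _, _ => rfl
  | r :: R, hc, s, h, u, w => by
    simp only [chainOK, Bool.and_eq_true] at hc
    simp only [commOK, Bool.and_eq_true] at h
    rw [eF, Module.End.mul_apply, Module.End.mul_apply, eF_comm hc.2 h.2, proj_one_apply,
      proj_one_apply, map_smul, map_sum]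
    exact congrArg _ (Finset.sum_congr rfl fun t _ => swap_fix ρ h.1 t u (eF_mem ρ hc.2 w))

theorem eF_abs : ∀ {R : List (Fin 12)}, chainOK R = true → ∀ {s : Fin 12}, absOK R s = true →
    ∀ (u : F) (w : V), eF ρ R (ρ (X s u) w) = eF ρ R w
  | [], _, _, h, _, _ => Bool.noConfusion h
  | r :: R, hc, s, h, u, w => by
    simp only [chainOK, Bool.and_eq_true] at hc
    simp only [absOK, Bool.or_eq_true, Bool.and_eq_true, decide_eq_true_eq] at h
    rw [eF, Module.End.mul_apply, Module.End.mul_apply]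
    rcases h with ⟨rfl, h⟩ | h
    · rw [eF_comm ρ hc.2 h, ← op_apply ρ r u, ← Module.End.mul_apply, proj_comm_act, act_mul_proj,
        AddChar.one_apply, one_smul]
    · rw [eF_abs hc.2 h]

theorem eF_Tor (A B : Fˣ) : ∀ (R : List (Fin 12)) (w : V),
    eF ρ R (ρ (Tor A B) w) = ρ (Tor A B) (eF ρ R w)
  | [], _ => rfl
  | r :: R, w => by
    rw [eF, Module.End.mul_apply, Module.End.mul_apply, eF_Tor A B R, proj_one_apply, proj_one_apply,
      map_smul, map_sum]
    congr 1
    refine (Fintype.sum_equiv (Equiv.mulLeft₀ _ (Units.ne_zero (A ^ ea r * B ^ eb r))) _ _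
      fun t => ?_).symm
    show _ = ρ (X r (_ * t)) _
    rw [← rho_mul_apply, ← rho_mul_apply, Tor_conj, Units.mk0_val]

variable [FiniteDimensional ℂ V]

omit [Fintype F] [FiniteDimensional ℂ V] in
theorem exists_smul_of_finrank_one {W : Submodule ℂ V} (h : Module.finrank ℂ W = 1) {v : V}
    (hv : v ∈ W) (hv0 : v ≠ 0) {w : V} (hw : w ∈ W) : ∃ c : ℂ, c • v = w := by
  obtain ⟨c, hc⟩ := (finrank_eq_one_iff_of_nonzero' (⟨v, hv⟩ : W) (fun h0 => hv0
    (congrArg Subtype.val h0))).1 h ⟨w, hw⟩
  exact ⟨c, congrArg Subtype.val hc⟩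

omit [Fintype F] [FiniteDimensional ℂ V] in
/-- A root subgroup moved by a torus fixes the vector of a stable line. -/
theorem fix_of_line (hq : ∃ a : F, a ≠ 0 ∧ a + 1 ≠ 0) {v : V} (hv : v ≠ 0)
    (hT : ∀ A B : Fˣ, ∃ c : ℂ, c • v = ρ (Tor A B) v) (r : Fin 12)
    (hr : ∀ s : Fˣ, ∃ A B : Fˣ, A ^ ea r * B ^ eb r = s)
    (hline : ∀ t : F, ∃ c : ℂ, c • v = ρ (X r t) v) (t : F) : ρ (X r t) v = v := by
  choose χ hχ using hline
  have hadd : ∀ a b, χ (a + b) = χ a * χ b := fun a b => by
    refine smul_left_injective ℂ hv (show χ (a + b) • v = (χ a * χ b) • v from ?_)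
    rw [hχ, ← X_add, rho_mul_apply, ← hχ b, map_smul, ← hχ a, smul_smul, mul_comm]
  have h0 : χ 0 = 1 := smul_left_injective ℂ hv (show χ 0 • v = (1 : ℂ) • v by
    rw [hχ, X_zero, map_one, one_smul]; rfl)
  have hne : ∀ a, χ a ≠ 0 := fun a h => by
    have := hadd a (-a)
    rw [add_neg_cancel, h0, h, zero_mul] at this
    exact one_ne_zero this
  have hconst : ∀ a, a ≠ 0 → χ a = χ 1 := fun a ha => by
    obtain ⟨A, B, hAB⟩ := hr (Units.mk0 a ha)
    obtain ⟨c, hc⟩ := hT A B
    have hc0 : c ≠ 0 := fun h0' => by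
      rw [h0', zero_smul] at hc
      have := congrArg (ρ (Tor A⁻¹ B⁻¹)) hc
      rw [map_zero, ← rho_mul_apply, Tor_cancel, map_one] at this
      exact hv this.symm
    have e := congrArg (fun g => ρ g v) (Tor_conj A B r 1)
    simp only [rho_mul_apply] at e
    rw [hAB, Units.val_mk0, mul_one, ← hχ 1, map_smul, ← hc, map_smul, ← hχ a, smul_smul,
      smul_smul] at e
    exact mul_right_cancel₀ hc0 ((smul_left_injective ℂ hv e).trans (mul_comm _ _)).symm
  obtain ⟨a, ha, ha1⟩ := hq
  have h1 := hadd a 1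
  rw [hconst _ ha1, hconst a ha] at h1
  rw [← hχ]
  rcases eq_or_ne t 0 with rfl | ht
  · rw [h0, one_smul]
  · rw [hconst t ht, (mul_eq_left₀ (hne 1)).1 h1.symm, one_smul]

theorem mc_zero (ψ : AddChar F ℂ) :
    mc ρ ψ (0, 0, 0, 0) = Module.finrank ℂ (fixSp ρ [6, 8, 9, 10, 11]) := by
  have key : fixSp ρ [6, 8, 9, 10, 11] =
      (wt (act0 ρ) (chr ψ ((0, 0, 0, 0) : F × F × F × F))).map (fixSp ρ [11]).subtype := by
    ext v
    simp only [Submodule.mem_map, Submodule.coe_subtype, mem_wt, Subtype.exists, Prod.forall]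
    constructor
    · intro hv
      refine ⟨v, (mem_fix_one ρ).2 fun t => hv 11 (by decide) t, fun u b a w => Subtype.ext ?_, rfl⟩
      rw [act0_apply]
      simp only [rho_mul_apply, hv 6 (by decide), hv 8 (by decide), hv 9 (by decide), hv 10 (by decide)]
      simp [pair_prod, pair_field]
    · rintro ⟨w, hw, hwt, rfl⟩
      have e : ∀ u b a c : F, ρ (X 6 u * (X 10 b * (X 8 a * X 9 c))) w = w := fun u b a c => by
        have := congrArg Subtype.val (hwt u b a c)
        rw [act0_apply] at this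
        simpa [pair_prod, pair_field] using this
      intro r hr t
      simp only [List.mem_cons, List.not_mem_nil, or_false] at hr
      rcases hr with rfl | rfl | rfl | rfl | rfl
      · simpa [X_zero] using e t 0 0 0
      · simpa [X_zero] using e 0 0 t 0
      · simpa [X_zero] using e 0 0 0 t
      · simpa [X_zero] using e 0 t 0 0
      · exact (mem_fix_one ρ).1 hw t
  rw [key, Submodule.finrank_map_subtype_eq, mc, mu]
  exact congrArg (fun z : F => Module.finrank ℂ (wt (act0 ρ) (chr ψ ((0, z, 0, 0) : F × F × F × F))))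
    neg_zero.symm |>.symm

omit [Fintype F] [FiniteDimensional ℂ V] in
theorem conj_coeff_ne_zero {g : ↥(GG F)} {r r' : Fin 12} {c : F}
    (h : ∀ t, g * X r t = X r' (c * t) * g) : c ≠ 0 := by
  rintro rfl
  have := h 1
  rw [zero_mul, X_zero, one_mul, mul_eq_left] at this
  exact one_ne_zero ((X_eq_one_iff r (1 : F)).1 this)

omit [Fintype F] [FiniteDimensional ℂ V] in
theorem move_fix {g : ↥(GG F)} {r r' : Fin 12} {c : F} (h : ∀ t, g * X r t = X r' (c * t) * g) {w : V}
    (hw : ∀ t, ρ (X r t) w = w) (t : F) : ρ (X r' t) (ρ g w) = ρ g w := by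
  have hc := conj_coeff_ne_zero h
  have := congrArg (fun x => ρ x w) (h (c⁻¹ * t))
  rw [mul_inv_cancel_left₀ hc] at this
  simp only [rho_mul_apply, hw] at this
  exact this.symm

omit [FiniteDimensional ℂ V] [Fintype F] in
/-- Operators restricted to a stable subspace. -/
noncomputable def restrictAct {M : Type*} [AddCommGroup M] (f : AddChar M (Module.End ℂ V))
    (W : Submodule ℂ V) (hW : ∀ t, ∀ v ∈ W, f t v ∈ W) : AddChar M (Module.End ℂ W) where
  toFun t := (f t).restrict (hW t)
  map_zero_eq_one' := LinearMap.ext fun v => Subtype.ext (by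
    rw [LinearMap.coe_restrict_apply, AddChar.map_zero_eq_one]; rfl)
  map_add_eq_mul' a b := LinearMap.ext fun v => Subtype.ext (by
    rw [LinearMap.coe_restrict_apply, AddChar.map_add_eq_mul]; rfl)

omit [FiniteDimensional ℂ V] [Fintype F] in
theorem restrictAct_apply {M : Type*} [AddCommGroup M] (f : AddChar M (Module.End ℂ V))
    (W : Submodule ℂ V) (hW : ∀ t, ∀ v ∈ W, f t v ∈ W) (t : M) (v : W) :
    ((restrictAct f W hW t v : W) : V) = f t v := rfl

end CfsgLib.G2Deg97
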