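import Cfsg.Agent.WeightProj65
import Mathlib.Algebra.Group.AddChar
import Mathlib.Algebra.Group.Pi.Lemmas

/-!
Weights of commuting operators indexed by coordinate tuples over a finite field.
-/

set_option autoImplicit false

namespace CfsgLib.G2Deg97

open CfsgLib.WeightProj65

/-- A perfect pairing of a coordinate group with itself. -/
class SelfDual (F : Type*) [Field F] (M : Type*) [AddCommGroup M] where
  pair : M → M → F
  add_right : ∀ a x y, pair a (x + y) = pair a x + pair a y
  add_left : ∀ a b x, pair (a + b) x = pair a x + pair b x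
  surj : ∀ a, a ≠ 0 → ∀ c, ∃ x, pair a x = c

open SelfDual (pair)

instance selfDualField (F : Type*) [Field F] : SelfDual F F where
  pair a x := a * x
  add_right := mul_add
  add_left := add_mul
  surj a ha c := ⟨a⁻¹ * c, mul_inv_cancel_left₀ ha c⟩

theorem pair_zero_left {F : Type*} [Field F] {M : Type*} [AddCommGroup M] [SelfDual F M] (x : M) :
    pair (F := F) (0 : M) x = 0 := by
  have h := SelfDual.add_left (F := F) (0 : M) 0 x
  rwa [add_zero, left_eq_add] at h

theorem pair_zero_right {F : Type*} [Field F] {M : Type*} [AddCommGroup M] [SelfDual F M] (a : M) :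
    pair (F := F) a (0 : M) = 0 := by
  have h := SelfDual.add_right (F := F) a (0 : M) 0
  rwa [add_zero, left_eq_add] at h

instance selfDualProd (F : Type*) [Field F] (A B : Type*) [AddCommGroup A] [AddCommGroup B]
    [SelfDual F A] [SelfDual F B] : SelfDual F (A × B) where
  pair a x := pair a.1 x.1 + pair a.2 x.2
  add_right a x y := by simp only [Prod.fst_add, Prod.snd_add, SelfDual.add_right]; abel
  add_left a b x := by simp only [Prod.fst_add, Prod.snd_add, SelfDual.add_left]; abel
  surj a ha c := by
    by_cases h1 : a.1 = 0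
    · have h2 : a.2 ≠ 0 := fun h2 => ha (Prod.ext h1 h2)
      obtain ⟨x, hx⟩ := SelfDual.surj (F := F) a.2 h2 c
      exact ⟨(0, x), by simp [pair_zero_right, hx]⟩
    · obtain ⟨x, hx⟩ := SelfDual.surj (F := F) a.1 h1 c
      exact ⟨(x, 0), by simp [pair_zero_right, hx]⟩

theorem pair_prod {F : Type*} [Field F] {A B : Type*} [AddCommGroup A] [AddCommGroup B]
    [SelfDual F A] [SelfDual F B] (a x : A × B) :
    pair (F := F) a x = pair a.1 x.1 + pair a.2 x.2 := rfl

theorem pair_field {F : Type*} [Field F] (a x : F) : pair a x = a * x := rfl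

variable {F : Type*} [Field F] {ψ : AddChar F ℂ} {M : Type*} [AddCommGroup M] [SelfDual F M]

/-- The character of a coordinate tuple. -/
def chr (ψ : AddChar F ℂ) (a : M) : AddChar M ℂ where
  toFun x := ψ (pair a x)
  map_zero_eq_one' := by rw [pair_zero_right, AddChar.map_zero_eq_one]
  map_add_eq_mul' x y := by rw [SelfDual.add_right, AddChar.map_add_eq_mul]

theorem chr_apply (a x : M) : chr ψ a x = ψ (pair a x) := rfl

theorem chr_zero : chr ψ (0 : M) = 1 := by
  ext x
  rw [chr_apply, pair_zero_left, AddChar.map_zero_eq_one, AddChar.one_apply]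

theorem chr_bijective [Fintype M] (hψ : ψ ≠ 1) : Function.Bijective (chr ψ : M → AddChar M ℂ) := by
  classical
  refine (Fintype.bijective_iff_injective_and_card _).2 ⟨fun a b h => ?_, (AddChar.card_eq).symm⟩
  by_contra hne
  obtain ⟨w, hw⟩ := AddChar.ne_one_iff.1 hψ
  obtain ⟨x, hx⟩ := SelfDual.surj (F := F) (a - b) (sub_ne_zero.2 hne) w
  have e := SelfDual.add_left (F := F) (a - b) b x
  rw [sub_add_cancel] at e
  have h' := DFunLike.congr_fun h x
  rw [chr_apply, chr_apply, e, AddChar.map_add_eq_mul, hx] at h'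
  refine hw (mul_right_cancel₀ ?_ (h'.trans (one_mul _).symm))
  intro h0
  have := AddChar.map_add_eq_mul ψ (pair b x) (-pair b x)
  rw [add_neg_cancel, AddChar.map_zero_eq_one, h0, zero_mul] at this
  exact one_ne_zero this

variable {V : Type*} [AddCommGroup V] [Module ℂ V]

/-- The dimension of the weight space of a coordinate tuple. -/
noncomputable def mu (ψ : AddChar F ℂ) (act : AddChar M (Module.End ℂ V)) (a : M) : ℕ :=
  Module.finrank ℂ (wt act (chr ψ a))

theorem mem_wt (act : AddChar M (Module.End ℂ V)) (a : M) (v : V) :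
    v ∈ wt act (chr ψ a) ↔ ∀ x, act x v = ψ (pair a x) • v := Iff.rfl

variable [FiniteDimensional ℂ V]

theorem mu_eq_zero_iff (act : AddChar M (Module.End ℂ V)) (a : M) :
    mu ψ act a = 0 ↔ wt act (chr ψ a) = ⊥ := Submodule.finrank_eq_zero

theorem exists_of_mu_pos (act : AddChar M (Module.End ℂ V)) {a : M} (h : mu ψ act a ≠ 0) :
    ∃ v, v ≠ 0 ∧ ∀ x, act x v = ψ (pair a x) • v := by
  obtain ⟨v, hv, hv0⟩ := Submodule.exists_mem_ne_zero_of_ne_bot (mt (mu_eq_zero_iff act a).2 h)
  exact ⟨v, hv0, hv⟩

theorem mu_pos_of_mem (act : AddChar M (Module.End ℂ V)) {a : M} {v : V} (hv0 : v ≠ 0)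
    (hv : ∀ x, act x v = ψ (pair a x) • v) : 1 ≤ mu ψ act a :=
  Nat.one_le_iff_ne_zero.2 fun h => hv0 ((Submodule.eq_bot_iff _).1 ((mu_eq_zero_iff act a).1 h) v hv)

theorem sum_mu [Fintype M] (hψ : ψ ≠ 1) (act : AddChar M (Module.End ℂ V)) :
    ∑ a, mu ψ act a = Module.finrank ℂ V := by
  rw [← sum_finrank act]
  exact (chr_bijective hψ).sum_comp fun φ => Module.finrank ℂ (wt act φ)

theorem trace_eq [Fintype M] (hψ : ψ ≠ 1) (act : AddChar M (Module.End ℂ V)) (x : M) :
    LinearMap.trace ℂ V (act x) = ∑ a, ψ (pair a x) * (mu ψ act a : ℂ) := by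
  rw [trace_act act x]
  exact ((chr_bijective hψ).sum_comp fun φ => φ x * (Module.finrank ℂ (wt act φ) : ℂ)).symm

/-- Weights transported by an invertible operator. -/
theorem mu_move (act act' : AddChar M (Module.End ℂ V)) {T T' : Module.End ℂ V} (hT : T' * T = 1)
    (L : M → M) (hL : Function.Surjective L) (h : ∀ x, act' (L x) * T = T * act x) {a b : M}
    (hab : ∀ x, pair (F := F) b (L x) = pair a x) : mu ψ act' b = mu ψ act a := by
  have hT2 : T * T' = 1 := mul_eq_one_comm.1 hT
  refine le_antisymm ?_ ?_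
  · have hm : ∀ v ∈ wt act' (chr ψ b), T' v ∈ wt act (chr ψ a) := fun v hv x => by
      have h1 : act x * T' = T' * act' (L x) := by
        calc act x * T' = T' * (T * act x) * T' := by rw [← mul_assoc T', hT, one_mul]
          _ = T' * act' (L x) := by rw [← h, mul_assoc, mul_assoc, hT2, mul_one]
      have h2 : act x (T' v) = T' (act' (L x) v) := LinearMap.congr_fun h1 v
      rw [h2, hv (L x), map_smul, chr_apply, chr_apply, hab]
    refine LinearMap.finrank_le_finrank_of_injective (f := T'.restrict hm) fun v w hvw => ?_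
    refine Subtype.ext ?_
    have h' := congrArg (fun x : wt act (chr ψ a) => T (x : V)) hvw
    simpa [← Module.End.mul_apply, hT2] using h'
  · have hm : ∀ v ∈ wt act (chr ψ a), T v ∈ wt act' (chr ψ b) := fun v hv y => by
      obtain ⟨x, rfl⟩ := hL y
      have h2 : act' (L x) (T v) = T (act x v) := LinearMap.congr_fun (h x) v
      rw [h2, hv x, map_smul, chr_apply, chr_apply, hab]
    refine LinearMap.finrank_le_finrank_of_injective (f := T.restrict hm) fun v w hvw => ?_
    refine Subtype.ext ?_
    have h' := congrArg (fun x : wt act' (chr ψ b) => T' (x : V)) hvw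
    simpa [← Module.End.mul_apply, hT] using h'

/-- The multiplicities of a partial action are the sums over the fibres. -/
theorem mu_marginal {A B : Type*} [AddCommGroup A] [AddCommGroup B] [Fintype A] [Fintype B]
    [SelfDual F A] [SelfDual F B] (hψ : ψ ≠ 1) (act : AddChar (A × B) (Module.End ℂ V)) (b : B) :
    mu ψ (act.compAddMonoidHom (AddMonoidHom.inr A B)) b = ∑ a, mu ψ act (a, b) := by
  classical
  set act' := act.compAddMonoidHom (AddMonoidHom.inr A B) with hact
  have hprod : ∀ p : A × B, proj act' (chr ψ b) * proj act (chr ψ p) =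
      if p.2 = b then proj act (chr ψ p) else 0 := by
    intro p
    have h1 : ∀ y, act' y * proj act (chr ψ p) = chr ψ p.2 y • proj act (chr ψ p) := fun y => by
      show act (0, y) * proj act (chr ψ p) = _
      rw [act_mul_proj, chr_apply, chr_apply, pair_prod, pair_zero_right, zero_add]
    conv_lhs => rw [show proj act' (chr ψ b) =
      (Fintype.card B : ℂ)⁻¹ • ∑ y, chr ψ b (-y) • act' y from rfl]
    rw [smul_mul_assoc, Finset.sum_mul]
    simp only [smul_mul_assoc, h1, smul_smul, ← Finset.sum_smul]
    split_ifs with hp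
    · have h2 : ∀ y, chr ψ b (-y) * chr ψ p.2 y = 1 := fun y => by
        rw [hp, ← AddChar.map_add_eq_mul, neg_add_cancel, AddChar.map_zero_eq_one]
      simp only [h2, Finset.sum_const, Finset.card_univ, nsmul_eq_mul, mul_one]
      rw [inv_mul_cancel₀ (Nat.cast_ne_zero.2 Fintype.card_ne_zero), one_smul]
    · have h2 : ∑ y, chr ψ b (-y) * chr ψ p.2 y = 0 := by
        have h3 := AddChar.sum_eq_ite ((chr ψ b)⁻¹ * chr ψ p.2)
        rw [if_neg] at h3
        · simpa [AddChar.mul_apply, AddChar.inv_apply] using h3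
        · intro hc
          exact hp ((chr_bijective hψ).1 (inv_mul_eq_one.1 hc)).symm
      rw [h2, mul_zero, zero_smul]
  have key : proj act' (chr ψ b) = ∑ a, proj act (chr ψ (a, b)) := by
    calc proj act' (chr ψ b) = proj act' (chr ψ b) * ∑ φ, proj act φ := by rw [sum_proj, mul_one]
      _ = proj act' (chr ψ b) * ∑ p : A × B, proj act (chr ψ p) := by
          congr 1
          exact ((chr_bijective hψ).sum_comp _).symm
      _ = ∑ p : A × B, if p.2 = b then proj act (chr ψ p) else 0 := by
          rw [Finset.mul_sum]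
          exact Finset.sum_congr rfl fun p _ => hprod p
      _ = _ := by
          rw [Fintype.sum_prod_type]
          exact Finset.sum_congr rfl fun a _ => Fintype.sum_ite_eq' b _
  have h := congrArg (LinearMap.trace ℂ V) key
  rw [map_sum] at h
  simp only [trace_proj] at h
  exact_mod_cast h

omit [FiniteDimensional ℂ V] in
/-- Reindexed coordinates. -/
theorem mu_reindex {N : Type*} [AddCommGroup N] [SelfDual F N] (act : AddChar M (Module.End ℂ V))
    (e : N →+ M) (he : Function.Surjective e) {a : M} {c : N}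
    (h : ∀ y, pair (F := F) a (e y) = pair c y) : mu ψ (act.compAddMonoidHom e) c = mu ψ act a := by
  have : wt (act.compAddMonoidHom e) (chr ψ c) = wt act (chr ψ a) := by
    ext v
    simp only [mem_wt, AddChar.compAddMonoidHom_apply]
    refine ⟨fun hv x => ?_, fun hv y => by rw [hv, h]⟩
    obtain ⟨y, rfl⟩ := he x
    rw [hv, h]
  rw [mu, this, mu]

omit [FiniteDimensional ℂ V] in
/-- An action which agrees on a subspace containing its weight space. -/
theorem mu_restrict (W : Submodule ℂ V) (act : AddChar M (Module.End ℂ V))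
    (act0 : AddChar M (Module.End ℂ W)) (h : ∀ x (w : W), act x (w : V) = (act0 x w : V)) {a : M}
    (hW : ∀ v, (∀ x, act x v = ψ (pair a x) • v) → v ∈ W) : mu ψ act a = mu ψ act0 a := by
  have : wt act (chr ψ a) = (wt act0 (chr ψ a)).map W.subtype := by
    ext v
    refine ⟨fun hv => ⟨⟨v, hW v hv⟩, fun x => Subtype.ext ?_, rfl⟩, ?_⟩
    · rw [← h]; exact hv x
    · rintro ⟨w, hw, rfl⟩ x
      show act x (w : V) = _
      rw [h, hw x]; rfl
  rw [mu, this, mu, Submodule.finrank_map_subtype_eq]

/-- Two commuting actions combined. -/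
noncomputable def prodAct {A B : Type*} [AddCommGroup A] [AddCommGroup B] {R : Type*} [Monoid R]
    (f : AddChar A R) (g : AddChar B R) (h : ∀ a b, g b * f a = f a * g b) : AddChar (A × B) R where
  toFun x := f x.1 * g x.2
  map_zero_eq_one' := by
    rw [Prod.fst_zero, Prod.snd_zero, AddChar.map_zero_eq_one, AddChar.map_zero_eq_one, one_mul]
  map_add_eq_mul' x y := by
    rw [Prod.fst_add, Prod.snd_add, AddChar.map_add_eq_mul, AddChar.map_add_eq_mul, mul_assoc,
      mul_assoc (f x.1), ← mul_assoc (g x.2), h, mul_assoc]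

theorem prodAct_apply {A B : Type*} [AddCommGroup A] [AddCommGroup B] {R : Type*} [Monoid R]
    (f : AddChar A R) (g : AddChar B R) (h : ∀ a b, g b * f a = f a * g b) (x : A × B) :
    prodAct f g h x = f x.1 * g x.2 := rfl

theorem prodAct_comm {A B : Type*} [AddCommGroup A] [AddCommGroup B] {R : Type*} [Monoid R]
    (f : AddChar A R) (g : AddChar B R) (h : ∀ a b, g b * f a = f a * g b) (z : R)
    (hf : ∀ a, f a * z = z * f a) (hg : ∀ b, g b * z = z * g b) (x : A × B) :
    prodAct f g h x * z = z * prodAct f g h x := by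
  rw [prodAct_apply, mul_assoc, hg, ← mul_assoc, hf, mul_assoc]

end CfsgLib.G2Deg97
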